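import Cfsg.Agent.Lib.Helper32.BG10Basic
import Cfsg.Agent.Lib.Helper66.Cores

/-!
# B&G Section 10, piece Q11S (`sigmaCore_le_commutator`) for helper15
-/

set_option autoImplicit false
open Cfsg Cfsg.Agent.Lib.Helper32 Cfsg.Agent.Lib.Helper32.BG10
open scoped commutatorElement

namespace Cfsg.Agent.Lib.Helper30.BG10

universe u
variable {G : Type u} [Group G] [Finite G]

/-- A normal subgroup of a finite group `Λ` lies in a normal subgroup `C` as soon as, for every
prime `q` dividing its order, all Sylow `q`-subgroups of `Λ` lie in `C`. -/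
theorem q11s_le_of_sylow {Λ : Type*} [Group Λ] [Finite Λ] (N C : Subgroup Λ)
    (h : ∀ q : ℕ, q.Prime → q ∣ Nat.card N → ∀ [Fact q.Prime] (S : Sylow q Λ),
      (S : Subgroup Λ) ≤ C) : N ≤ C := by
  have h0 : N = (⊤ : Subgroup ↥N).map N.subtype := by
    rw [← MonoidHom.range_eq_map, Subgroup.range_subtype]
  have h1 : (⊤ : Subgroup ↥N).map N.subtype ≤ C := by
    rw [← Cfsg.Agent.Lib.Helper66.iSup_sylow_eq_top ↥N, Subgroup.map_iSup]
    apply iSup_le
    intro q
    rw [Subgroup.map_iSup]
    apply iSup_le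
    intro hq
    rw [Subgroup.map_iSup]
    apply iSup_le
    intro S
    haveI : Fact q.Prime := ⟨hq⟩
    by_cases hqN : q ∣ Nat.card N
    · have hSp : IsPGroup q ((S : Subgroup ↥N).map N.subtype) := S.2.map _
      obtain ⟨Q, hQ⟩ := hSp.exists_le_sylow
      exact hQ.trans (h q hq hqN Q)
    · have hS1 : Nat.card (S : Subgroup ↥N) = 1 := by
        rw [S.card_eq_multiplicity, Nat.factorization_eq_zero_of_not_dvd hqN, pow_zero]
      rw [Subgroup.card_eq_one.mp hS1, Subgroup.map_bot]
      exact bot_le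
  calc N = (⊤ : Subgroup ↥N).map N.subtype := h0
    _ ≤ C := h1

/-- **Piece Q11S**. -/
theorem sigmaCore_le_commutator (hG : IsMinSimpleOddOrder G) (hder : SigDer G) {M : Subgroup G}
    (hM : IsCoatom M) : sigmaCore M ≤ ⁅M, M⁆ := by
  have hcore : piCore (sigma M) ↥M ≤ commutator ↥M := by
    apply q11s_le_of_sylow
    intro q hq hqd _ S
    exact hder M hM q (Cfsg.Agent.Lib.Helper66.isPi_piCore (sigma M) q hq hqd) S
  show (piCore (sigma M) ↥M).map M.subtype ≤ ⁅M, M⁆
  rw [← Subgroup.map_subtype_commutator M]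
  exact Subgroup.map_mono hcore

end Cfsg.Agent.Lib.Helper30.BG10
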