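import Mathlib
import Cfsg.Agent.Lib.Helper32.BG10Basic
import Cfsg.Agent.S1242

/-!
# B&G Section 10, piece P2A (`sigma_der`) for helper32

For `p ∈ σ(M)` the Sylow `p`-subgroups of `M` lie in `M'` (transfer S1242 + B&G 10.1).
-/

set_option autoImplicit false

open Cfsg Cfsg.Agent.Lib.Helper32 Cfsg.Agent.Lib.Helper32.BG10
open scoped commutatorElement

namespace Cfsg.Agent.Lib.Helper30.BG10

/-- If `Λ = O^p(Λ) Λ'` then `|Λ : Λ'|` is prime to `p`. -/
theorem index_commutator_coprime {Λ : Type*} [Group Λ] [Finite Λ] (p : ℕ) [Fact p.Prime]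
    (h : pResidual p Λ ⊔ commutator Λ = ⊤) : ((commutator Λ).index).Coprime p := by
  have hp : p.Prime := Fact.out
  rw [Nat.coprime_comm, hp.coprime_iff_not_dvd]
  intro hdvd
  rw [Subgroup.index_eq_card] at hdvd
  have hdvd' : p ∣ Nat.card (Abelianization Λ) := hdvd
  obtain ⟨q, hq⟩ := exists_prime_orderOf_dvd_card' p hdvd'
  have hcard := Nat.ordProj_mul_ordCompl_eq_self (Nat.card (Abelianization Λ)) p
  have hker : ∀ x : Λ, (Abelianization.of x) ^
      (Nat.card (Abelianization Λ) / p ^ (Nat.card (Abelianization Λ)).factorization p) = 1 := by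
    have hle : pResidual p Λ ⊔ commutator Λ ≤
        ((powMonoidHom (Nat.card (Abelianization Λ) /
          p ^ (Nat.card (Abelianization Λ)).factorization p) :
            Abelianization Λ →* Abelianization Λ).comp Abelianization.of).ker := by
      refine sup_le ?_ ?_
      · rw [pResidual, Subgroup.closure_le]
        intro g hg
        rw [SetLike.mem_coe, MonoidHom.mem_ker]
        show (Abelianization.of g) ^ _ = 1
        rw [← orderOf_dvd_iff_pow_eq_one]
        have h1 : orderOf (Abelianization.of g) ∣ orderOf g := orderOf_map_dvd _ g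
        have h2 : (orderOf (Abelianization.of g)).Coprime p :=
          Nat.Coprime.coprime_dvd_left h1 hg
        have h3 : orderOf (Abelianization.of g) ∣ Nat.card (Abelianization Λ) :=
          orderOf_dvd_natCard _
        rw [← hcard] at h3
        exact Nat.Coprime.dvd_of_dvd_mul_left (Nat.Coprime.pow_right _ h2) h3
      · intro g hg
        rw [MonoidHom.mem_ker]
        show (Abelianization.of g) ^ _ = 1
        have h1 : Abelianization.of g = 1 := by
          rwa [← MonoidHom.mem_ker, Abelianization.ker_of]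
        rw [h1, one_pow]
    intro x
    exact MonoidHom.mem_ker.mp (hle (h ▸ Subgroup.mem_top x))
  obtain ⟨x, rfl⟩ := QuotientGroup.mk_surjective q
  have hqn := hker x
  have h5 : orderOf (Abelianization.of x) ∣ _ := orderOf_dvd_of_pow_eq_one hqn
  have hq' : orderOf (Abelianization.of x) = p := hq
  rw [hq'] at h5
  exact Nat.not_dvd_ordCompl hp Nat.card_pos.ne' h5

universe u
variable {G : Type u} [Group G] [Finite G]

/-- **Piece P2A**. -/
theorem sigma_der (hG : IsMinSimpleOddOrder G) (h1 : H1 G) : SigDer G := by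
  intro M hM p _ hp P
  have hpp : p.Prime := Fact.out
  -- (1) the index of `M` is prime to `p`
  have hidx : Nat.Coprime p M.index := by
    have hs := (sigma_sylow hp P).2
    have hcard : Nat.card ((P : Subgroup ↥M).map M.subtype)
        = p ^ (Nat.card G).factorization p := by
      have h0 := hs.2
      rwa [Subgroup.card_top] at h0
    have hdvd : p ^ (Nat.card G).factorization p ∣ Nat.card M := by
      rw [← hcard]
      exact Subgroup.card_dvd_of_le (by rintro x ⟨y, -, rfl⟩; exact y.2)
    rw [hpp.coprime_iff_not_dvd]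
    intro hpdvd
    have h2 : p ^ ((Nat.card G).factorization p + 1) ∣ Nat.card G := by
      have h3 := Nat.mul_dvd_mul hdvd hpdvd
      rw [M.card_mul_index, ← pow_succ] at h3
      exact h3
    exact Nat.pow_succ_factorization_not_dvd Nat.card_pos.ne' hpp h2
  -- (2) control of fusion of `p`-elements
  have hfus : ∀ g ∈ M, (∃ k : ℕ, orderOf g = p ^ k) → ∀ a : G, a * g * a⁻¹ ∈ M →
      ∃ h ∈ M, h * g * h⁻¹ = a * g * a⁻¹ := by
    rintro g hgM ⟨k, hk⟩ a ha
    by_cases hg1 : g = 1
    · subst hg1
      exact ⟨1, M.one_mem, by simp⟩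
    · have hXp : IsPGroup p (Subgroup.zpowers g) :=
        IsPGroup.of_card (n := k) (by rw [Nat.card_zpowers, hk])
      have hX1 : Subgroup.zpowers g ≠ ⊥ := by
        rw [Ne, Subgroup.zpowers_eq_bot]; exact hg1
      have hXM : Subgroup.zpowers g ≤ M := Subgroup.zpowers_le.mpr hgM
      have hconj : (Subgroup.zpowers g).map (MulAut.conj a).toMonoidHom ≤ M := by
        rw [MonoidHom.map_zpowers]
        exact Subgroup.zpowers_le.mpr ha
      obtain ⟨m, hm, c, hc, rfl⟩ := (h1 M hM p hp (Subgroup.zpowers g) hXp hX1 hXM).1 a hconj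
      refine ⟨m, hm, ?_⟩
      have hcg : c * g = g * c :=
        (Subgroup.mem_centralizer_iff.mp hc g (Subgroup.mem_zpowers g)).symm
      calc m * g * m⁻¹ = m * (g * c) * c⁻¹ * m⁻¹ := by group
        _ = m * c * g * (m * c)⁻¹ := by rw [← hcg]; group
  -- (3) transfer
  have htr := Cfsg.Agent.S1242.result M hidx hfus
  have hcomm : commutator G = ⊤ := by
    have hsimple : IsSimpleGroup G := hG.2.1
    rcases (inferInstance : (commutator G).Normal).eq_bot_or_eq_top with h | h
    · exfalso
      apply hG.2.2.1
      refine ⟨⟨fun a b => ?_⟩⟩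
      have h3 : ⁅a, b⁆ ∈ commutator G := by
        rw [commutator_def]
        exact Subgroup.commutator_mem_commutator (Subgroup.mem_top a) (Subgroup.mem_top b)
      rw [h, Subgroup.mem_bot] at h3
      exact commutatorElement_eq_one_iff_mul_comm.mp h3
    · exact h
  rw [hcomm, sup_top_eq, top_inf_eq] at htr
  have htop : pResidual p ↥M ⊔ commutator ↥M = ⊤ := by
    rw [eq_top_iff]
    intro x _
    have hx : (x : G) ∈ (pResidual p ↥M ⊔ commutator ↥M).map M.subtype := by
      rw [← htr]; exact x.2
    obtain ⟨y, hy, hyx⟩ := hx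
    have : y = x := Subtype.ext hyx
    rwa [← this]
  -- (4), (5)
  exact sylow_le_of_index_coprime p P (commutator ↥M) (index_commutator_coprime p htop)

end Cfsg.Agent.Lib.Helper30.BG10
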