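import Mathlib
import Cfsg.Agent.Lib.Helper32.BG10Basic
import Cfsg.Agent.Lib.Helper30.BG10P7A
import Cfsg.Agent.Lib.Helper66.Cores
import Cfsg.Agent.S1459

/-!
# B&G Section 10, piece P7B (`bg10_7` = S1410 modulo the interface hypotheses) for helper32

Every proper subgroup of a minimal simple group of odd order has `p`-length one.
-/

set_option autoImplicit false

open Cfsg Cfsg.Agent.Lib.Helper32 Cfsg.Agent.Lib.Helper32.BG10
open scoped commutatorElement

namespace Cfsg.Agent.Lib.Helper30.BG10

/-- Case of `p`-rank at most two. -/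
theorem p7b_rank2 {Λ : Type*} [Group Λ] [Finite Λ] [Group.IsSolvable Λ]
    (hodd : Odd (Nat.card Λ)) (p : ℕ) [Fact p.Prime] (hr : PRankLE p 2 Λ) :
    PLengthLE p 1 Λ := by
  have hp : p.Prime := Fact.out
  by_cases hp2 : p = 2
  · have hcop : (Nat.card Λ).Coprime p := by
      rw [hp2]; exact (Nat.coprime_two_left.mpr hodd).symm
    exact plen_of_series p ⊤ ⊤ le_rfl (by rw [Subgroup.card_top]; exact hcop)
      ⟨0, by rw [Subgroup.relIndex_self, pow_zero]⟩
      (by rw [Subgroup.index_top]; exact Nat.coprime_one_left p)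
  · obtain ⟨S⟩ := (inferInstance : Nonempty (Sylow p Λ))
    have hS := sylow_le_pPrimePCore_of_rank2 hodd p hp2 hr S
    haveI hn : (pPrimePCore p Λ).Normal := pPrimePCore_normal32 p
    refine plen_of_series p (pPrimeCore p Λ) (pPrimePCore p Λ) (pPrimeCore_le_pPrimePCore32 p)
      (Cfsg.Agent.Lib.Helper30.pPrimeCore_coprime p) (relIndex_pPrimeCore_pPrimePCore p) ?_
    have h1 : (pPrimePCore p Λ).index ∣ (S : Subgroup Λ).index := Subgroup.index_dvd_of_le hS
    have h2 : ¬ p ∣ (S : Subgroup Λ).index := S.not_dvd_index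
    exact (hp.coprime_iff_not_dvd.mpr (fun h => h2 (h.trans h1))).symm

universe u
variable {G : Type u} [Group G] [Finite G]

/-- **Piece P7B**. -/
theorem bg10_7 (hG : IsMinSimpleOddOrder G) (hUT : UT G) (hder : SigDer G) (h2 : H2 G)
    (h4 : H4 G) (h1444 : H1444.{u}) : H7 G := by
  intro p _ H hH
  have hp : p.Prime := Fact.out
  obtain ⟨M, hM, hHM⟩ := exists_coatom_ge hH
  refine plen_subgroup p hHM ?_
  haveI hMs : Group.IsSolvable ↥M := minSimple_solvable hG hM.1
  have hModd : Odd (Nat.card ↥M) := minSimple_odd_sub hG M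
  by_cases hr : PRankLE p 2 ↥M
  · exact p7b_rank2 hModd p hr
  · have hpα : p ∈ alpha M := ⟨hp, hr⟩
    obtain ⟨⟨-, hαπ, hαidx⟩, -, -, -, -⟩ := h2 M hM
    -- the normal Hall subgroup `N`
    obtain ⟨N, hNdef⟩ : ∃ N : Subgroup ↥M, N = piCore (alpha M) ↥M := ⟨_, rfl⟩
    haveI hNn : N.Normal := by rw [hNdef]; infer_instance
    have hαN : alphaCore M = N.map M.subtype := by rw [hNdef]; rfl
    have hcardα : Nat.card (alphaCore M) = Nat.card N := by
      rw [hαN]; exact Cfsg.Agent.Lib.Helper30.card_map_subtype N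
    have hrel : (alphaCore M).relIndex M = N.index := by
      rw [hαN]
      show ((N.map M.subtype).subgroupOf M).index = N.index
      have h0 : (N.map M.subtype).subgroupOf M = N :=
        Subgroup.comap_map_eq_self_of_injective M.subtype_injective N
      rw [h0]
    have hπ : ∀ q : ℕ, q.Prime → q ∣ Nat.card N → q ∈ alpha M := fun q hq hqd =>
      hαπ q hq (hcardα ▸ hqd)
    have hπ' : ∀ q : ℕ, q.Prime → q ∈ alpha M → ¬ q ∣ N.index := fun q hq hqα =>
      hrel ▸ hαidx q hq hqα
    have hHall : (Nat.card N).Coprime N.index :=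
      Nat.coprime_of_dvd (fun k hk hk1 hk2 => hπ' k hk (hπ k hk hk1) hk2)
    have hNidx : (N.index).Coprime p := (hp.coprime_iff_not_dvd.mpr (hπ' p hp hpα)).symm
    -- `p` divides `|M|`
    have hpM : p ∣ Nat.card ↥M := by
      have hr' := hr
      unfold PRankLE at hr'
      push Not at hr'
      obtain ⟨A, -, hAe, hAc⟩ := hr'
      have hA1 : 1 < Nat.card A := lt_of_le_of_lt (Nat.one_le_pow _ _ hp.pos) hAc
      haveI : Nontrivial ↥A := Finite.one_lt_card_iff_nontrivial.mp hA1
      obtain ⟨a, ha⟩ := exists_ne (1 : ↥A)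
      have ha1 : (a : ↥M) ≠ 1 := fun h => ha (Subtype.ext h)
      have hao : orderOf (a : ↥M) = p := orderOf_eq_prime (hAe a a.2) ha1
      rw [← hao]
      exact orderOf_dvd_natCard _
    have hpN : p ∣ Nat.card N := by
      have h0 := N.card_mul_index
      rw [← h0] at hpM
      exact (Nat.Coprime.dvd_mul_right (hp.coprime_iff_not_dvd.mpr (hπ' p hp hpα))).mp hpM
    have hN1 : N ≠ ⊥ := by
      rintro rfl
      rw [Subgroup.card_bot] at hpN
      exact hp.one_lt.ne' (Nat.dvd_one.mp hpN)
    have hα1 : alphaCore M ≠ ⊥ := by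
      rw [hαN]
      intro h
      exact hN1 ((Subgroup.map_eq_bot_iff_of_injective N M.subtype_injective).mp h)
    -- (a) `N ≤ M'`
    have hNder : N ≤ commutator ↥M := by
      have h0 : N = (⊤ : Subgroup ↥N).map N.subtype := by
        rw [← MonoidHom.range_eq_map, Subgroup.range_subtype]
      have h1 : (⊤ : Subgroup ↥N).map N.subtype ≤ commutator ↥M := by
        rw [← Cfsg.Agent.Lib.Helper66.iSup_sylow_eq_top ↥N, Subgroup.map_iSup]
        apply iSup_le
        intro q
        rw [Subgroup.map_iSup]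
        apply iSup_le
        intro hq
        rw [Subgroup.map_iSup]
        apply iSup_le
        intro S
        haveI : Fact q.Prime := ⟨hq⟩
        by_cases hqN : q ∣ Nat.card N
        · have hqσ : q ∈ sigma M := alpha_sub_sigma hG hUT hM (hπ q hq hqN)
          have hSp : IsPGroup q ((S : Subgroup ↥N).map N.subtype) := S.2.map _
          obtain ⟨Q, hQ⟩ := hSp.exists_le_sylow
          exact hQ.trans (hder M hM q hqσ Q)
        · have hS1 : Nat.card (S : Subgroup ↥N) = 1 := by
            rw [S.card_eq_multiplicity, Nat.factorization_eq_zero_of_not_dvd hqN, pow_zero]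
          rw [Subgroup.card_eq_one.mp hS1, Subgroup.map_bot]
          exact bot_le
      calc N = (⊤ : Subgroup ↥N).map N.subtype := h0
        _ ≤ commutator ↥M := h1
    -- (b) a prime `q ∉ σ(M)` dividing `|M : M'|`
    have hM1 : 1 < Nat.card ↥M := lt_of_lt_of_le hp.one_lt (Nat.le_of_dvd Nat.card_pos hpM)
    haveI : Nontrivial ↥M := Finite.one_lt_card_iff_nontrivial.mp hM1
    have hclt : commutator ↥M < ⊤ := IsSolvable.commutator_lt_top_of_nontrivial ↥M
    have hidx1 : (commutator ↥M).index ≠ 1 := fun h => hclt.ne (Subgroup.index_eq_one.mp h)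
    obtain ⟨q, hq, hqdvd⟩ := Nat.exists_prime_and_dvd hidx1
    haveI : Fact q.Prime := ⟨hq⟩
    have hqM : q ∣ Nat.card ↥M := hqdvd.trans (Subgroup.index_dvd_card _)
    have hqσ : q ∉ sigma M := by
      intro hqs
      obtain ⟨S⟩ := (inferInstance : Nonempty (Sylow q ↥M))
      have hS := hder M hM q hqs S
      exact S.not_dvd_index (hqdvd.trans (Subgroup.index_dvd_of_le hS))
    have hqα : q ∉ alpha M := fun h => hqσ (alpha_sub_sigma hG hUT hM h)
    have hqN : ¬ q ∣ Nat.card N := fun h => hqα (hπ q hq h)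
    -- (c) the element `x`
    obtain ⟨Qs⟩ := (inferInstance : Nonempty (Sylow q ↥M))
    obtain ⟨x, hxc, hxo, hZ, -⟩ := h4 M hM hα1 q hqM hqσ Qs
    obtain ⟨x', hx', rfl⟩ := hxc
    obtain ⟨z, -, rfl⟩ := hx'
    have hzQ : ((Qs : Subgroup ↥M).subtype z) ∈ (Qs : Subgroup ↥M) := z.2
    have hxo' : orderOf ((Qs : Subgroup ↥M).subtype z) = q :=
      (Subgroup.orderOf_coe _).symm.trans hxo
    -- (d) a complement containing `x'`
    obtain ⟨K0, hK0⟩ := Subgroup.exists_right_complement'_of_coprime hHall
    have hcm : Nat.card N * Nat.card K0 = Nat.card ↥M := hK0.card_mul_card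
    have hK0card : Nat.card K0 = N.index := by
      have h0 := N.card_mul_index
      rw [← hcm] at h0
      exact (Nat.eq_of_mul_eq_mul_left Nat.card_pos h0).symm
    obtain ⟨P0⟩ := (inferInstance : Nonempty (Sylow q ↥K0))
    have hQ1card : Nat.card ((P0 : Subgroup ↥K0).map K0.subtype)
        = q ^ (Nat.card ↥M).factorization q := by
      rw [Cfsg.Agent.Lib.Helper30.card_map_subtype, P0.card_eq_multiplicity, ← hcm,
        Nat.factorization_mul Nat.card_pos.ne' Nat.card_pos.ne', Finsupp.add_apply,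
        Nat.factorization_eq_zero_of_not_dvd hqN, zero_add]
    obtain ⟨g, hg⟩ := MulAction.exists_smul_eq ↥M
      (Sylow.ofCard ((P0 : Subgroup ↥K0).map K0.subtype) hQ1card) Qs
    have hxK : ((Qs : Subgroup ↥M).subtype z) ∈ K0.map (MulAut.conj g).toMonoidHom := by
      have h0 : ((Qs : Subgroup ↥M).subtype z) ∈
          ((g • Sylow.ofCard ((P0 : Subgroup ↥K0).map K0.subtype) hQ1card : Sylow q ↥M) :
            Subgroup ↥M) := by
        rw [hg]; exact hzQ
      rw [Sylow.smul_def, Sylow.pointwise_smul_def,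
        Subgroup.mem_pointwise_smul_iff_inv_smul_mem] at h0
      obtain ⟨y, -, hy⟩ := Subgroup.mem_map.mp h0
      refine Subgroup.mem_map.mpr ⟨K0.subtype y, y.2, ?_⟩
      rw [hy]
      show g * ((MulAut.conj g)⁻¹ • ((Qs : Subgroup ↥M).subtype z)) * g⁻¹ = _
      rw [MulAut.smul_def, MulAut.conj_inv_apply]
      group
    have hKcard : Nat.card (K0.map (MulAut.conj g).toMonoidHom) = Nat.card K0 :=
      Subgroup.card_map_of_injective (MulAut.conj g).injective
    have hcompl : Subgroup.IsComplement' N (K0.map (MulAut.conj g).toMonoidHom) :=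
      Subgroup.isComplement'_of_coprime (by rw [hKcard]; exact hcm)
        (by rw [hKcard, hK0card]; exact hHall)
    have hR0K : Subgroup.zpowers ((Qs : Subgroup ↥M).subtype z)
        ≤ K0.map (MulAut.conj g).toMonoidHom := Subgroup.zpowers_le.mpr hxK
    have hR0p : (Nat.card (Subgroup.zpowers ((Qs : Subgroup ↥M).subtype z))).Prime := by
      rw [Nat.card_zpowers, hxo']; exact hq
    have hZ' : IsZGroup ↥(N ⊓ Subgroup.centralizer
        ((Subgroup.zpowers ((Qs : Subgroup ↥M).subtype z) : Subgroup ↥M) : Set ↥M)) := by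
      haveI := hZ
      have hmem : ∀ y : ↥(N ⊓ Subgroup.centralizer
          ((Subgroup.zpowers ((Qs : Subgroup ↥M).subtype z) : Subgroup ↥M) : Set ↥M)),
          (M.subtype.comp (Subgroup.subtype _)) y ∈ alphaCore M ⊓ Subgroup.centralizer
            ({M.subtype ((Qs : Subgroup ↥M).subtype z)} : Set G) := by
        intro y
        obtain ⟨hy1, hy2⟩ := Subgroup.mem_inf.mp y.2
        refine Subgroup.mem_inf.mpr ⟨?_, ?_⟩
        · rw [hαN]; exact Subgroup.mem_map_of_mem M.subtype hy1
        · rw [Subgroup.mem_centralizer_iff]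
          intro e he
          rw [Set.mem_singleton_iff] at he
          subst he
          have h0 := Subgroup.mem_centralizer_iff.mp hy2 _ (Subgroup.mem_zpowers _)
          exact congrArg Subtype.val h0
      have hφ : Function.Injective ((M.subtype.comp (Subgroup.subtype _)).codRestrict _ hmem) := by
        intro a b hab
        have h0 := congrArg Subtype.val hab
        exact Subtype.ext (Subtype.ext h0)
      exact IsZGroup.of_injective hφ
    -- (e), (f)
    have h5 := h1444 ↥M hModd N (K0.map (MulAut.conj g).toMonoidHom)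
      (Subgroup.zpowers ((Qs : Subgroup ↥M).subtype z)) hHall hcompl hR0K hR0p hZ' p
    have h6 := ((Cfsg.Agent.S1459.result (G := ↥M)).1 N (K0.map (MulAut.conj g).toMonoidHom)
      hNn hHall hcompl hNder).1
    have h7 : PLengthLE p 1 ↥N := by
      rw [← h6] at h5; exact h5
    exact plen_of_normal p N hNidx h7

end Cfsg.Agent.Lib.Helper30.BG10
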