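import Mathlib
import Cfsg.Agent.Lib.Helper18.LSDefs

/-!
# Project LS (helper18, S2333), piece TINJ: the injection
`{independent pairs} × ann × ann → orb M × Omega`
-/

set_option autoImplicit false

namespace Cfsg.Agent.Lib.Helper18.LS

open Matrix

universe u

variable {F : Type u} [Field F] {n : ℕ}

theorem tinj_shear_fix (u₀ v₀ ℓ m x : Fin n → F) (h1 : ℓ ⬝ᵥ x = 0) (h2 : m ⬝ᵥ x = 0) :
    shearM u₀ v₀ ℓ m *ᵥ x = x := by
  rw [shearM_mulVec, h1, h2, zero_smul, zero_smul, add_zero, add_zero]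

theorem tinj_gl_cancel (g : GL (Fin n) F) (x : Fin n → F) :
    ((g⁻¹ : GL (Fin n) F) : Matrix (Fin n) (Fin n) F) *ᵥ
      ((g : Matrix (Fin n) (Fin n) F) *ᵥ x) = x := by
  rw [mulVec_mulVec, ← Units.val_mul, inv_mul_cancel, Units.val_one, one_mulVec]

theorem tinj_gl_cancel' (g : GL (Fin n) F) (x : Fin n → F) :
    (g : Matrix (Fin n) (Fin n) F) *ᵥ
      (((g⁻¹ : GL (Fin n) F) : Matrix (Fin n) (Fin n) F) *ᵥ x) = x := by
  rw [mulVec_mulVec, ← Units.val_mul, mul_inv_cancel, Units.val_one, one_mulVec]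

-- piece TINJ
theorem card_inj [Fintype F] [CharP F 2] (M : Matrix (Fin n) (Fin n) F) (u₀ v₀ : Fin n → F)
    (h : bl M u₀ v₀ = 1)
    (htrans : ∀ u v : Fin n → F, Indep u v → ∃ g : GL (Fin n) F,
      (g : Matrix (Fin n) (Fin n) F) *ᵥ u = u₀ ∧ (g : Matrix (Fin n) (Fin n) F) *ᵥ v = v₀)
    (hgl : ∀ ℓ m : Fin n → F, ℓ ∈ ann u₀ v₀ → m ∈ ann u₀ v₀ →
      ∃ g : GL (Fin n) F, (g : Matrix (Fin n) (Fin n) F) = shearM u₀ v₀ ℓ m)
    (hinj : ∀ ℓ m ℓ' m' : Fin n → F, ℓ ∈ ann u₀ v₀ → m ∈ ann u₀ v₀ → ℓ' ∈ ann u₀ v₀ →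
      m' ∈ ann u₀ v₀ → (∀ x : Fin n → F,
        qf M (shearM u₀ v₀ ℓ m *ᵥ x) = qf M (shearM u₀ v₀ ℓ' m' *ᵥ x)) → ℓ = ℓ' ∧ m = m') :
    Nat.card {p : (Fin n → F) × (Fin n → F) | Indep p.1 p.2} * Nat.card (ann u₀ v₀) ^ 2 ≤
      Nat.card (orb M) * Nat.card (Omega M (qf M u₀) (qf M v₀)) := by
  classical
  choose gp hgp1 hgp2 using
    fun (p : {p : (Fin n → F) × (Fin n → F) | Indep p.1 p.2}) => htrans p.1.1 p.1.2 p.2
  choose τ hτ using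
    fun (x : ann u₀ v₀ × ann u₀ v₀) => hgl x.1.1 x.2.1 x.1.2 x.2.2
  choose gφ hgφ using
    fun (φ : orb M) => (show ∃ g : GL (Fin n) F,
      (fun x : Fin n → F => qf M ((g : Matrix (Fin n) (Fin n) F) *ᵥ x)) = φ.1 from φ.2)
  -- the form attached to (p, ℓ, m)
  let φf : ({p : (Fin n → F) × (Fin n → F) | Indep p.1 p.2} × (ann u₀ v₀ × ann u₀ v₀)) →
      orb M := fun x =>
    ⟨fun y => qf M (((τ x.2 * gp x.1 : GL (Fin n) F) : Matrix (Fin n) (Fin n) F) *ᵥ y),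
      ⟨τ x.2 * gp x.1, rfl⟩⟩
  have hφf : ∀ (x : {p : (Fin n → F) × (Fin n → F) | Indep p.1 p.2} ×
      (ann u₀ v₀ × ann u₀ v₀)) (y : Fin n → F),
      (φf x).1 y = qf M (shearM u₀ v₀ x.2.1.1 x.2.2.1 *ᵥ
        ((gp x.1 : Matrix (Fin n) (Fin n) F) *ᵥ y)) := by
    intro x y
    show qf M (((τ x.2 * gp x.1 : GL (Fin n) F) : Matrix (Fin n) (Fin n) F) *ᵥ y) = _
    rw [Units.val_mul, ← mulVec_mulVec, hτ]
  have hg : ∀ (x : {p : (Fin n → F) × (Fin n → F) | Indep p.1 p.2} ×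
      (ann u₀ v₀ × ann u₀ v₀)) (y : Fin n → F),
      qf M ((gφ (φf x) : Matrix (Fin n) (Fin n) F) *ᵥ y) = (φf x).1 y := by
    intro x y
    exact congrFun (hgφ (φf x)) y
  have hΩ : ∀ x : {p : (Fin n → F) × (Fin n → F) | Indep p.1 p.2} ×
      (ann u₀ v₀ × ann u₀ v₀),
      ((gφ (φf x) : Matrix (Fin n) (Fin n) F) *ᵥ x.1.1.1,
        (gφ (φf x) : Matrix (Fin n) (Fin n) F) *ᵥ x.1.1.2) ∈ Omega M (qf M u₀) (qf M v₀) := by
    intro x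
    have hℓ := x.2.1.2
    have hm := x.2.2.2
    have e1 : qf M ((gφ (φf x) : Matrix (Fin n) (Fin n) F) *ᵥ x.1.1.1) = qf M u₀ := by
      rw [hg, hφf, hgp1, tinj_shear_fix _ _ _ _ _ hℓ.1 hm.1]
    have e2 : qf M ((gφ (φf x) : Matrix (Fin n) (Fin n) F) *ᵥ x.1.1.2) = qf M v₀ := by
      rw [hg, hφf, hgp2, tinj_shear_fix _ _ _ _ _ hℓ.2 hm.2]
    have e3 : qf M ((gφ (φf x) : Matrix (Fin n) (Fin n) F) *ᵥ (x.1.1.1 + x.1.1.2))
        = qf M (u₀ + v₀) := by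
      rw [hg, hφf, mulVec_add, hgp1, hgp2]
      rw [tinj_shear_fix]
      · rw [dotProduct_add, hℓ.1, hℓ.2, add_zero]
      · rw [dotProduct_add, hm.1, hm.2, add_zero]
    refine ⟨e1, e2, ?_⟩
    show bl M ((gφ (φf x) : Matrix (Fin n) (Fin n) F) *ᵥ x.1.1.1)
      ((gφ (φf x) : Matrix (Fin n) (Fin n) F) *ᵥ x.1.1.2) = 1
    rw [mulVec_add, qf_add, qf_add, e1, e2, h] at e3
    exact add_left_cancel e3
  let Φ : ({p : (Fin n → F) × (Fin n → F) | Indep p.1 p.2} × (ann u₀ v₀ × ann u₀ v₀)) →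
      (orb M × Omega M (qf M u₀) (qf M v₀)) := fun x => (φf x, ⟨_, hΩ x⟩)
  have hΦ : Function.Injective Φ := by
    intro x x' hxx
    have h1 : φf x = φf x' := (Prod.mk.inj hxx).1
    have h2 := congrArg Subtype.val (Prod.mk.inj hxx).2
    have h2' : ((gφ (φf x) : Matrix (Fin n) (Fin n) F) *ᵥ x.1.1.1,
        (gφ (φf x) : Matrix (Fin n) (Fin n) F) *ᵥ x.1.1.2) =
        ((gφ (φf x') : Matrix (Fin n) (Fin n) F) *ᵥ x'.1.1.1,
        (gφ (φf x') : Matrix (Fin n) (Fin n) F) *ᵥ x'.1.1.2) := h2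
    rw [← h1] at h2'
    have hu : x.1.1.1 = x'.1.1.1 := by
      have := congrArg (fun w => ((gφ (φf x))⁻¹ : GL (Fin n) F).1 *ᵥ w) (Prod.mk.inj h2').1
      simpa only [tinj_gl_cancel] using this
    have hv : x.1.1.2 = x'.1.1.2 := by
      have := congrArg (fun w => ((gφ (φf x))⁻¹ : GL (Fin n) F).1 *ᵥ w) (Prod.mk.inj h2').2
      simpa only [tinj_gl_cancel] using this
    have hp : x.1 = x'.1 := Subtype.ext (Prod.ext hu hv)
    have hall : ∀ z : Fin n → F,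
        qf M (shearM u₀ v₀ x.2.1.1 x.2.2.1 *ᵥ z) = qf M (shearM u₀ v₀ x'.2.1.1 x'.2.2.1 *ᵥ z) := by
      intro z
      have e := congrFun (congrArg Subtype.val h1)
        (((gp x.1)⁻¹ : GL (Fin n) F).1 *ᵥ z)
      rw [hφf, hφf, ← hp, tinj_gl_cancel'] at e
      exact e
    obtain ⟨e1, e2⟩ := hinj _ _ _ _ x.2.1.2 x.2.2.2 x'.2.1.2 x'.2.2.2 hall
    exact Prod.ext hp (Prod.ext (Subtype.ext e1) (Subtype.ext e2))
  have hcard := Nat.card_le_card_of_injective Φ hΦ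
  rw [Nat.card_prod, Nat.card_prod, Nat.card_prod] at hcard
  rw [sq]
  exact hcard

end Cfsg.Agent.Lib.Helper18.LS
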