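import Mathlib
import Cfsg.Agent.Lib.Helper18.LSDefs

/-!
# Project LS (helper18, S2333), piece TRANS: `GL_n` is transitive on independent pairs
-/

set_option autoImplicit false

namespace Cfsg.Agent.Lib.Helper18.LS

open Matrix

universe u

variable {F : Type u} [Field F] {n : ℕ}

-- piece TRANS
theorem gl_trans (u v u' v' : Fin n → F) (h : Indep u v) (h' : Indep u' v') :
    ∃ g : GL (Fin n) F, (g : Matrix (Fin n) (Fin n) F) *ᵥ u = u' ∧
      (g : Matrix (Fin n) (Fin n) F) *ᵥ v = v' := by
  have hD : LinearIndependent F ![u, v] := LinearIndependent.pair_iff.mpr h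
  have hE : LinearIndependent F ![u', v'] := LinearIndependent.pair_iff.mpr h'
  have q0 : ((hD.linearCombinationEquiv (Finsupp.single 0 1) :
      Submodule.span F (Set.range ![u, v])) : Fin n → F) = u := by simp
  have q1 : ((hD.linearCombinationEquiv (Finsupp.single 1 1) :
      Submodule.span F (Set.range ![u, v])) : Fin n → F) = v := by simp
  have q0' : ((hE.linearCombinationEquiv (Finsupp.single 0 1) :
      Submodule.span F (Set.range ![u', v'])) : Fin n → F) = u' := by simp
  have q1' : ((hE.linearCombinationEquiv (Finsupp.single 1 1) :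
      Submodule.span F (Set.range ![u', v'])) : Fin n → F) = v' := by simp
  obtain ⟨e, he⟩ := Submodule.exists_linearEquiv_restrict_eq
    (hD.linearCombinationEquiv.symm ≪≫ₗ hE.linearCombinationEquiv)
  have hu : e u = u' := by
    have h1 := he (hD.linearCombinationEquiv (Finsupp.single 0 1))
    rw [q0] at h1
    rw [← h1, LinearEquiv.trans_apply, LinearEquiv.symm_apply_apply, q0']
  have hv : e v = v' := by
    have h1 := he (hD.linearCombinationEquiv (Finsupp.single 1 1))
    rw [q1] at h1
    rw [← h1, LinearEquiv.trans_apply, LinearEquiv.symm_apply_apply, q1']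
  have h12 : LinearMap.toMatrix' (e : (Fin n → F) →ₗ[F] (Fin n → F)) *
      LinearMap.toMatrix' (e.symm : (Fin n → F) →ₗ[F] (Fin n → F)) = 1 := by
    rw [← LinearMap.toMatrix'_comp, LinearEquiv.comp_coe, LinearEquiv.symm_trans_self,
      LinearEquiv.refl_toLinearMap, LinearMap.toMatrix'_id]
  have h21 : LinearMap.toMatrix' (e.symm : (Fin n → F) →ₗ[F] (Fin n → F)) *
      LinearMap.toMatrix' (e : (Fin n → F) →ₗ[F] (Fin n → F)) = 1 := by
    rw [← LinearMap.toMatrix'_comp, LinearEquiv.comp_coe, LinearEquiv.self_trans_symm,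
      LinearEquiv.refl_toLinearMap, LinearMap.toMatrix'_id]
  refine ⟨⟨LinearMap.toMatrix' (e : (Fin n → F) →ₗ[F] (Fin n → F)),
    LinearMap.toMatrix' (e.symm : (Fin n → F) →ₗ[F] (Fin n → F)), h12, h21⟩, ?_, ?_⟩
  · show LinearMap.toMatrix' (e : (Fin n → F) →ₗ[F] (Fin n → F)) *ᵥ u = u'
    rw [LinearMap.toMatrix'_mulVec]
    exact hu
  · show LinearMap.toMatrix' (e : (Fin n → F) →ₗ[F] (Fin n → F)) *ᵥ v = v'
    rw [LinearMap.toMatrix'_mulVec]
    exact hv

end Cfsg.Agent.Lib.Helper18.LS
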