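import Mathlib
import Cfsg.Prelude.Def_Classical
import Cfsg.Agent.Lib.Helper18.UEDefs

/-!
# Project UE (helper18, S2335), piece TRANS: `SL_m` is transitive on nonzero vectors (`m ≥ 2`)
-/

set_option autoImplicit false

namespace Cfsg.Agent.Lib.Helper18.UE

open Matrix

universe u

variable {F : Type u} [Field F] {m : ℕ}

private theorem uetrans_gl (u v : Fin m → F) (hu : u ≠ 0) (hv : v ≠ 0) :
    ∃ g : GL (Fin m) F, (g : Matrix (Fin m) (Fin m) F) *ᵥ u = v := by
  have hD : LinearIndependent F ![u] :=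
    linearIndependent_unique_iff.mpr (by simpa using hu)
  have hE : LinearIndependent F ![v] :=
    linearIndependent_unique_iff.mpr (by simpa using hv)
  have q0 : ((hD.linearCombinationEquiv (Finsupp.single 0 1) :
      Submodule.span F (Set.range ![u])) : Fin m → F) = u := by simp
  have q0' : ((hE.linearCombinationEquiv (Finsupp.single 0 1) :
      Submodule.span F (Set.range ![v])) : Fin m → F) = v := by simp
  obtain ⟨e, he⟩ := Submodule.exists_linearEquiv_restrict_eq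
    (hD.linearCombinationEquiv.symm ≪≫ₗ hE.linearCombinationEquiv)
  have hu' : e u = v := by
    have h1 := he (hD.linearCombinationEquiv (Finsupp.single 0 1))
    rw [q0] at h1
    rw [← h1, LinearEquiv.trans_apply, LinearEquiv.symm_apply_apply, q0']
  have h12 : LinearMap.toMatrix' (e : (Fin m → F) →ₗ[F] (Fin m → F)) *
      LinearMap.toMatrix' (e.symm : (Fin m → F) →ₗ[F] (Fin m → F)) = 1 := by
    rw [← LinearMap.toMatrix'_comp, LinearEquiv.comp_coe, LinearEquiv.symm_trans_self,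
      LinearEquiv.refl_toLinearMap, LinearMap.toMatrix'_id]
  have h21 : LinearMap.toMatrix' (e.symm : (Fin m → F) →ₗ[F] (Fin m → F)) *
      LinearMap.toMatrix' (e : (Fin m → F) →ₗ[F] (Fin m → F)) = 1 := by
    rw [← LinearMap.toMatrix'_comp, LinearEquiv.comp_coe, LinearEquiv.self_trans_symm,
      LinearEquiv.refl_toLinearMap, LinearMap.toMatrix'_id]
  refine ⟨⟨LinearMap.toMatrix' (e : (Fin m → F) →ₗ[F] (Fin m → F)),
    LinearMap.toMatrix' (e.symm : (Fin m → F) →ₗ[F] (Fin m → F)), h12, h21⟩, ?_⟩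
  show LinearMap.toMatrix' (e : (Fin m → F) →ₗ[F] (Fin m → F)) *ᵥ u = v
  rw [LinearMap.toMatrix'_mulVec]
  exact hu'

-- piece TRANS
theorem sl_trans (hm : 2 ≤ m) (u v : Fin m → F) (hu : u ≠ 0) (hv : v ≠ 0) :
    ∃ g : SpecialLinearGroup (Fin m) F, (g : Matrix (Fin m) (Fin m) F) *ᵥ u = v := by
  classical
  set i0 : Fin m := ⟨0, by omega⟩ with hi0
  set i1 : Fin m := ⟨1, by omega⟩ with hi1
  have h01 : i0 ≠ i1 := by
    intro h
    have h' := congrArg Fin.val h
    simp [hi0, hi1] at h'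
  have he0 : (Pi.single i0 (1 : F) : Fin m → F) ≠ 0 := by
    intro h
    have h' := congrFun h i0
    simp at h'
  obtain ⟨g₁, hg₁⟩ := uetrans_gl (Pi.single i0 (1 : F)) u he0 hu
  obtain ⟨g₂, hg₂⟩ := uetrans_gl (Pi.single i0 (1 : F)) v he0 hv
  have h1 : ((g₁⁻¹ : GL (Fin m) F) : Matrix (Fin m) (Fin m) F) *
      (g₁ : Matrix (Fin m) (Fin m) F) = 1 := by
    rw [← Units.val_mul, inv_mul_cancel, Units.val_one]
  have h2 : ((g₂⁻¹ : GL (Fin m) F) : Matrix (Fin m) (Fin m) F) *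
      (g₂ : Matrix (Fin m) (Fin m) F) = 1 := by
    rw [← Units.val_mul, inv_mul_cancel, Units.val_one]
  have hd1 : ((g₁⁻¹ : GL (Fin m) F) : Matrix (Fin m) (Fin m) F).det *
      (g₁ : Matrix (Fin m) (Fin m) F).det = 1 := by
    rw [← Matrix.det_mul, h1, Matrix.det_one]
  have hd2 : ((g₂⁻¹ : GL (Fin m) F) : Matrix (Fin m) (Fin m) F).det *
      (g₂ : Matrix (Fin m) (Fin m) F).det = 1 := by
    rw [← Matrix.det_mul, h2, Matrix.det_one]
  set c : F := (g₁ : Matrix (Fin m) (Fin m) F).det *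
    ((g₂⁻¹ : GL (Fin m) F) : Matrix (Fin m) (Fin m) F).det with hc
  set D : Matrix (Fin m) (Fin m) F :=
    Matrix.diagonal (Function.update (fun _ => (1 : F)) i1 c) with hD
  have hDdet : D.det = c := by
    rw [hD, Matrix.det_diagonal, Finset.prod_update_of_mem (Finset.mem_univ i1)]
    simp
  have hDe : D *ᵥ (Pi.single i0 (1 : F)) = Pi.single i0 (1 : F) := by
    rw [hD, Matrix.diagonal_mulVec_single, Function.update_of_ne h01]
    simp
  have hA₁u : ((g₁⁻¹ : GL (Fin m) F) : Matrix (Fin m) (Fin m) F) *ᵥ u =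
      Pi.single i0 (1 : F) := by
    rw [← hg₁, Matrix.mulVec_mulVec, h1, Matrix.one_mulVec]
  refine ⟨⟨(g₂ : Matrix (Fin m) (Fin m) F) * D *
    ((g₁⁻¹ : GL (Fin m) F) : Matrix (Fin m) (Fin m) F), ?_⟩, ?_⟩
  · rw [Matrix.det_mul, Matrix.det_mul, hDdet, hc]
    calc (g₂ : Matrix (Fin m) (Fin m) F).det * ((g₁ : Matrix (Fin m) (Fin m) F).det *
          ((g₂⁻¹ : GL (Fin m) F) : Matrix (Fin m) (Fin m) F).det) *
          ((g₁⁻¹ : GL (Fin m) F) : Matrix (Fin m) (Fin m) F).det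
        = (((g₂⁻¹ : GL (Fin m) F) : Matrix (Fin m) (Fin m) F).det *
            (g₂ : Matrix (Fin m) (Fin m) F).det) *
          (((g₁⁻¹ : GL (Fin m) F) : Matrix (Fin m) (Fin m) F).det *
            (g₁ : Matrix (Fin m) (Fin m) F).det) := by ring
      _ = 1 := by rw [hd1, hd2, mul_one]
  · show ((g₂ : Matrix (Fin m) (Fin m) F) * D *
      ((g₁⁻¹ : GL (Fin m) F) : Matrix (Fin m) (Fin m) F)) *ᵥ u = v
    rw [← Matrix.mulVec_mulVec, ← Matrix.mulVec_mulVec, hA₁u, hDe]
    exact hg₂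

end Cfsg.Agent.Lib.Helper18.UE
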