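import Mathlib
import Cfsg.Agent.Lib.Helper18.SLMDefs
import Cfsg.Agent.Lib.Helper4.CharInt

/-!
# Project SLM (helper18, S2332), piece INTG

Integrality of the central character on the class of transvections: the degree divides
`N_T (d0 - 1)` where `N_T = (q^{k+2} - 1) wsum q (k+1)` is the number of transvections.
-/

set_option autoImplicit false

namespace Cfsg.Agent.Lib.Helper18.SLM

open Matrix

universe u

variable {F : Type u} [Field F] [Fintype F]

omit [Fintype F] in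
/-- conjugates of transvections are transvections -/
theorem intg_isTv_conj {n : ℕ} (g h : Matrix.SpecialLinearGroup (Fin n) F) (hg : IsTv g) :
    IsTv (h * g * h⁻¹) := by
  obtain ⟨a, φ, hφa, hg⟩ := hg
  have h1 : (↑(h⁻¹) : Matrix (Fin n) (Fin n) F) * (↑h : Matrix (Fin n) (Fin n) F) = 1 := by
    rw [← Matrix.SpecialLinearGroup.coe_mul, inv_mul_cancel, Matrix.SpecialLinearGroup.coe_one]
  have h2 : (↑h : Matrix (Fin n) (Fin n) F) * (↑(h⁻¹) : Matrix (Fin n) (Fin n) F) = 1 := by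
    rw [← Matrix.SpecialLinearGroup.coe_mul, mul_inv_cancel, Matrix.SpecialLinearGroup.coe_one]
  refine ⟨(h : Matrix (Fin n) (Fin n) F) *ᵥ a, φ ᵥ* (↑(h⁻¹) : Matrix (Fin n) (Fin n) F), ?_, ?_⟩
  · rw [Matrix.dotProduct_mulVec, Matrix.vecMul_vecMul, h1, Matrix.vecMul_one]
    exact hφa
  · rw [Matrix.SpecialLinearGroup.coe_mul, Matrix.SpecialLinearGroup.coe_mul, hg, mul_add, add_mul,
      mul_one, h2, Matrix.mul_vecMulVec, Matrix.vecMulVec_mul]

/-- the geometric sum -/
theorem intg_wsum (q m : ℕ) (hq : 1 ≤ q) : (q - 1) * wsum q m + 1 = q ^ m := by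
  obtain ⟨r, rfl⟩ : ∃ r, q = r + 1 := ⟨q - 1, by omega⟩
  induction m with
  | zero => simp [wsum]
  | succ m ih =>
    have e : wsum (r + 1) (m + 1) = wsum (r + 1) m + (r + 1) ^ m := by
      unfold wsum
      rw [Finset.sum_range_succ]
    rw [e, pow_succ, ← ih]
    simp only [Nat.add_sub_cancel]
    ring

-- piece INTG
theorem int_dvd {V : Type*} [AddCommGroup V] [Module ℂ V] [FiniteDimensional ℂ V]
    (ψ : AddChar F ℂ) {k : ℕ}
    (ρ : Representation ℂ (Matrix.SpecialLinearGroup (Fin (k + 2)) F) V)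
    (hirr : ρ.IsIrreducible)
    (hconj : ∀ g g' : Matrix.SpecialLinearGroup (Fin (k + 2)) F, IsTv g → IsTv g' → g ≠ 1 →
      g' ≠ 1 → IsConj g g')
    (hcount : Nat.card {g : Matrix.SpecialLinearGroup (Fin (k + 2)) F // IsTv g ∧ g ≠ 1} *
        (Fintype.card F - 1) =
      (Fintype.card F ^ (k + 2) - 1) * (Fintype.card F ^ (k + 1) - 1))
    (htr : ∀ u : Fin (k + 1) → F, u ≠ 0 →
      LinearMap.trace ℂ V (ρ (x1 u)) = (d0 ψ ρ : ℂ) - 1)
    (hfin : Module.finrank ℂ V = d0 ψ ρ + (Fintype.card F ^ (k + 1) - 1))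
    (hd : 1 ≤ d0 ψ ρ) :
    (d0 ψ ρ + (Fintype.card F ^ (k + 1) - 1)) ∣
      (Fintype.card F ^ (k + 2) - 1) * wsum (Fintype.card F) (k + 1) * (d0 ψ ρ - 1) := by
  classical
  haveI := hirr
  letI : Fintype (Matrix.SpecialLinearGroup (Fin (k + 2)) F) := Fintype.ofFinite _
  have hu : (Pi.single 0 1 : Fin (k + 1) → F) ≠ 0 := by
    intro h
    have := congrFun h 0
    simp at this
  have htv : IsTv (x1 (Pi.single 0 1 : Fin (k + 1) → F)) :=
    ⟨Pi.single 0 1, Fin.cons 0 (Pi.single 0 1), by simp, rfl⟩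
  have hne : (x1 (Pi.single 0 1 : Fin (k + 1) → F)) ≠ 1 := by
    intro h
    have h1 := congrArg (fun g : Matrix.SpecialLinearGroup (Fin (k + 2)) F =>
      (g : Matrix (Fin (k + 2)) (Fin (k + 2)) F) 0 1) h
    simp only [x1_val, Matrix.SpecialLinearGroup.coe_one] at h1
    simp [Matrix.add_apply, vecMulVec_apply, Matrix.one_apply] at h1
  have key := Cfsg.Agent.Lib.Helper4.central_char_integral ρ
    (x1 (Pi.single 0 1 : Fin (k + 1) → F))
  have hset : (Finset.univ.filter (fun x : Matrix.SpecialLinearGroup (Fin (k + 2)) F =>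
      IsConj x (x1 (Pi.single 0 1 : Fin (k + 1) → F)))).card =
      Nat.card {g : Matrix.SpecialLinearGroup (Fin (k + 2)) F // IsTv g ∧ g ≠ 1} := by
    rw [Nat.card_eq_fintype_card, Fintype.card_subtype]
    congr 1
    apply Finset.filter_congr
    intro x _
    constructor
    · intro hx
      obtain ⟨c, hc⟩ := isConj_iff.1 hx
      have hx' : x = c⁻¹ * x1 (Pi.single 0 1 : Fin (k + 1) → F) * c⁻¹⁻¹ := by
        rw [← hc]; group
      refine ⟨hx' ▸ intg_isTv_conj _ c⁻¹ htv, ?_⟩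
      rintro rfl
      apply hne
      rw [← hc]; group
    · rintro ⟨hx, hx1⟩
      exact hconj x _ hx htv hx1 hne
  have hchar : ρ.character (x1 (Pi.single 0 1 : Fin (k + 1) → F)) = (d0 ψ ρ : ℂ) - 1 :=
    htr _ hu
  rw [hset, hchar, hfin] at key
  have hq : 2 ≤ Fintype.card F := Fintype.one_lt_card
  have hcast : ((Nat.card {g : Matrix.SpecialLinearGroup (Fin (k + 2)) F // IsTv g ∧ g ≠ 1} *
      (d0 ψ ρ - 1) : ℕ) : ℂ) =
      (Nat.card {g : Matrix.SpecialLinearGroup (Fin (k + 2)) F // IsTv g ∧ g ≠ 1} : ℂ) *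
        ((d0 ψ ρ : ℂ) - 1) := by
    rw [Nat.cast_mul, Nat.cast_sub hd, Nat.cast_one]
  rw [← hcast] at key
  have hdvd := Cfsg.Agent.Lib.Helper4.dvd_of_isIntegral_div _ _ (by omega) key
  have hNeq : Nat.card {g : Matrix.SpecialLinearGroup (Fin (k + 2)) F // IsTv g ∧ g ≠ 1} =
      (Fintype.card F ^ (k + 2) - 1) * wsum (Fintype.card F) (k + 1) := by
    have h1 := intg_wsum (Fintype.card F) (k + 1) (by omega)
    have h2 : (Fintype.card F - 1) * wsum (Fintype.card F) (k + 1) =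
        Fintype.card F ^ (k + 1) - 1 := by omega
    have h3 : Nat.card {g : Matrix.SpecialLinearGroup (Fin (k + 2)) F // IsTv g ∧ g ≠ 1} *
        (Fintype.card F - 1) =
        (Fintype.card F ^ (k + 2) - 1) * wsum (Fintype.card F) (k + 1) *
          (Fintype.card F - 1) := by
      rw [hcount, ← h2]; ring
    exact Nat.eq_of_mul_eq_mul_right (by omega) h3
  rw [← hNeq]
  exact hdvd

end Cfsg.Agent.Lib.Helper18.SLM
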