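import Mathlib
import Cfsg.Prelude.Def_PLocal
import Cfsg.Agent.Lib.Helper3.ZJ3

/-!
# An axiomatic `ZJ`-theorem

`G` a finite group of characteristic `p` (`C_G(O_p(G)) ≤ O_p(G)`) acting `p`-stably on its normal
`p`-subgroups, `P` a Sylow `p`-subgroup, `𝒜` a nonempty family of abelian subgroups of `P` such
that

* (invariance) for `Q ≤ P` containing a member of `𝒜`, the intersection of the members of `𝒜`
  inside `Q` is normalized by `N_G(Q)`;
* (replacement) a subgroup `B ≤ P` of class at most `2` whose commutators lie in a member of `𝒜`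
  not containing `B` normalizes some member of `𝒜` not containing `B`.

Then the intersection of all members of `𝒜` is normal in `G`.  The proof is Glauberman's, in the
form of `Cfsg.Agent.Lib.Helper3.ZJ.zj_general`.
-/

set_option autoImplicit false

namespace Cfsg.Agent.Lib.Helper30

open Cfsg
open scoped commutatorElement

section AxZJ

variable {G : Type*} [Group G]

/-- The axiomatic `ZJ`-theorem: the intersection of the family is normal. -/
theorem ax_zj {p : ℕ} [Fact p.Prime] [Finite G] (P : Sylow p G) (𝒜 : Set (Subgroup G))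
    (hA : ∀ A ∈ 𝒜, A ≤ (P : Subgroup G) ∧ ∀ a ∈ A, ∀ b ∈ A, a * b = b * a)
    (hne : 𝒜.Nonempty)
    (hinv : ∀ Q : Subgroup G, Q ≤ (P : Subgroup G) → (∃ A ∈ 𝒜, A ≤ Q) →
      ∀ g ∈ Subgroup.normalizer (Q : Set G), ∀ x : G, (∀ A ∈ 𝒜, A ≤ Q → x ∈ A) →
        ∀ A ∈ 𝒜, A ≤ Q → g * x * g⁻¹ ∈ A)
    (hrep : ∀ B : Subgroup G, B ≤ (P : Subgroup G) →
      (∀ x ∈ B, ∀ y ∈ B, ∀ w ∈ B, ⁅x, y⁆ * w = w * ⁅x, y⁆) →
      (∃ A ∈ 𝒜, (∀ x ∈ B, ∀ y ∈ B, ⁅x, y⁆ ∈ A) ∧ ¬ B ≤ A) →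
      ∃ A ∈ 𝒜, ¬ B ≤ A ∧ ∀ b ∈ B, ∀ a ∈ A, b * a * b⁻¹ ∈ A)
    (hst : ∀ B : Subgroup G, B.Normal → IsPGroup p B → ∀ a : G,
      (∀ v ∈ B, a * ⁅a, v⁆ = ⁅a, v⁆ * a) →
      ∃ L : Subgroup G, L.Normal ∧ a ∈ L ∧
        ∀ l ∈ L, ∃ j : ℕ, l ^ p ^ j ∈ Subgroup.centralizer (B : Set G))
    (hc : Subgroup.centralizer (pCore p G : Set G) ≤ pCore p G) :
    ∀ g : G, ∀ z : G, (∀ A ∈ 𝒜, z ∈ A) → ∀ A ∈ 𝒜, g * z * g⁻¹ ∈ A := by
  classical
  obtain ⟨I, hIdef⟩ : ∃ I : Subgroup G, I = sInf 𝒜 := ⟨_, rfl⟩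
  have hmemI : ∀ z : G, z ∈ I ↔ ∀ A ∈ 𝒜, z ∈ A := by
    intro z
    rw [hIdef, Subgroup.mem_sInf]
  obtain ⟨A0, hA0⟩ := hne
  have hIA : ∀ A ∈ 𝒜, I ≤ A := fun A hA' z hz => (hmemI z).mp hz A hA'
  have hIP : I ≤ (P : Subgroup G) := (hIA A0 hA0).trans (hA A0 hA0).1
  have hIcomm : ∀ z ∈ I, ∀ z' ∈ I, z * z' = z' * z := fun z hz z' hz' =>
    (hA A0 hA0).2 z (hIA A0 hA0 hz) z' (hIA A0 hA0 hz')
  -- `I` is normalized by `P`
  have hZP : ∀ u ∈ (P : Subgroup G), ∀ z ∈ I, u * z * u⁻¹ ∈ I := by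
    intro u hu z hz
    rw [hmemI]
    intro A hA'
    exact hinv (P : Subgroup G) le_rfl ⟨A0, hA0, (hA A0 hA0).1⟩ u (Subgroup.le_normalizer hu) z
      (fun A' hA'' _ => hIA A' hA'' hz) A hA' (hA A hA').1
  obtain ⟨H, hHdef⟩ : ∃ H : Subgroup G, H = pCore p G := ⟨_, rfl⟩
  have hHn : H.Normal := by rw [hHdef]; infer_instance
  have hHp : IsPGroup p H := by rw [hHdef]; exact Cfsg.Agent.Lib.Helper14.pCore_isPGroup
  have hHP : H ≤ (P : Subgroup G) := by
    rw [hHdef]; exact Cfsg.Agent.Lib.Helper14.pCore_le_sylow P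
  have hHmax : ∀ Q : Subgroup G, Q.Normal → IsPGroup p Q → Q ≤ H := fun Q hQ hQp => by
    rw [hHdef]; exact Cfsg.Agent.Lib.Helper14.le_pCore hQ hQp
  have hCH : Subgroup.centralizer (H : Set G) ≤ H := by rw [hHdef]; exact hc
  -- step 0: `I ≤ H`
  have hZH : I ≤ H := by
    intro a ha
    have hq : ∀ v ∈ H, a * ⁅a, v⁆ = ⁅a, v⁆ * a := by
      intro v hv
      have h1 : ⁅a, v⁆ ∈ I := by
        have e : ⁅a, v⁆ = a * (v * a⁻¹ * v⁻¹) := by rw [commutatorElement_def]; group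
        rw [e]
        exact I.mul_mem ha (hZP v (hHP hv) a⁻¹ (I.inv_mem ha))
      exact hIcomm a ha _ h1
    obtain ⟨L, hLn, haL, hLp⟩ := hst H hHn hHp a hq
    have hLpg : IsPGroup p L := by
      rintro ⟨l, hl⟩
      obtain ⟨j, hj⟩ := hLp l hl
      obtain ⟨i, hi⟩ := hHp ⟨l ^ p ^ j, hCH hj⟩
      refine ⟨j + i, Subtype.ext ?_⟩
      have hi' : (l ^ p ^ j) ^ p ^ i = 1 := congrArg Subtype.val hi
      show l ^ p ^ (j + i) = 1
      rw [pow_add, pow_mul]; exact hi'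
    exact hHmax L hLn hLpg haL
  -- main claim
  have claim : ∀ n : ℕ, ∀ B : Subgroup G, B.Normal → IsPGroup p B → Nat.card B = n →
      ∀ g : G, ∀ z ∈ I, z ∈ B → g * z * g⁻¹ ∈ I := by
    intro n
    induction n using Nat.strong_induction_on with
    | _ n ih =>
    intro B hBn hBp hBcard
    by_contra hbad
    push Not at hbad
    obtain ⟨g0, z0, hz0Z, hz0B, hz0bad⟩ := hbad
    have hBH : B ≤ H := hHmax B hBn hBp
    have hBP : B ≤ (P : Subgroup G) := hBH.trans hHP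
    have hgen : ∀ N : Subgroup G, N.Normal → (∀ z ∈ I, z ∈ B → z ∈ N) → B ≤ N := by
      intro N hN hZN
      have hinfn : (N ⊓ B).Normal := by
        have := hN; have := hBn; infer_instance
      have hinfp : IsPGroup p ↥(N ⊓ B) := hBp.to_le inf_le_right
      by_cases hcard : Nat.card ↥(N ⊓ B) < Nat.card B
      · exfalso
        have := ih _ (hBcard ▸ hcard) (N ⊓ B) hinfn hinfp rfl g0 z0 hz0Z
          (Subgroup.mem_inf.mpr ⟨hZN z0 hz0Z hz0B, hz0B⟩)
        exact hz0bad this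
      · have := Subgroup.eq_of_le_of_card_ge (inf_le_right : N ⊓ B ≤ B) (not_lt.mp hcard)
        rw [← this]; exact inf_le_left
    have hB1 : B ≠ ⊥ := by
      rintro rfl
      rw [Subgroup.mem_bot] at hz0B
      apply hz0bad
      rw [hz0B, mul_one, mul_inv_cancel]; exact I.one_mem
    have hDcn : (⁅B, B⁆ : Subgroup G).Normal := by have := hBn; infer_instance
    have hDcle : ⁅B, B⁆ ≤ B :=
      Subgroup.commutator_le.mpr (fun g1 h1 g2 h2 => Cfsg.Agent.Lib.Helper3.ZJ.comm_mem B h1 h2)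
    have hDclt : Nat.card ↥(⁅B, B⁆ : Subgroup G) < Nat.card B := by
      by_contra hge
      have heq := Subgroup.eq_of_le_of_card_ge hDcle (not_lt.mp hge)
      have hnt : Nontrivial ↥B := (Subgroup.nontrivial_iff_ne_bot B).mpr hB1
      have hnil : Group.IsNilpotent ↥B := hBp.isNilpotent
      have hlt := Group.IsSolvable.commutator_lt_top_of_nontrivial ↥B
      apply hlt.ne
      apply Subgroup.map_injective B.subtype_injective
      rw [commutator_def, Subgroup.map_commutator, ← MonoidHom.range_eq_map,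
        Subgroup.range_subtype]
      exact heq
    have hY0 : ∀ g : G, ∀ z ∈ I, z ∈ (⁅B, B⁆ : Subgroup G) → g * z * g⁻¹ ∈ I :=
      ih _ (hBcard ▸ hDclt) ⁅B, B⁆ hDcn (hBp.to_le hDcle) rfl
    obtain ⟨Y0, hY0def⟩ : ∃ Y0 : Subgroup G, Y0 = I ⊓ ⁅B, B⁆ := ⟨_, rfl⟩
    have hY0n : Y0.Normal := by
      constructor
      intro y hy g
      rw [hY0def] at hy ⊢
      exact Subgroup.mem_inf.mpr ⟨hY0 g y hy.1 hy.2, hDcn.conj_mem y hy.2 g⟩
    have hBY : ∀ b ∈ B, ∀ y ∈ Y0, y * b = b * y := by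
      have hCn : (Subgroup.centralizer (Y0 : Set G)).Normal := by
        have := hY0n; infer_instance
      have h1 := hgen _ hCn (by
        intro z hz _
        rw [Subgroup.mem_centralizer_iff]
        intro y hy
        rw [hY0def] at hy
        exact hIcomm y hy.1 z hz)
      intro b hb y hy
      exact Subgroup.mem_centralizer_iff.mp (h1 hb) y hy
    have hcomm : ∀ x ∈ B, ∀ y ∈ B, ⁅x, y⁆ ∈ Y0 := by
      have := hY0n
      have hSKn : (sectionKernel B Y0).Normal := by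
        unfold sectionKernel
        have : (B.map (QuotientGroup.mk' Y0)).Normal :=
          Subgroup.Normal.map hBn _ (QuotientGroup.mk'_surjective Y0)
        infer_instance
      have h1 := hgen _ hSKn (by
        intro z hz hzB
        rw [Cfsg.Agent.Lib.Helper14.mem_sectionKernel_iff]
        intro k hk
        rw [hY0def]
        refine Subgroup.mem_inf.mpr ⟨?_, Subgroup.commutator_mem_commutator hk hzB⟩
        have e : ⁅k, z⁆ = (k * z * k⁻¹) * z⁻¹ := by rw [commutatorElement_def]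
        rw [e]
        exact I.mul_mem (hZP k (hBP hk) z hz) (I.inv_mem hz))
      intro x hx y hy
      exact (Cfsg.Agent.Lib.Helper14.mem_sectionKernel_iff B Y0 y).mp (h1 hy) x hx
    have hB2 : ∀ x ∈ B, ∀ y ∈ B, ∀ w ∈ B, ⁅x, y⁆ * w = w * ⁅x, y⁆ :=
      fun x hx y hy w hw => hBY w hw _ (hcomm x hx y hy)
    have hBZ : ∀ x ∈ B, ∀ y ∈ B, ⁅x, y⁆ ∈ I := fun x hx y hy => by
      have := hcomm x hx y hy; rw [hY0def] at this; exact this.1
    obtain ⟨C, hCdef⟩ : ∃ C : Subgroup G, C = Subgroup.centralizer (B : Set G) := ⟨_, rfl⟩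
    have hCn : C.Normal := by rw [hCdef]; have := hBn; infer_instance
    obtain ⟨L, hLn, hCL, hLp, hLmax, hLsyl, hLfr⟩ :=
      Cfsg.Agent.Lib.Helper3.ZJ.p_closure (p := p) C hCn
    have hfix : ∀ c ∈ C, ∀ w ∈ B, c * w * c⁻¹ = w := by
      intro c hcC w hw
      rw [hCdef] at hcC
      have := Subgroup.mem_centralizer_iff.mp hcC w hw
      rw [← this, mul_inv_cancel_right]
    have hquadL : ∀ a : G, (∀ v ∈ B, a * ⁅a, v⁆ = ⁅a, v⁆ * a) → a ∈ L := by
      intro a ha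
      obtain ⟨L', hL'n, haL', hL'p⟩ := hst B hBn hBp a ha
      exact hLmax L' hL'n (by intro l hl; rw [hCdef]; exact hL'p l hl) haL'
    by_cases hall : ∀ A ∈ 𝒜, B ≤ A
    · apply hz0bad
      rw [hmemI]
      intro A hA'
      exact hall A hA' (hBn.conj_mem z0 hz0B g0)
    · push Not at hall
      obtain ⟨A, hA', hBA⟩ := hall
      obtain ⟨A1, hA1, hBA1, hnorm⟩ := hrep B hBP hB2
        ⟨A, hA', fun x hx y hy => hIA A hA' (hBZ x hx y hy), hBA⟩
      have hA1L : A1 ≤ L := by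
        intro a ha
        apply hquadL
        intro v hv
        have h1 : ⁅a, v⁆ ∈ A1 := by
          have e : ⁅a, v⁆ = a * (v * a⁻¹ * v⁻¹) := by rw [commutatorElement_def]; group
          rw [e]; exact A1.mul_mem ha (hnorm v hv a⁻¹ (A1.inv_mem ha))
        exact (hA A1 hA1).2 a ha _ h1
      have hA1Q : A1 ≤ (P : Subgroup G) ⊓ L := le_inf (hA A1 hA1).1 hA1L
      obtain ⟨X, hXdef⟩ : ∃ X : Subgroup G,
          X = sInf {A' : Subgroup G | A' ∈ 𝒜 ∧ A' ≤ (P : Subgroup G) ⊓ L} ⊓ B := ⟨_, rfl⟩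
      have hXn : X.Normal := by
        constructor
        intro w hw g
        rw [hXdef] at hw ⊢
        obtain ⟨hwI, hwB⟩ := Subgroup.mem_inf.mp hw
        refine Subgroup.mem_inf.mpr ⟨?_, hBn.conj_mem w hwB g⟩
        obtain ⟨n, hn, c, hcC, rfl⟩ := hLfr P g
        have e : n * c * w * (n * c)⁻¹ = n * (c * w * c⁻¹) * n⁻¹ := by group
        rw [e, hfix c hcC w hwB, Subgroup.mem_sInf]
        rintro A' ⟨hA'm, hA'Q⟩
        exact hinv _ inf_le_left ⟨A1, hA1, hA1Q⟩ n hn w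
          (fun A'' hA''m hA''Q => (Subgroup.mem_sInf.mp hwI) A'' ⟨hA''m, hA''Q⟩) A' hA'm hA'Q
      have h1 := hgen X hXn (by
        intro z hz hzB
        rw [hXdef]
        refine Subgroup.mem_inf.mpr ⟨?_, hzB⟩
        rw [Subgroup.mem_sInf]
        rintro A' ⟨hA'm, -⟩
        exact hIA A' hA'm hz)
      apply hBA1
      intro b hb
      have h2 := h1 hb
      rw [hXdef] at h2
      exact (Subgroup.mem_sInf.mp h2.1) A1 ⟨hA1, hA1Q⟩
  intro g z hz A hA'
  have hzI : z ∈ I := (hmemI z).mpr hz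
  exact hIA A hA' (claim _ H hHn hHp rfl g z hzI (hZH hzI))

end AxZJ

end Cfsg.Agent.Lib.Helper30
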