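import Cfsg.Agent.Lib.Helper32.BG10Basic
import Cfsg.Agent.S1461

/-!
# B&G Section 10, piece Q10C: `N_G(P)` controls fusion of subgroups of `P` (first half)
-/

set_option autoImplicit false

open Cfsg Cfsg.Agent.Lib.Helper32 Cfsg.Agent.Lib.Helper32.BG10

namespace Cfsg.Agent.Lib.Helper30.BG10

universe u

variable {G : Type u} [Group G] [Finite G]

omit [Finite G] in
/-- conjugating by an element times an element centralizing `Q` -/
theorem q10c_map_conj_mul_centralizer (Q : Subgroup G) (m c : G)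
    (hc : c ∈ Subgroup.centralizer (Q : Set G)) :
    Q.map (MulAut.conj (m * c)).toMonoidHom = Q.map (MulAut.conj m).toMonoidHom := by
  ext z
  simp only [Subgroup.mem_map, MulEquiv.coe_toMonoidHom, MulAut.conj_apply]
  have key : ∀ q ∈ Q, m * c * q * (m * c)⁻¹ = m * q * m⁻¹ := by
    intro q hq
    have h1 : q * c = c * q := Subgroup.mem_centralizer_iff.mp hc q hq
    calc m * c * q * (m * c)⁻¹ = m * (c * q) * c⁻¹ * m⁻¹ := by group
      _ = m * (q * c) * c⁻¹ * m⁻¹ := by rw [h1]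
      _ = m * q * m⁻¹ := by group
  constructor
  · rintro ⟨q, hq, rfl⟩
    exact ⟨q, hq, (key q hq).symm⟩
  · rintro ⟨q, hq, rfl⟩
    exact ⟨q, hq, key q hq⟩

/-- B&G 10.10 (c): two conjugate subgroups of a Sylow subgroup `P` are conjugate in `N_G(P)` -/
theorem bg10_10c (hG : IsMinSimpleOddOrder G) (h1 : H1 G) (h7 : H7 G) (p : ℕ) [Fact p.Prime]
    (P : Sylow p G) (Q : Subgroup G) (x : G) (hQ : Q ≤ (P : Subgroup G))
    (hx : Q.map (MulAut.conj x).toMonoidHom ≤ (P : Subgroup G)) :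
    ∃ y ∈ Subgroup.normalizer ((P : Subgroup G) : Set G),
      Q.map (MulAut.conj x).toMonoidHom = Q.map (MulAut.conj y).toMonoidHom := by
  classical
  by_cases hQ1 : Q = ⊥
  · refine ⟨1, Subgroup.one_mem _, ?_⟩
    subst hQ1
    simp
  have hP01 : (P : Subgroup G) ≠ ⊥ := fun h => hQ1 (le_bot_iff.mp (h ▸ hQ))
  have hP0p : IsPGroup p (P : Subgroup G) := P.isPGroup'
  have hP0top : (P : Subgroup G) ≠ ⊤ := minSimple_pgroup_ne_top hG hP0p
  have hNtop : Subgroup.normalizer ((P : Subgroup G) : Set G) ≠ ⊤ :=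
    minSimple_normalizer_ne_top hG hP01 hP0top
  obtain ⟨M, hM, hNM⟩ := exists_coatom_ge hNtop
  have hP0M : (P : Subgroup G) ≤ M := Subgroup.le_normalizer.trans hNM
  have hP0top' : (P : Subgroup G) ∈ sylSet p (⊤ : Subgroup G) := by
    refine ⟨le_top, ?_⟩
    rw [Subgroup.card_top]
    exact P.card_eq_multiplicity
  have hP0syl : (P : Subgroup G) ∈ sylSet p M := by
    obtain ⟨S, hS, hP0S⟩ := exists_sylSet_ge hP0p hP0M
    have h := sylSet_eq_of_le hP0top' (isPGroup_of_mem_sylSet hS) le_top hP0S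
    rw [← h]; exact hS
  have hσ : p ∈ sigma M := mem_sigma_of_normalizer_le hP0syl hP01 hNM
  have hQp : IsPGroup p Q := hP0p.to_le hQ
  obtain ⟨m, hm, c, hc, hxmc⟩ :=
    (h1 M hM p hσ Q hQp hQ1 (hQ.trans hP0M)).1 x (hx.trans hP0M)
  have hxm : Q.map (MulAut.conj x).toMonoidHom = Q.map (MulAut.conj m).toMonoidHom := by
    rw [hxmc]; exact q10c_map_conj_mul_centralizer Q m c hc
  haveI : Group.IsSolvable ↥M := minSimple_solvable hG hM.1
  have hpl : PLengthLE p 1 ↥M := h7 p M hM.1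
  obtain ⟨S, hS⟩ := exists_sylow_of_mem_sylSet hP0syl
  have hmemS : ∀ w : ↥M, (w : G) ∈ (P : Subgroup G) → w ∈ (S : Subgroup ↥M) := by
    intro w hw
    rw [← hS] at hw
    obtain ⟨w', hw', hww⟩ := hw
    have h2 : w' = w := Subtype.ext hww
    rw [← h2]; exact hw'
  have hY1 : ((Q.subgroupOf M : Subgroup ↥M) : Set ↥M) ⊆ (S : Subgroup ↥M) := by
    intro z hz
    exact hmemS z (hQ (Subgroup.mem_subgroupOf.mp hz))
  have hY2 : (fun y => (⟨m, hm⟩ : ↥M) * y * (⟨m, hm⟩ : ↥M)⁻¹) ''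
      ((Q.subgroupOf M : Subgroup ↥M) : Set ↥M) ⊆ (S : Subgroup ↥M) := by
    rintro _ ⟨z, hz, rfl⟩
    have hzQ : (z : G) ∈ Q := Subgroup.mem_subgroupOf.mp hz
    apply hmemS
    apply hx
    rw [hxm]
    refine ⟨(z : G), hzQ, ?_⟩
    simp [MulAut.conj_apply]
  obtain ⟨g, hg, c', hc', hgc⟩ :=
    (Cfsg.Agent.S1461.result p hpl S).2.1 _ ⟨m, hm⟩ hY1 hY2
  refine ⟨(g : G), ?_, ?_⟩
  · have h := mem_normalizer_map_subtype hg
    rw [hS] at h; exact h
  · rw [hxm]
    have hm' : m = (g : G) * (c' : G) := by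
      have h := congrArg Subtype.val hgc
      simpa using h.symm
    rw [hm']
    apply q10c_map_conj_mul_centralizer
    rw [Subgroup.mem_centralizer_iff]
    intro q hq
    have hqM : q ∈ M := hP0M (hQ hq)
    have h := Subgroup.mem_centralizer_iff.mp hc' ⟨q, hqM⟩ (Subgroup.mem_subgroupOf.mpr hq)
    exact congrArg Subtype.val h

end Cfsg.Agent.Lib.Helper30.BG10
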