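import Cfsg.Agent.Lib.Helper32.BG10Basic

/-!
# B&G Section 10, piece Q12A (`bg10_12a`) for helper15
-/

set_option autoImplicit false
open Cfsg Cfsg.Agent.Lib.Helper32 Cfsg.Agent.Lib.Helper32.BG10
open scoped commutatorElement

namespace Cfsg.Agent.Lib.Helper30.BG10

universe u
variable {G : Type u} [Group G] [Finite G]

/-- A group with an injective homomorphism into a nilpotent group is nilpotent. -/
theorem q12a_nilpotent_of_injective {A B : Type*} [Group A] [Group B] [Group.IsNilpotent B]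
    (f : A →* B) (hf : Function.Injective f) : Group.IsNilpotent A :=
  Group.nilpotent_of_mulEquiv (MonoidHom.ofInjective hf).symm

/-- **Piece Q12A**. -/
theorem bg10_12a (hG : IsMinSimpleOddOrder G) (h2 : H2 G) {M : Subgroup G} (hM : IsCoatom M)
    {E : Subgroup G} (hE : IsComplIn E (sigmaCore M) M) : Group.IsNilpotent ↥⁅E, E⁆ := by
  obtain ⟨-, -, hαs, -, hnil⟩ := h2 M hM
  obtain ⟨hEM, -, hEs, -⟩ := hE
  have hNaNs : piCore (alpha M) ↥M ≤ piCore (sigma M) ↥M :=
    (Subgroup.map_le_map_iff_of_injective M.subtype_injective).mp hαs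
  haveI := hnil
  -- the map `θ ∘ incl : Ca → M / Ns`
  let f : ↥((commutator ↥M).map (QuotientGroup.mk' (piCore (alpha M) ↥M))) →*
      ↥M ⧸ piCore (sigma M) ↥M :=
    (QuotientGroup.map (piCore (alpha M) ↥M) (piCore (sigma M) ↥M) (MonoidHom.id ↥M)
      hNaNs).comp (Subgroup.subtype _)
  haveI hfr : Group.IsNilpotent ↥f.range :=
    Group.nilpotent_of_surjective f.rangeRestrict f.rangeRestrict_surjective
  have hEEE : ⁅E, E⁆ ≤ E := by
    rw [Subgroup.commutator_le]
    intro a ha b hb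
    rw [commutatorElement_def]
    exact E.mul_mem (E.mul_mem (E.mul_mem ha hb) (E.inv_mem ha)) (E.inv_mem hb)
  have hEEM : ⁅E, E⁆ ≤ M := hEEE.trans hEM
  have hmem : ∀ x : ↥⁅E, E⁆,
      ((QuotientGroup.mk' (piCore (sigma M) ↥M)).comp (Subgroup.inclusion hEEM)) x ∈ f.range := by
    intro x
    have hx : (x : G) ∈ ⁅M, M⁆ := Subgroup.commutator_mono hEM hEM x.2
    rw [← Subgroup.map_subtype_commutator M] at hx
    obtain ⟨c, hc, hcx⟩ := hx
    have hinc : Subgroup.inclusion hEEM x = c := Subtype.ext hcx.symm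
    refine ⟨⟨QuotientGroup.mk' (piCore (alpha M) ↥M) c, Subgroup.mem_map_of_mem _ hc⟩, ?_⟩
    show (QuotientGroup.map (piCore (alpha M) ↥M) (piCore (sigma M) ↥M) (MonoidHom.id ↥M)
      hNaNs) (QuotientGroup.mk' (piCore (alpha M) ↥M) c) = _
    rw [MonoidHom.comp_apply, hinc]
    rfl
  have hinj : Function.Injective
      (((QuotientGroup.mk' (piCore (sigma M) ↥M)).comp
        (Subgroup.inclusion hEEM)).codRestrict f.range hmem) := by
    rw [injective_iff_map_eq_one]
    intro x hx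
    have h1 : (QuotientGroup.mk' (piCore (sigma M) ↥M)) (Subgroup.inclusion hEEM x) = 1 :=
      congrArg Subtype.val hx
    rw [QuotientGroup.mk'_apply, QuotientGroup.eq_one_iff] at h1
    have h2 : (x : G) ∈ sigmaCore M := Subgroup.mem_map.mpr ⟨_, h1, rfl⟩
    have h3 : (x : G) ∈ E ⊓ sigmaCore M := ⟨hEEE x.2, h2⟩
    rw [hEs, Subgroup.mem_bot] at h3
    exact Subtype.ext h3
  exact q12a_nilpotent_of_injective _ hinj

end Cfsg.Agent.Lib.Helper30.BG10
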