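import Mathlib
import Cfsg.Agent.Lib.Helper5.BQ0
import Cfsg.Agent.S0145
import Cfsg.Agent.Lib.Helper4.CharSimple
import Cfsg.Agent.Lib.Helper79.FSCount

/-!
# S0996, piece BQ-X5: the square of the degree of a nontrivial irreducible character is less
than the group order (helper30 for helper5)
-/

set_option autoImplicit false
set_option linter.style.haveILetI false

namespace Cfsg.Agent.Lib.Helper5.BQ

open Cfsg
open Cfsg.Agent.Lib.Helper83 (trivIrr)
open scoped ComplexConjugate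

/-- BQ-X5 -/
theorem deg_sq_lt {G : Type*} [Group G] [Fintype G] (χ : IrrCharacter G) (hχ : χ ≠ trivIrr G) :
    charDegree (χ : G → ℂ) * charDegree (χ : G → ℂ) < Nat.card G := by
  classical
  haveI := Cfsg.Agent.Lib.Helper4.irr_finite (G := G)
  letI : Fintype (IrrCharacter G) := Fintype.ofFinite _
  have hsumAll : ∑ ψ : IrrCharacter G, ‖(ψ : G → ℂ) 1‖ ^ 2 = (Nat.card G : ℝ) := by
    have h := (Cfsg.Agent.S0145.result (1 : G) (1 : G)).1 (IsConj.refl 1)
    rw [finsum_eq_sum_of_fintype] at h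
    have hc : Nat.card (Subgroup.centralizer ({(1 : G)} : Set G)) = Nat.card G := by
      have : Subgroup.centralizer ({(1 : G)} : Set G) = ⊤ := by
        ext g
        simp [Subgroup.mem_centralizer_iff]
      rw [this, Subgroup.card_top]
    rw [hc] at h
    have h' : ∀ ψ : IrrCharacter G, (ψ : G → ℂ) 1 * conj ((ψ : G → ℂ) 1) =
        ((‖(ψ : G → ℂ) 1‖ ^ 2 : ℝ) : ℂ) := by
      intro ψ
      rw [Complex.mul_conj, Complex.normSq_eq_norm_sq]
    simp only [h'] at h
    exact_mod_cast h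
  have hsub : ∑ ψ ∈ ({trivIrr G, χ} : Finset (IrrCharacter G)), ‖(ψ : G → ℂ) 1‖ ^ 2 ≤
      ∑ ψ : IrrCharacter G, ‖(ψ : G → ℂ) 1‖ ^ 2 := by
    apply Finset.sum_le_sum_of_subset_of_nonneg (Finset.subset_univ _)
    intro ψ _ _
    positivity
  rw [Finset.sum_insert (by simpa using (Ne.symm hχ)), Finset.sum_singleton, hsumAll] at hsub
  have htriv : ‖((trivIrr G : IrrCharacter G) : G → ℂ) 1‖ ^ 2 = 1 := by
    have : ((trivIrr G : IrrCharacter G) : G → ℂ) 1 = 1 := rfl
    rw [this]; norm_num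
  have hdeg : ‖(χ : G → ℂ) 1‖ ^ 2 = ((charDegree (χ : G → ℂ) : ℝ)) ^ 2 := by
    rw [Cfsg.Agent.Lib.Helper79.irr_one_eq_charDegree χ, Complex.norm_natCast]
  rw [htriv, hdeg] at hsub
  have : ((charDegree (χ : G → ℂ) * charDegree (χ : G → ℂ) : ℕ) : ℝ) < (Nat.card G : ℝ) := by
    push_cast
    nlinarith
  exact_mod_cast this

end Cfsg.Agent.Lib.Helper5.BQ
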