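import Cfsg.Agent.Lib.Helper46.BSW0
import Cfsg.Agent.Lib.Helper4.CharExp2
import Cfsg.Agent.Lib.Helper82.CharCore
import Cfsg.Agent.Lib.Helper90.BSWAB

/-!
# S3282, piece E0CH: centralizer order and a class constant on `{Δ = 0}` (case `δ = -1`)
-/

set_option autoImplicit false

namespace Cfsg.Agent.Lib.Helper30.BSWE0CH

open Cfsg Cfsg.Agent.Lib.Helper4 Cfsg.Agent.Lib.Helper46.BSW
open scoped ComplexConjugate

open scoped Classical in
theorem sum_ite_two {L : Type*} [Fintype L] (a b : L) (hab : a ≠ b) (c : ℂ) :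
    ∑ l : L, (if l = a ∨ l = b then 0 else c) = ((Fintype.card L : ℂ) - 2) * c := by
  have h : ∀ l : L, (if l = a ∨ l = b then 0 else c)
      = c - (if l = a then c else 0) - (if l = b then c else 0) := by
    intro l
    by_cases h1 : l = a
    · have h2 : l ≠ b := fun h2 => hab (h1.symm.trans h2)
      simp [h1, hab]
    · by_cases h2 : l = b
      · simp [h2, Ne.symm hab]
      · simp [h1, h2]
  rw [Finset.sum_congr rfl (fun l _ => h l), Finset.sum_sub_distrib, Finset.sum_sub_distrib,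
    Finset.sum_const, Finset.card_univ, Finset.sum_ite_eq', Finset.sum_ite_eq', nsmul_eq_mul]
  simp only [Finset.mem_univ, if_true]
  ring

open scoped Classical in
theorem sum_ite_one {L : Type*} [Fintype L] (a : L) (c : ℂ) :
    ∑ l : L, (if l = a then 0 else c) = ((Fintype.card L : ℂ) - 1) * c := by
  have h : ∀ l : L, (if l = a then 0 else c) = c - (if l = a then c else 0) := by
    intro l
    by_cases h1 : l = a
    · simp [h1]
    · simp [h1]
  rw [Finset.sum_congr rfl (fun l _ => h l), Finset.sum_sub_distrib,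
    Finset.sum_const, Finset.card_univ, Finset.sum_ite_eq', nsmul_eq_mul]
  simp only [Finset.mem_univ, if_true]
  ring

theorem quad_conj (a : ℂ) (k : ℕ) (hk : 1 ≤ k) (h : 2 * a * a + 2 * a + (k : ℂ) = 0) :
    conj a = -1 - a := by
  have hre := congrArg Complex.re h
  have him := congrArg Complex.im h
  simp only [Complex.add_re, Complex.mul_re, Complex.add_im, Complex.mul_im, Complex.re_ofNat,
    Complex.im_ofNat, Complex.natCast_re, Complex.natCast_im, Complex.zero_re,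
    Complex.zero_im] at hre him
  have hkR : (1 : ℝ) ≤ (k : ℝ) := by exact_mod_cast hk
  have him' : a.im * (2 * a.re + 1) = 0 := by nlinarith
  rcases mul_eq_zero.mp him' with h0 | h1
  · exfalso
    rw [h0] at hre
    nlinarith [sq_nonneg (a.re + 1 / 2)]
  · apply Complex.ext
    · simp only [Complex.conj_re, Complex.sub_re, Complex.neg_re, Complex.one_re]
      linarith
    · simp only [Complex.conj_im, Complex.sub_im, Complex.neg_im, Complex.one_im]
      ring

open scoped Classical in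
theorem pair_count {G : Type*} [Group G] [Fintype G] (y y₃ : G) :
    ∑ g : G, ∑ h : G, (if IsConj y g then (1 : ℂ) else 0)
        * (if IsConj y⁻¹ h then (1 : ℂ) else 0) * (if g * h * y₃⁻¹ = 1 then (1 : ℂ) else 0)
      = (Nat.card {p : G × G // IsConj y p.1 ∧ IsConj y⁻¹ p.2 ∧ p.1 * p.2 = y₃} : ℂ) := by
  rw [← Finset.sum_product']
  have h : ∀ p : G × G, (if IsConj y p.1 then (1 : ℂ) else 0)
        * (if IsConj y⁻¹ p.2 then (1 : ℂ) else 0) * (if p.1 * p.2 * y₃⁻¹ = 1 then (1 : ℂ) else 0)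
      = if (IsConj y p.1 ∧ IsConj y⁻¹ p.2 ∧ p.1 * p.2 = y₃) then 1 else 0 := by
    intro p
    have e : p.1 * p.2 * y₃⁻¹ = 1 ↔ p.1 * p.2 = y₃ := mul_inv_eq_one
    simp only [e]
    by_cases h1 : IsConj y p.1 <;> by_cases h2 : IsConj y⁻¹ p.2 <;>
      by_cases h3 : p.1 * p.2 = y₃ <;>
      simp only [h1, h2, h3, and_self, and_false, false_and, and_true, true_and, if_true,
        if_false, mul_one, mul_zero, zero_mul]
  rw [Finset.sum_congr rfl (fun p _ => h p), Finset.univ_product_univ, Finset.sum_boole,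
    Nat.card_eq_fintype_card, Fintype.card_subtype]

theorem centralizer_inv {G : Type*} [Group G] (y : G) :
    Subgroup.centralizer ({y⁻¹} : Set G) = Subgroup.centralizer ({y} : Set G) := by
  ext g
  simp only [Subgroup.mem_centralizer_iff, Set.mem_singleton_iff, forall_eq]
  constructor
  · intro h
    have := congrArg (fun z => y * z * y) h
    simpa [mul_assoc] using this.symm
  · intro h
    have := congrArg (fun z => y⁻¹ * z * y⁻¹) h
    simpa [mul_assoc] using this.symm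

end Cfsg.Agent.Lib.Helper30.BSWE0CH

namespace Cfsg.Agent.Lib.Helper46.BSW

open Cfsg Cfsg.Agent.Lib.Helper4 Cfsg.Agent.Lib.Helper30.BSWE0CH
open scoped ComplexConjugate

universe u

variable {G : Type u} [Group G]

set_option maxHeartbeats 1600000 in
open scoped Classical in
/-- **Piece E0CH.** -/
theorem e0_char [Fintype G] [Fintype (IrrCharacter G)] (K : Subgroup G)
    [Fintype (IrrCharacter K)] (hKab : ∀ a ∈ K, ∀ b ∈ K, a * b = b * a) (hk : 4 ≤ Nat.card K)
    (Δ Z₁ Z₂ : IrrCharacter G) (l₀ : IrrCharacter K) (Θ : IrrCharacter K → IrrCharacter G)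
    (hS : Stage1 K (-1) Δ) (hKS : KSeries K Δ Z₁ Z₂ l₀ Θ) (M : Subgroup G) (u : G)
    (hT : TorusData K Δ M u) [Fintype (IrrCharacter M)] (Y : IrrCharacter M → IrrCharacter G)
    (hY : DSeries K Δ M Y)
    (hsum : ∀ F : IrrCharacter G → ℂ, ∑ χ, F χ = F trivIrr + F Δ + F Z₁ + F Z₂
      + (1 / 2) * ∑ l : IrrCharacter K, (if l = trivIrr ∨ l = l₀ then 0 else F (Θ l))
      + (1 / 2) * ∑ ν : IrrCharacter M, (if ν = trivIrr then 0 else F (Y ν)))
    (y : G) (hy : Off K y) (hy0 : (Δ : G → ℂ) y = 0) (hnr : ¬ IsConj y y⁻¹) :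
    Nat.card (Subgroup.centralizer ({y} : Set G)) + 1 = 2 * Nat.card K ∧
    ∀ y₃ : G, Off K y₃ → (Δ : G → ℂ) y₃ = 0 →
      2 * Nat.card {p : G × G // IsConj y p.1 ∧ IsConj y⁻¹ p.2 ∧ p.1 * p.2 = y₃} + 2
        = Nat.card K := by
  -- counts
  have habK : ∀ a b : K, a * b = b * a := fun a b => Subtype.ext (hKab a a.2 b b.2)
  have habM : ∀ a b : M, a * b = b * a := fun a b => Subtype.ext (hT.hab a a.2 b b.2)
  have hcardK : (Fintype.card (IrrCharacter K) : ℂ) = (Nat.card K : ℂ) := by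
    rw [← Nat.card_eq_fintype_card, ab_card habK]
  have hcardM : (Fintype.card (IrrCharacter M) : ℂ) - 1 = (Nat.card K : ℂ) - 2 := by
    rw [← Nat.card_eq_fintype_card, ab_card habM]
    have h' : (Nat.card M : ℂ) + 1 = (Nat.card K : ℂ) := by exact_mod_cast hT.card
    linear_combination h'
  -- the sum formula with constant values on the two families
  have hsumc : ∀ (F : IrrCharacter G → ℂ) (cΘ cY : ℂ),
      (∀ l, l ≠ trivIrr → l ≠ l₀ → F (Θ l) = cΘ) → (∀ ν, ν ≠ trivIrr → F (Y ν) = cY) →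
      ∑ χ, F χ = F trivIrr + F Δ + F Z₁ + F Z₂ + (1 / 2) * (((Nat.card K : ℂ) - 2) * cΘ)
        + (1 / 2) * (((Nat.card K : ℂ) - 2) * cY) := by
    intro F cΘ cY hΘ hYv
    rw [hsum F]
    have e1 : ∑ l : IrrCharacter K, (if l = trivIrr ∨ l = l₀ then 0 else F (Θ l))
        = ∑ l : IrrCharacter K, (if l = trivIrr ∨ l = l₀ then 0 else cΘ) := by
      apply Finset.sum_congr rfl
      intro l _
      by_cases hl : l = trivIrr ∨ l = l₀
      · rw [if_pos hl, if_pos hl]
      · rw [if_neg hl, if_neg hl]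
        push Not at hl
        exact hΘ l hl.1 hl.2
    have e2 : ∑ ν : IrrCharacter M, (if ν = trivIrr then 0 else F (Y ν))
        = ∑ ν : IrrCharacter M, (if ν = trivIrr then 0 else cY) := by
      apply Finset.sum_congr rfl
      intro ν _
      by_cases hν : ν = trivIrr
      · rw [if_pos hν, if_pos hν]
      · rw [if_neg hν, if_neg hν]
        exact hYv ν hν
    have s1 : ∑ l : IrrCharacter K, (if l = trivIrr ∨ l = l₀ then 0 else cΘ)
        = ((Nat.card K : ℂ) - 2) * cΘ := by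
      rw [← hcardK]
      convert sum_ite_two (trivIrr : IrrCharacter K) l₀ (Ne.symm hKS.l0_ne) cΘ
    have s2 : ∑ ν : IrrCharacter M, (if ν = trivIrr then 0 else cY)
        = ((Nat.card K : ℂ) - 2) * cY := by
      rw [← hcardM]
      convert sum_ite_one (trivIrr : IrrCharacter M) cY
    rw [e1, e2, s1, s2]
  -- values on `{Off, Δ = 0}`
  have hoff1 : ∀ w, Off K w → w ≠ 1 := by
    intro w hw h1
    have h2 := hw 1
    rw [h1] at h2
    apply h2
    rw [mul_one, inv_one, mul_one]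
    exact one_mem K
  have hvalΘ : ∀ w, Off K w → (Δ : G → ℂ) w = 0 → ∀ l, l ≠ trivIrr → l ≠ l₀ →
      (Θ l : G → ℂ) w = -1 := by
    intro w hw hw0 l hl hl'
    rw [hKS.offΘ l hl hl' w hw, hw0]; ring
  have hvalZ : ∀ w, Off K w → (Δ : G → ℂ) w = 0 →
      (Z₂ : G → ℂ) w = -1 - (Z₁ : G → ℂ) w := by
    intro w hw hw0
    have h1 := hKS.offZ w hw
    rw [hw0] at h1
    linear_combination h1
  have hvalY : ∀ w, Off K w → (Δ : G → ℂ) w = 0 → ∀ ν, ν ≠ trivIrr →
      (Y ν : G → ℂ) w = 1 := by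
    intro w hw hw0 ν hν
    have hnot : ∀ g : G, g * w * g⁻¹ ∉ M := by
      intro g hg
      have hne : g * w * g⁻¹ ≠ 1 := by
        intro h1
        apply hoff1 w hw
        have e : w = g⁻¹ * (g * w * g⁻¹) * g := by group
        rw [e, h1]; group
      have h1 := hT.val _ hg hne
      rw [irr_conj_apply, hw0] at h1
      exact zero_ne_one h1
    rw [hY.off ν hν w hnot, hw0]; ring
  have hinvOff : ∀ w, Off K w → Off K w⁻¹ := by
    intro w hw g hg
    apply hw g
    have e : g * w * g⁻¹ = (g * w⁻¹ * g⁻¹)⁻¹ := by group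
    rw [e]; exact inv_mem hg
  have hinv0 : ∀ w, (Δ : G → ℂ) w = 0 → (Δ : G → ℂ) w⁻¹ = 0 := by
    intro w hw0
    rw [irr_inv, hw0, map_zero]
  have ht : ∀ g, ((trivIrr : IrrCharacter G) : G → ℂ) g = 1 := fun g => rfl
  -- the value `a = Z₁(y)`
  obtain ⟨a, ha⟩ : ∃ a : ℂ, (Z₁ : G → ℂ) y = a := ⟨_, rfl⟩
  have hZ₂y : (Z₂ : G → ℂ) y = -1 - a := by rw [hvalZ y hy hy0, ha]
  have hquad : 2 * a * a + 2 * a + (Nat.card K : ℂ) = 0 := by
    have h1 := col_orth y y⁻¹
    rw [if_neg hnr] at h1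
    have h2 : ∑ χ : IrrCharacter G, (χ : G → ℂ) y * (χ : G → ℂ) y = 0 := by
      rw [← h1]
      apply Finset.sum_congr rfl
      intro χ _
      rw [irr_inv, Complex.conj_conj]
    rw [hsumc (fun χ => (χ : G → ℂ) y * (χ : G → ℂ) y) 1 1
      (fun l hl hl' => by simp only [hvalΘ y hy hy0 l hl hl']; ring)
      (fun ν hν => by simp only [hvalY y hy hy0 ν hν]; ring)] at h2
    simp only [hy0, hZ₂y, ha, ht] at h2
    linear_combination h2
  have hconj : conj a = -1 - a := quad_conj a (Nat.card K) (by omega) hquad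
  have hcent : (Nat.card (Subgroup.centralizer ({y} : Set G)) : ℂ)
      = 2 * (Nat.card K : ℂ) - 1 := by
    have h1 := col_orth y y
    rw [if_pos (IsConj.refl y)] at h1
    rw [← h1, hsumc (fun χ => (χ : G → ℂ) y * conj ((χ : G → ℂ) y)) 1 1
      (fun l hl hl' => by simp only [hvalΘ y hy hy0 l hl hl']; simp)
      (fun ν hν => by simp only [hvalY y hy hy0 ν hν]; simp)]
    simp only [hy0, hZ₂y, ha, ht, map_one, map_sub, map_neg, hconj, map_zero]
    linear_combination (-1 : ℂ) * hquad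
  refine ⟨?_, ?_⟩
  · have h1 : (Nat.card (Subgroup.centralizer ({y} : Set G)) : ℂ) + 1
        = 2 * (Nat.card K : ℂ) := by rw [hcent]; ring
    exact_mod_cast h1
  · intro y₃ hy₃ hy₃0
    have hcc := Cfsg.Agent.Lib.Helper82.class_constant y y⁻¹ y₃⁻¹
    rw [pair_count, centralizer_inv] at hcc
    have hyi := hinvOff y hy
    have hyi0 := hinv0 y hy0
    have hy₃i := hinvOff y₃ hy₃
    have hy₃i0 := hinv0 y₃ hy₃0
    obtain ⟨i, hi⟩ : ∃ i : ℂ, ((Subgroup.centralizer ({y} : Set G)).index : ℂ) = i := ⟨_, rfl⟩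
    obtain ⟨N, hN⟩ : ∃ N : ℂ,
        (Nat.card {p : G × G // IsConj y p.1 ∧ IsConj y⁻¹ p.2 ∧ p.1 * p.2 = y₃} : ℂ) = N :=
      ⟨_, rfl⟩
    obtain ⟨a₃, ha₃⟩ : ∃ a₃ : ℂ, (Z₁ : G → ℂ) y₃⁻¹ = a₃ := ⟨_, rfl⟩
    have hZ₂y₃ : (Z₂ : G → ℂ) y₃⁻¹ = -1 - a₃ := by rw [hvalZ _ hy₃i hy₃i0, ha₃]
    have hZ₁yi : (Z₁ : G → ℂ) y⁻¹ = -1 - a := by rw [irr_inv, ha, hconj]
    have hZ₂yi : (Z₂ : G → ℂ) y⁻¹ = a := by
      rw [irr_inv, hZ₂y, map_sub, map_neg, map_one, hconj]; ring
    rw [hi, hN] at hcc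
    rw [hsumc (fun χ => (i * (χ : G → ℂ) y) * (i * (χ : G → ℂ) y⁻¹) * (χ : G → ℂ) y₃⁻¹
          / (χ : G → ℂ) 1)
        (i * (-1) * (i * (-1)) * (-1) / (2 * (Nat.card K : ℂ) - 2))
        (i * 1 * (i * 1) * 1 / (2 * (Nat.card K : ℂ)))
        (fun l hl hl' => by
          simp only [hvalΘ y hy hy0 l hl hl', hvalΘ _ hyi hyi0 l hl hl',
            hvalΘ _ hy₃i hy₃i0 l hl hl', hKS.degΘ l hl hl'])
        (fun ν hν => by
          simp only [hvalY y hy hy0 ν hν, hvalY _ hyi hyi0 ν hν, hvalY _ hy₃i hy₃i0 ν hν,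
            hY.deg ν hν])] at hcc
    simp only [ht, hy0, ha, hZ₂y, hZ₁yi, hZ₂yi, ha₃, hZ₂y₃, hKS.degZ₁, hKS.degZ₂, mul_zero,
      zero_mul, zero_div, add_zero, div_one, mul_one] at hcc
    -- nonvanishing
    have hkR : (4 : ℝ) ≤ (Nat.card K : ℝ) := by exact_mod_cast hk
    have hk0 : (Nat.card K : ℂ) ≠ 0 := by
      have : Nat.card K ≠ 0 := by omega
      exact_mod_cast this
    have hk1 : (Nat.card K : ℂ) - 1 ≠ 0 := by
      intro h0
      have h1 : (Nat.card K : ℂ) = 1 := by linear_combination h0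
      have h2 : Nat.card K = 1 := by exact_mod_cast h1
      omega
    have hk2 : 2 * (Nat.card K : ℂ) - 1 ≠ 0 := by
      intro h0
      have h1 : 2 * (Nat.card K : ℂ) = 1 := by linear_combination h0
      have h2 : 2 * Nat.card K = 1 := by exact_mod_cast h1
      omega
    have hk3 : 2 * (Nat.card K : ℂ) - 2 ≠ 0 := by
      intro h0
      apply hk1
      linear_combination (1 / 2 : ℂ) * h0
    -- `|G|` and the index
    have hg : (Nat.card G : ℂ)
        = 2 * (Nat.card K : ℂ) * ((2 * (Nat.card K : ℂ) - 1) * ((Nat.card K : ℂ) - 1)) := by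
      have h1 := congrArg (fun z : ℤ => (z : ℂ)) hS.a.index
      push_cast at h1
      linear_combination h1
    have hi' : i = 2 * (Nat.card K : ℂ) * ((Nat.card K : ℂ) - 1) := by
      have h1 : (Nat.card (Subgroup.centralizer ({y} : Set G)) : ℂ) * i = (Nat.card G : ℂ) := by
        rw [← hi]
        exact_mod_cast Subgroup.card_mul_index (Subgroup.centralizer ({y} : Set G))
      rw [hcent, hg] at h1
      apply mul_left_cancel₀ hk2
      linear_combination h1
    have haa : a * a + a = -(Nat.card K : ℂ) / 2 := by linear_combination (1 / 2 : ℂ) * hquad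
    have hZsum : i * a * (i * (-1 - a)) * a₃ / ((Nat.card K : ℂ) - 1)
        + i * (-1 - a) * (i * a) * (-1 - a₃) / ((Nat.card K : ℂ) - 1)
        = i * i * (-(Nat.card K : ℂ) / 2) / ((Nat.card K : ℂ) - 1) := by
      rw [← haa]; ring
    have hG0 : (Nat.card G : ℂ) ≠ 0 := by
      rw [hg]
      exact mul_ne_zero (mul_ne_zero two_ne_zero hk0) (mul_ne_zero hk2 hk1)
    have hNeq : N = (i * i + i * i * (-(Nat.card K : ℂ) / 2) / ((Nat.card K : ℂ) - 1)
        + 1 / 2 * (((Nat.card K : ℂ) - 2) * (i * -1 * (i * -1) * -1 / (2 * (Nat.card K : ℂ) - 2)))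
        + 1 / 2 * (((Nat.card K : ℂ) - 2) * (i * i / (2 * (Nat.card K : ℂ)))))
        / (Nat.card G : ℂ) := by
      rw [eq_div_iff hG0, mul_comm, hcc, ← hZsum]
      ring
    have hfin : 2 * N + 2 = (Nat.card K : ℂ) := by
      rw [hNeq, hi', hg]
      field_simp
      ring
    rw [← hN] at hfin
    exact_mod_cast hfin

end Cfsg.Agent.Lib.Helper46.BSW
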