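import Cfsg.Agent.Lib.Helper80.BaerBasic

/-!
# S4125, piece X6a1: a cyclic Sylow `p`-subgroup (`p` odd) acts freely, and `H` is not
doubly transitive on an orbit.
-/

set_option autoImplicit false

namespace Cfsg.Agent.Lib.Helper30

open Cfsg.Agent.Lib.Helper80

variable {p : ℕ} [Fact p.Prime] {H V : Type*} [Group H] [Finite H] [AddCommGroup V] [Finite V]
  [DistribMulAction H V]

/-- In the minimal situation with a cyclic Sylow `p`-subgroup `P`, a nontrivial element of `P`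
fixes no nonzero vector. -/
theorem baer_cyclic_free (hm : BaerMin p H V) (P : Sylow p H) (hP : IsCyclic P)
    (x : H) (hxP : x ∈ P) (hx1 : x ≠ 1) (v : V) (hv : x • v = v) : v = 0 := by
  classical
  have hp : p.Prime := Fact.out
  obtain ⟨k, hk⟩ := IsPGroup.iff_orderOf.mp P.isPGroup' ⟨x, hxP⟩
  rw [Subgroup.orderOf_mk] at hk
  have hk0 : k ≠ 0 := by
    rintro rfl
    rw [pow_zero] at hk
    exact hx1 (orderOf_eq_one_iff.mp hk)
  have hz1 : x ^ (p ^ (k - 1)) ≠ 1 := by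
    intro h
    have hd : orderOf x ∣ p ^ (k - 1) := orderOf_dvd_of_pow_eq_one h
    rw [hk] at hd
    have hle : k ≤ k - 1 := (Nat.pow_dvd_pow_iff_le_right hp.one_lt).mp hd
    omega
  have hzP : x ^ (p ^ (k - 1)) ∈ P := pow_mem hxP _
  have hzc : ∀ y ∈ P, y * x ^ (p ^ (k - 1)) = x ^ (p ^ (k - 1)) * y := by
    intro y hy
    have hc : ∀ a b : P, a * b = b * a :=
      isMulCommutative_iff.mp hP.isMulCommutative
    have := hc ⟨y, hy⟩ ⟨x ^ (p ^ (k - 1)), hzP⟩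
    exact congrArg Subtype.val this
  have hzv : x ^ (p ^ (k - 1)) • v = v := by
    have hs : x ∈ MulAction.stabilizer H v := hv
    exact pow_mem hs _
  exact hm.fixed_eq_zero P _ hzP hzc hz1 v hzv

/-- **Piece X6a1.** With a cyclic Sylow `p`-subgroup, `p` odd, `H` is not doubly transitive on
the orbit of a nonzero vector. -/
theorem cyclic_not_two_trans (hm : BaerMin p H V) (hp2 : p ≠ 2) (hdvd : p ∣ Nat.card H)
    (P : Sylow p H) (hP : IsCyclic P) (v₀ : V) (hv₀ : v₀ ≠ 0) :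
    ¬ (∀ a b : V, a ∈ MulAction.orbit H v₀ → b ∈ MulAction.orbit H v₀ → a ≠ v₀ → b ≠ v₀ →
      ∃ t : H, t • v₀ = v₀ ∧ t • a = b) := by
  classical
  intro hall
  have hp : p.Prime := Fact.out
  have hfree := baer_cyclic_free hm P hP
  -- an element of `P` with trivial square is trivial
  have hsq : ∀ y ∈ P, y ^ 2 = 1 → y = 1 := by
    intro y hy hy2
    obtain ⟨k, hk⟩ := IsPGroup.iff_orderOf.mp P.isPGroup' ⟨y, hy⟩
    rw [Subgroup.orderOf_mk] at hk
    have hd : orderOf y ∣ 2 := orderOf_dvd_of_pow_eq_one hy2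
    rw [hk] at hd
    rcases Nat.eq_zero_or_pos k with h0 | hpos
    · rw [h0, pow_zero] at hk; exact orderOf_eq_one_iff.mp hk
    · exfalso
      have : p ∣ 2 := (dvd_pow_self p hpos.ne').trans hd
      exact hp2 ((Nat.prime_dvd_prime_iff_eq hp Nat.prime_two).mp this)
  -- a nontrivial element of `P`
  obtain ⟨x, hxP, hx1⟩ : ∃ x ∈ P, x ≠ 1 := by
    have hcard : p ∣ Nat.card P := P.dvd_card_of_dvd_card hdvd
    have : Nontrivial P := by
      have h1 : 1 < Nat.card P := lt_of_lt_of_le hp.one_lt (Nat.le_of_dvd Nat.card_pos hcard)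
      exact (Finite.one_lt_card_iff_nontrivial).mp h1
    obtain ⟨y, hy⟩ := exists_ne (1 : P)
    exact ⟨y, y.2, fun h => hy (Subtype.ext h)⟩
  have hxi1 : x⁻¹ ≠ 1 := by simpa using hx1
  have hxiP : x⁻¹ ∈ P := inv_mem hxP
  have ha : x • v₀ ≠ v₀ := fun h => hv₀ (hfree x hxP hx1 v₀ h)
  have hb : x⁻¹ • v₀ ≠ v₀ := fun h => hv₀ (hfree x⁻¹ hxiP hxi1 v₀ h)
  obtain ⟨t, ht0, ht1⟩ := hall (x • v₀) (x⁻¹ • v₀) ⟨x, rfl⟩ ⟨x⁻¹, rfl⟩ ha hb
  -- (1) `H` has even order
  have h2 : 2 ∣ Nat.card H := by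
    have h1 : (x * t) • v₀ = x • v₀ := by rw [mul_smul, ht0]
    have h2' : ((x * t) ^ 2) • v₀ = v₀ := by
      rw [pow_two, mul_smul, h1, mul_smul, ht1, smul_inv_smul]
    by_contra hodd
    have hoddo : ¬ 2 ∣ orderOf (x * t) := fun hd => hodd (hd.trans (orderOf_dvd_natCard _))
    obtain ⟨m, hm'⟩ : ∃ m, orderOf (x * t) = 2 * m + 1 := ⟨orderOf (x * t) / 2, by omega⟩
    have hpow : x * t = ((x * t) ^ 2) ^ (m + 1) := by
      rw [← pow_mul, show 2 * (m + 1) = (2 * m + 1) + 1 by ring, pow_succ, ← hm',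
        pow_orderOf_eq_one, one_mul]
    have hfix : (x * t) • v₀ = v₀ := by
      rw [hpow]
      have hs : (x * t) ^ 2 ∈ MulAction.stabilizer H v₀ := h2'
      exact pow_mem hs (m + 1)
    exact ha (h1 ▸ hfix)
  have hVodd : (Nat.card V).Coprime 2 :=
    (Nat.Coprime.coprime_dvd_left h2 hm.coprime).symm
  -- (2) the vector `w = v₀ - x • v₀`
  have hw0 : v₀ - x • v₀ ≠ 0 := fun h => ha (sub_eq_zero.mp h).symm
  have htw : t • (v₀ - x • v₀) = -(x⁻¹ • (v₀ - x • v₀)) := by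
    rw [smul_sub, smul_sub, ht0, ht1, inv_smul_smul]; abel
  obtain ⟨y, hyP, hy⟩ := hm.toBaerAct.sylow_orbit P t (v₀ - x • v₀)
  have hxy : (x * y) • (v₀ - x • v₀) = -(v₀ - x • v₀) := by
    rw [mul_smul, hy, htw, smul_neg, smul_inv_smul]
  have hxy2 : ((x * y) ^ 2) • (v₀ - x • v₀) = v₀ - x • v₀ := by
    rw [pow_two, mul_smul, hxy, smul_neg, hxy, neg_neg]
  have hxyP : x * y ∈ P := mul_mem hxP hyP
  have h1 : (x * y) ^ 2 = 1 := by
    by_contra hne
    exact hw0 (hfree _ (pow_mem hxyP 2) hne _ hxy2)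
  have h1' : x * y = 1 := hsq _ hxyP h1
  rw [h1', one_smul] at hxy
  have h2w : (2 : ℕ) • (v₀ - x • v₀) = 0 := by
    rw [two_nsmul]
    nth_rewrite 1 [hxy]
    exact neg_add_cancel _
  have hd2 : addOrderOf (v₀ - x • v₀) ∣ 2 := addOrderOf_dvd_of_nsmul_eq_zero h2w
  have hdV : addOrderOf (v₀ - x • v₀) ∣ Nat.card V := addOrderOf_dvd_natCard _
  have hone : addOrderOf (v₀ - x • v₀) = 1 := by
    have := Nat.dvd_gcd hdV hd2
    rw [Nat.Coprime.gcd_eq_one hVodd] at this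
    exact Nat.dvd_one.mp this
  exact hw0 (AddMonoid.addOrderOf_eq_one_iff.mp hone)

end Cfsg.Agent.Lib.Helper30
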