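import Cfsg.Agent.Lib.Helper30.BaerX6a1
import Cfsg.Agent.S0675
import Cfsg.Agent.S3972

/-!
# S4125, piece X6a2: with a cyclic Sylow `p`-subgroup (`p` odd), `H` is solvable or has a proper
nontrivial normal subgroup.
-/

set_option autoImplicit false

namespace Cfsg.Agent.Lib.Helper30

open Cfsg.Agent.Lib.Helper80

variable {p : ℕ} [Fact p.Prime] {H V : Type*} [Group H] [Finite H] [AddCommGroup V] [Finite V]
  [DistribMulAction H V]

set_option maxHeartbeats 800000 in
/-- **Piece X6a2.** In the minimal situation with a cyclic Sylow `p`-subgroup, `p` odd, the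
group `H` is solvable or has a proper nontrivial normal subgroup. -/
theorem cyclic_odd_exists_normal (hm : BaerMin p H V) (hp2 : p ≠ 2) (hdvd : p ∣ Nat.card H)
    (P : Sylow p H) (hP : IsCyclic P) :
    Group.IsSolvable H ∨ ∃ N : Subgroup H, N.Normal ∧ N ≠ ⊥ ∧ N ≠ ⊤ := by
  classical
  have hp : p.Prime := Fact.out
  have hfree := baer_cyclic_free hm P hP
  -- a nonzero vector
  obtain ⟨v₀, hv₀⟩ : ∃ v₀ : V, v₀ ≠ 0 := by
    by_contra hcon
    push Not at hcon
    have hH : ∀ h : H, h = 1 := fun h => hm.faithful h (fun v => by rw [hcon v, smul_zero])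
    have hc1 : Nat.card H = 1 := by
      haveI : Subsingleton H := ⟨fun a b => (hH a).trans (hH b).symm⟩
      exact Nat.card_of_subsingleton 1
    rw [hc1] at hdvd
    exact hp.one_lt.ne' (Nat.dvd_one.mp hdvd)
  -- a generator of `P`
  obtain ⟨g₀, hg₀⟩ := hP.exists_generator
  have hcardP : p ∣ Nat.card P := P.dvd_card_of_dvd_card hdvd
  obtain ⟨m, hm'⟩ := IsPGroup.iff_card.mp P.isPGroup'
  have hm1 : 1 ≤ m := by
    rcases Nat.eq_zero_or_pos m with h0 | h
    · rw [h0, pow_zero] at hm'
      rw [hm'] at hcardP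
      exact absurd (Nat.dvd_one.mp hcardP) hp.one_lt.ne'
    · exact h
  have hordg₀ : orderOf g₀ = p ^ m := by
    rw [← hm']; exact orderOf_eq_card_of_forall_mem_zpowers hg₀
  have hxP : (g₀ : H) ∈ P := g₀.2
  have hordx : orderOf (g₀ : H) = p ^ m := by rw [Subgroup.orderOf_coe, hordg₀]
  have hpm : 1 < p ^ m := Nat.one_lt_pow (by omega) hp.one_lt
  have hx1 : (g₀ : H) ≠ 1 := by
    intro h1
    rw [h1, orderOf_one] at hordx
    omega
  -- the orbit and the permutation representation
  obtain ⟨φ, hφ⟩ : ∃ φ : H →* Equiv.Perm (MulAction.orbit H v₀),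
      ∀ (h : H) (a : MulAction.orbit H v₀), ((φ h) a : V) = h • (a : V) :=
    ⟨MulAction.toPermHom H (MulAction.orbit H v₀), fun h a => rfl⟩
  have hbij : Function.Bijective
      (fun y : P => (⟨(y : H) • v₀, MulAction.mem_orbit v₀ _⟩ : MulAction.orbit H v₀)) := by
    constructor
    · intro y₁ y₂ h
      have h' : (y₁ : H) • v₀ = (y₂ : H) • v₀ := congrArg Subtype.val h
      have h'' : ((y₂ : H)⁻¹ * (y₁ : H)) • v₀ = v₀ := by rw [mul_smul, h', inv_smul_smul]
      by_contra hne
      have hne1 : (y₂ : H)⁻¹ * (y₁ : H) ≠ 1 := by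
        intro h1
        apply hne
        apply Subtype.ext
        exact (inv_mul_eq_one.mp h1).symm
      exact hv₀ (hfree _ (mul_mem (inv_mem y₂.2) y₁.2) hne1 v₀ h'')
    · rintro ⟨a, ha⟩
      obtain ⟨h, rfl⟩ := ha
      obtain ⟨y, hyP, hy⟩ := hm.toBaerAct.sylow_orbit P h v₀
      exact ⟨⟨y, hyP⟩, Subtype.ext hy⟩
  have hcardO : Nat.card (MulAction.orbit H v₀) = p ^ m := by
    rw [← hm']; exact (Nat.card_eq_of_bijective _ hbij).symm
  by_cases hker : φ.ker = ⊥
  swap
  · right
    refine ⟨φ.ker, inferInstance, hker, ?_⟩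
    intro htop
    have hxk : (g₀ : H) ∈ φ.ker := htop ▸ Subgroup.mem_top _
    have hφx : φ (g₀ : H) = 1 := MonoidHom.mem_ker.mp hxk
    have hfix : (g₀ : H) • v₀ = v₀ := by
      have := hφ (g₀ : H) ⟨v₀, MulAction.mem_orbit_self v₀⟩
      rw [hφx] at this
      exact this.symm
    exact hv₀ (hfree _ hxP hx1 v₀ hfix)
  have hinj : Function.Injective φ := (MonoidHom.ker_eq_bot_iff _).mp hker
  haveI : Fintype (MulAction.orbit H v₀) := Fintype.ofFinite _
  have hcardO' : Fintype.card (MulAction.orbit H v₀) = p ^ m := by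
    rw [← Nat.card_eq_fintype_card]; exact hcardO
  have hrange : ∀ h : H, φ h ∈ φ.range := fun h => MonoidHom.mem_range.mpr ⟨h, rfl⟩
  have hex : ∀ a b : MulAction.orbit H v₀, ∃ h : H, (φ h) a = b := by
    intro a b
    obtain ⟨h, hh⟩ := MulAction.exists_smul_eq H a b
    refine ⟨h, Subtype.ext ?_⟩
    rw [hφ, ← hh]
    rfl
  haveI htr : MulAction.IsPretransitive φ.range (MulAction.orbit H v₀) := by
    constructor
    intro a b
    obtain ⟨h, hh⟩ := hex a b
    exact ⟨⟨φ h, hrange h⟩, hh⟩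
  have h2 : ¬ MulAction.IsMultiplyPretransitive φ.range (MulAction.orbit H v₀) 2 := by
    intro h2t
    apply cyclic_not_two_trans hm hp2 hdvd P hP v₀ hv₀
    intro a b ha hb hane hbne
    have hinj₁ : Function.Injective
        (![⟨v₀, MulAction.mem_orbit_self v₀⟩, ⟨a, ha⟩] : Fin 2 → MulAction.orbit H v₀) := by
      intro i j hij
      fin_cases i <;> fin_cases j
      · rfl
      · have h' : (⟨v₀, MulAction.mem_orbit_self v₀⟩ : MulAction.orbit H v₀) = ⟨a, ha⟩ := hij
        exact absurd (congrArg Subtype.val h').symm hane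
      · have h' : (⟨a, ha⟩ : MulAction.orbit H v₀) = ⟨v₀, MulAction.mem_orbit_self v₀⟩ := hij
        exact absurd (congrArg Subtype.val h') hane
      · rfl
    have hinj₂ : Function.Injective
        (![⟨v₀, MulAction.mem_orbit_self v₀⟩, ⟨b, hb⟩] : Fin 2 → MulAction.orbit H v₀) := by
      intro i j hij
      fin_cases i <;> fin_cases j
      · rfl
      · have h' : (⟨v₀, MulAction.mem_orbit_self v₀⟩ : MulAction.orbit H v₀) = ⟨b, hb⟩ := hij
        exact absurd (congrArg Subtype.val h').symm hbne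
      · have h' : (⟨b, hb⟩ : MulAction.orbit H v₀) = ⟨v₀, MulAction.mem_orbit_self v₀⟩ := hij
        exact absurd (congrArg Subtype.val h') hbne
      · rfl
    obtain ⟨g, hg⟩ := h2t.exists_smul_eq (⟨_, hinj₁⟩ : Fin 2 ↪ MulAction.orbit H v₀)
      (⟨_, hinj₂⟩ : Fin 2 ↪ MulAction.orbit H v₀)
    obtain ⟨t, ht⟩ := MonoidHom.mem_range.mp g.2
    have h0 : (g : Equiv.Perm (MulAction.orbit H v₀)) ⟨v₀, MulAction.mem_orbit_self v₀⟩
        = ⟨v₀, MulAction.mem_orbit_self v₀⟩ :=
      congrArg (fun e : Fin 2 ↪ MulAction.orbit H v₀ => e 0) hg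
    have h1 : (g : Equiv.Perm (MulAction.orbit H v₀)) ⟨a, ha⟩ = ⟨b, hb⟩ :=
      congrArg (fun e : Fin 2 ↪ MulAction.orbit H v₀ => e 1) hg
    rw [← ht] at h0 h1
    refine ⟨t, ?_, ?_⟩
    · have := hφ t ⟨v₀, MulAction.mem_orbit_self v₀⟩
      rw [h0] at this
      exact this.symm
    · have := hφ t ⟨a, ha⟩
      rw [h1] at this
      exact this.symm
  -- the generator of the image
  obtain ⟨g, hgval⟩ : ∃ g : φ.range, (g : Equiv.Perm (MulAction.orbit H v₀)) = φ (g₀ : H) :=
    ⟨⟨_, hrange _⟩, rfl⟩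
  have hgord : orderOf g = p ^ m := by
    rw [← Subgroup.orderOf_coe, hgval, orderOf_injective _ hinj, hordx]
  have hsolv : Group.IsSolvable φ.range → Group.IsSolvable H := by
    intro hs
    exact Group.isSolvable_of_isSolvable_injective (f := φ.rangeRestrict)
      (by
        intro a b hab
        exact hinj (congrArg Subtype.val hab))
  rcases Nat.lt_or_ge m 2 with hlt | hge
  · -- prime degree
    have hm1' : m = 1 := by omega
    have hprime : (Fintype.card (MulAction.orbit H v₀)).Prime := by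
      rw [hcardO', hm1', pow_one]; exact hp
    rcases Cfsg.Agent.S0675.result hprime φ.range with hs | h2t
    · exact Or.inl (hsolv hs)
    · exact absurd h2t h2
  · -- prime power degree
    right
    have hres := (Cfsg.Agent.S3972.result p m hp hge hcardO' φ.range htr h2 g hgord).2
    refine ⟨(Subgroup.normalClosure ({g ^ (p ^ (m - 1))} : Set φ.range)).comap φ.rangeRestrict,
      inferInstance, ?_, ?_⟩
    · intro hbot
      have hmem : (g₀ : H) ^ (p ^ (m - 1)) ∈
          (Subgroup.normalClosure ({g ^ (p ^ (m - 1))} : Set φ.range)).comap φ.rangeRestrict := by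
        rw [Subgroup.mem_comap]
        apply Subgroup.subset_normalClosure
        rw [Set.mem_singleton_iff, map_pow]
        congr 1
        exact Subtype.ext hgval.symm
      rw [hbot, Subgroup.mem_bot] at hmem
      have hd : orderOf (g₀ : H) ∣ p ^ (m - 1) := orderOf_dvd_of_pow_eq_one hmem
      rw [hordx] at hd
      have hle : m ≤ m - 1 := (Nat.pow_dvd_pow_iff_le_right hp.one_lt).mp hd
      omega
    · intro htop
      apply hres
      constructor
      intro a b
      obtain ⟨h, hh⟩ := hex a b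
      have hmem : h ∈
          (Subgroup.normalClosure ({g ^ (p ^ (m - 1))} : Set φ.range)).comap φ.rangeRestrict :=
        htop ▸ Subgroup.mem_top h
      rw [Subgroup.mem_comap] at hmem
      exact ⟨⟨_, hmem⟩, hh⟩

end Cfsg.Agent.Lib.Helper30
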