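import Cfsg.Agent.Lib.Helper30.PConstrLocal

set_option autoImplicit false
open scoped commutatorElement

namespace Cfsg.Agent.Lib.Helper30

universe u

section CharTwoSylow

variable {G : Type u} [Group G]

/-- A `p`-constrained group with trivial `p'`-core satisfies `C(O_p) ≤ O_p`. -/
theorem centralizer_pCore_le_of_isPConstrained {Y : Type u} [Group Y] [Finite Y] (p : ℕ)
    [Fact p.Prime] (hY : IsPConstrained p Y) (hO : pPrimeCore p Y = ⊥) :
    Subgroup.centralizer (pCore p Y : Set Y) ≤ pCore p Y := by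
  apply (genFitting_eq_pCore_iff_centralizer p).mp
  apply genFitting_eq_pCore_of_cores p hO
  rw [layer_eq_bot_iff]
  intro K hK
  have := component_le_pPrimeCore p hY hK
  rw [hO, le_bot_iff] at this
  exact comp_ne_bot hK this

/-- **Index-two trick.** Let `H ≤ G` satisfy `C_H(O_2(H)) ≤ O_2(H)`, let `S₀ ≤ H` be a `2`-subgroup of
index at most `2` in a Sylow `2`-subgroup of `G`, and `Y ≤ H` a subgroup of odd order normalized by `S₀`.
Then `Y = 1`. -/
theorem eq_bot_of_normalized_index_two [Finite G] (S : Sylow 2 G) {H S₀ Y : Subgroup G}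
    (hH : Subgroup.centralizer (pCore 2 ↥H : Set ↥H) ≤ pCore 2 ↥H)
    (hS₀S : S₀ ≤ (S : Subgroup G)) (hS₀H : S₀ ≤ H)
    (hidx : Nat.card (S : Subgroup G) ≤ 2 * Nat.card S₀)
    (hYH : Y ≤ H) (hYodd : Odd (Nat.card Y)) (hSY : S₀ ≤ Subgroup.normalizer (Y : Set G)) :
    Y = ⊥ := by
  have hR2 : IsPGroup 2 ((pCore 2 ↥H).map H.subtype) := (pCore_isPGroup 2).map _
  have hRn : ∀ h ∈ H, ∀ r ∈ (pCore 2 ↥H).map H.subtype, h * r * h⁻¹ ∈ (pCore 2 ↥H).map H.subtype := by
    rintro h hh _ ⟨r', hr', rfl⟩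
    have := (pCore_normal 2 ↥H).conj_mem r' hr' ⟨h, hh⟩
    exact ⟨_, this, rfl⟩
  have hRY : (pCore 2 ↥H).map H.subtype ⊓ Y = ⊥ := by
    apply (Subgroup.disjoint_of_coprime_natCard ?_).eq_bot
    obtain ⟨k, hk⟩ := IsPGroup.iff_card.mp hR2
    rw [hk]
    exact Nat.Coprime.pow_left k (Nat.coprime_two_left.mpr hYodd)
  have hS₀2 : IsPGroup 2 S₀ := S.isPGroup'.to_le hS₀S
  -- elements of `Y` commute with `R ∩ S₀`
  have hb : ∀ y ∈ Y, ∀ r ∈ (pCore 2 ↥H).map H.subtype ⊓ S₀, Commute y r := by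
    intro y hy r hr
    have hc : r⁻¹ * (y * r * y⁻¹) ∈ (pCore 2 ↥H).map H.subtype ⊓ Y := by
      refine ⟨Subgroup.mul_mem _ (Subgroup.inv_mem _ hr.1) (hRn y (hYH hy) r hr.1), ?_⟩
      have h1 : r⁻¹ * y * r⁻¹⁻¹ ∈ Y :=
        (Subgroup.mem_normalizer_iff.mp (hSY (S₀.inv_mem hr.2)) y).mp hy
      have : r⁻¹ * (y * r * y⁻¹) = (r⁻¹ * y * r⁻¹⁻¹) * y⁻¹ := by group
      rw [this]
      exact Y.mul_mem h1 (Y.inv_mem hy)
    rw [hRY, Subgroup.mem_bot] at hc
    have h5 : y * r * y⁻¹ = r := (inv_mul_eq_one.mp hc).symm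
    exact conj_eq_iff_mul_comm.mp h5
  -- `R ∩ S₀` has index at most `2` in `R`
  have hidx2 : ((pCore 2 ↥H).map H.subtype ⊓ S₀).relIndex ((pCore 2 ↥H).map H.subtype) ≤ 2 := by
    rw [Subgroup.inf_relIndex_left]
    have hS₀R : S₀ ≤ Subgroup.normalizer (((pCore 2 ↥H).map H.subtype : Subgroup G) : Set G) := by
      intro s hs
      rw [Subgroup.mem_normalizer_iff]
      intro r
      constructor
      · intro hr
        exact hRn s (hS₀H hs) r hr
      · intro hr
        have := hRn s⁻¹ (H.inv_mem (hS₀H hs)) _ hr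
        have e : s⁻¹ * (s * r * s⁻¹) * s⁻¹⁻¹ = r := by group
        rwa [e] at this
    have hT : IsPGroup 2 ↥((pCore 2 ↥H).map H.subtype ⊔ S₀) :=
      IsPGroup.to_sup_of_normal_left' hR2 hS₀2 hS₀R
    obtain ⟨P, hP⟩ := hT.exists_le_sylow
    have hcard : Nat.card ↥((pCore 2 ↥H).map H.subtype ⊔ S₀) ≤ Nat.card (S : Subgroup G) := by
      have h1 := Subgroup.card_le_of_le hP
      have h2 : Nat.card (P : Subgroup G) = Nat.card (S : Subgroup G) := by
        rw [Sylow.card_eq_multiplicity, Sylow.card_eq_multiplicity]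
      omega
    have heq := card_eq_card_mul_relIndex (le_sup_right :
      S₀ ≤ (pCore 2 ↥H).map H.subtype ⊔ S₀)
    have hpos : 0 < Nat.card S₀ := Nat.card_pos
    have hpos2 : 0 < Nat.card ↥((pCore 2 ↥H).map H.subtype ⊔ S₀) := Nat.card_pos
    have hne : S₀.relIndex ((pCore 2 ↥H).map H.subtype ⊔ S₀) ≠ 0 := by
      intro h0
      rw [h0, mul_zero] at heq
      omega
    have hle2 : S₀.relIndex ((pCore 2 ↥H).map H.subtype ⊔ S₀) ≤ 2 := by
      by_contra hcon
      have h3 : 3 ≤ S₀.relIndex ((pCore 2 ↥H).map H.subtype ⊔ S₀) := by omega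
      have h4 : Nat.card S₀ * 3 ≤ Nat.card S₀ * S₀.relIndex ((pCore 2 ↥H).map H.subtype ⊔ S₀) :=
        Nat.mul_le_mul_left _ h3
      omega
    exact (Subgroup.relIndex_le_of_le_right le_sup_left hne).trans hle2
  -- elements of `Y` commute with `R`
  have hc : ∀ y ∈ Y, ∀ r ∈ (pCore 2 ↥H).map H.subtype, Commute y r := by
    intro y hy r hr
    have hyo : (orderOf y).Coprime 2 := by
      have h1 : orderOf y ∣ Nat.card Y := Subgroup.orderOf_dvd_natCard _ hy
      have h2 : (Nat.card Y).Coprime 2 := (Nat.coprime_two_left.mpr hYodd).symm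
      exact Nat.Coprime.coprime_dvd_left h1 h2
    have hwR : r⁻¹ * (y * r * y⁻¹) ∈ (pCore 2 ↥H).map H.subtype :=
      Subgroup.mul_mem _ (Subgroup.inv_mem _ hr) (hRn y (hYH hy) r hr)
    apply commute_of_commute_twist 2 hyo
    · apply hb y hy
      have hne0 : ((pCore 2 ↥H).map H.subtype ⊓ S₀).relIndex ((pCore 2 ↥H).map H.subtype) ≠ 0 :=
        Subgroup.index_ne_zero_of_finite
      have hcases : ((pCore 2 ↥H).map H.subtype ⊓ S₀).relIndex ((pCore 2 ↥H).map H.subtype) = 1 ∨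
          ((pCore 2 ↥H).map H.subtype ⊓ S₀).relIndex ((pCore 2 ↥H).map H.subtype) = 2 := by omega
      rcases hcases with h1 | h2
      · exact (Subgroup.relIndex_eq_one.mp h1) hwR
      · have key := Subgroup.mul_mem_iff_of_index_two
          (H := ((pCore 2 ↥H).map H.subtype ⊓ S₀).subgroupOf ((pCore 2 ↥H).map H.subtype)) h2
          (a := ⟨r⁻¹, Subgroup.inv_mem _ hr⟩) (b := ⟨y * r * y⁻¹, hRn y (hYH hy) r hr⟩)
        have hiff : ((⟨r⁻¹, Subgroup.inv_mem _ hr⟩ : ↥((pCore 2 ↥H).map H.subtype)) ∈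
            ((pCore 2 ↥H).map H.subtype ⊓ S₀).subgroupOf ((pCore 2 ↥H).map H.subtype)) ↔
            ((⟨y * r * y⁻¹, hRn y (hYH hy) r hr⟩ : ↥((pCore 2 ↥H).map H.subtype)) ∈
            ((pCore 2 ↥H).map H.subtype ⊓ S₀).subgroupOf ((pCore 2 ↥H).map H.subtype)) := by
          rw [Subgroup.mem_subgroupOf, Subgroup.mem_subgroupOf]
          show r⁻¹ ∈ _ ↔ y * r * y⁻¹ ∈ _
          constructor
          · intro h
            have hr0 : r ∈ (pCore 2 ↥H).map H.subtype ⊓ S₀ := by
              have := Subgroup.inv_mem _ h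
              rwa [inv_inv] at this
            have h6 := hb y hy r hr0
            have h7 : y * r * y⁻¹ = r := by rw [h6.eq, mul_inv_cancel_right]
            rw [h7]
            exact hr0
          · intro h
            have h6 := hb y hy _ h
            have h7 : y * r * y⁻¹ = r := by
              have h8 : y * (y * r * y⁻¹) = (y * r * y⁻¹) * y := h6.eq
              have h9 : y * (y * r * y⁻¹) = y * r := by
                rw [h8]; group
              exact mul_left_cancel h9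
            rw [h7] at h
            exact Subgroup.inv_mem _ h
        have := key.mpr hiff
        rw [Subgroup.mem_subgroupOf] at this
        exact this
    · obtain ⟨k, hk⟩ := (IsPGroup.iff_orderOf.mp hR2) ⟨_, hwR⟩
      rw [Subgroup.orderOf_mk] at hk
      exact ⟨k, hk⟩
  -- conclusion
  rw [eq_bot_iff]
  intro y hy
  have h1 : (⟨y, hYH hy⟩ : ↥H) ∈ pCore 2 ↥H := by
    apply hH
    rw [Subgroup.mem_centralizer_iff]
    intro b hb'
    have := hc y hy b ⟨b, hb', rfl⟩
    exact Subtype.ext this.eq.symm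
  have h2 : y ∈ (pCore 2 ↥H).map H.subtype ⊓ Y := ⟨⟨_, h1, rfl⟩, hy⟩
  rwa [hRY] at h2

/-- An involution normalizing a finite subgroup `X` without nontrivial fixed points inverts `X`. -/
theorem conj_eq_inv_of_fixedPointFree {X : Subgroup G} [Finite X] {t : G} (ht : t * t = 1)
    (htX : t ∈ Subgroup.normalizer (X : Set G))
    (hfix : X ⊓ Subgroup.centralizer ({t} : Set G) = ⊥) :
    ∀ x ∈ X, t * x * t⁻¹ = x⁻¹ := by
  have hconj : ∀ x ∈ X, t * x * t⁻¹ ∈ X := fun x hx =>
    (Subgroup.mem_normalizer_iff.mp htX x).mp hx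
  have hinj : Function.Injective (fun x : ↥X =>
      (⟨(x : G)⁻¹ * (t * x * t⁻¹), X.mul_mem (X.inv_mem x.2) (hconj x x.2)⟩ : ↥X)) := by
    intro x y hxy
    have h1 : (x : G)⁻¹ * (t * x * t⁻¹) = (y : G)⁻¹ * (t * y * t⁻¹) := congrArg Subtype.val hxy
    have h2 : (y : G) * (x : G)⁻¹ ∈ X ⊓ Subgroup.centralizer ({t} : Set G) := by
      refine Subgroup.mem_inf.mpr ⟨X.mul_mem y.2 (X.inv_mem x.2), ?_⟩
      rw [Subgroup.mem_centralizer_iff]
      intro h hh
      rw [Set.mem_singleton_iff] at hh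
      subst hh
      have h3 : (y : G) * (x : G)⁻¹ = h * y * h⁻¹ * (h * x * h⁻¹)⁻¹ := by
        have : (y : G) * ((x : G)⁻¹ * (h * x * h⁻¹)) = h * y * h⁻¹ := by
          rw [h1]; group
        calc (y : G) * (x : G)⁻¹ = (y : G) * ((x : G)⁻¹ * (h * x * h⁻¹)) * (h * x * h⁻¹)⁻¹ := by
              group
          _ = h * y * h⁻¹ * (h * x * h⁻¹)⁻¹ := by rw [this]
      have h4 : h * y * h⁻¹ * (h * x * h⁻¹)⁻¹ = h * ((y : G) * (x : G)⁻¹) * h⁻¹ := by group
      rw [h4] at h3
      calc h * ((y : G) * (x : G)⁻¹) = h * ((y : G) * (x : G)⁻¹) * h⁻¹ * h := by group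
        _ = (y : G) * (x : G)⁻¹ * h := by rw [← h3]
    rw [hfix, Subgroup.mem_bot] at h2
    have h5 : (y : G) = x := mul_inv_eq_one.mp h2
    exact Subtype.ext h5.symm
  have hsurj := Finite.surjective_of_injective hinj
  intro g hg
  obtain ⟨x, hx⟩ := hsurj ⟨g, hg⟩
  have hx' : (x : G)⁻¹ * (t * x * t⁻¹) = g := congrArg Subtype.val hx
  have htinv : t⁻¹ = t := inv_eq_of_mul_eq_one_right ht
  rw [← hx', htinv]
  calc t * ((x : G)⁻¹ * (t * x * t)) * t = t * (x : G)⁻¹ * t * x * (t * t) := by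
        group
    _ = t * (x : G)⁻¹ * t * x := by rw [ht, mul_one]
    _ = ((x : G)⁻¹ * (t * x * t))⁻¹ := by
        have e : (t * (x : G)⁻¹ * t * x) * ((x : G)⁻¹ * (t * x * t)) = 1 := by
          calc (t * (x : G)⁻¹ * t * x) * ((x : G)⁻¹ * (t * x * t))
              = t * (x : G)⁻¹ * (t * t) * x * t := by group
            _ = t * (x : G)⁻¹ * x * t := by rw [ht, mul_one]
            _ = t * t := by group
            _ = 1 := ht
        exact eq_inv_of_mul_eq_one_left e

/-- A finite subgroup normalized by two commuting involutions `z`, `e` such that `z`, `e` and `z * e`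
have no nontrivial fixed points on it is trivial. -/
theorem eq_bot_of_three_fixedPointFree {X : Subgroup G} [Finite X] {z e : G}
    (hz : z * z = 1) (he : e * e = 1)
    (hzX : z ∈ Subgroup.normalizer (X : Set G)) (heX : e ∈ Subgroup.normalizer (X : Set G))
    (h1 : X ⊓ Subgroup.centralizer ({z} : Set G) = ⊥)
    (h2 : X ⊓ Subgroup.centralizer ({e} : Set G) = ⊥)
    (h3 : X ⊓ Subgroup.centralizer ({z * e} : Set G) = ⊥) : X = ⊥ := by
  have hzi := conj_eq_inv_of_fixedPointFree hz hzX h1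
  have hei := conj_eq_inv_of_fixedPointFree he heX h2
  rw [eq_bot_iff]
  intro x hx
  have hx' : x ∈ X ⊓ Subgroup.centralizer ({z * e} : Set G) := by
    refine Subgroup.mem_inf.mpr ⟨hx, ?_⟩
    rw [Subgroup.mem_centralizer_iff]
    intro h hh
    rw [Set.mem_singleton_iff] at hh
    subst hh
    have e1 : e * x * e⁻¹ = x⁻¹ := hei x hx
    have e2 : z * x⁻¹ * z⁻¹ = x := by
      have := hzi x⁻¹ (X.inv_mem hx)
      rwa [inv_inv] at this
    calc z * e * x = z * (e * x * e⁻¹) * z⁻¹ * (z * e) := by group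
      _ = x * (z * e) := by rw [e1, e2]
  rwa [h3] at hx'

/-- If every `S`-conjugate of `e` is `e` or `z * e`, then `C_S(e)` has index at most `2` in `S`. -/
theorem card_le_two_mul_card_centralizer [Finite G] {S : Subgroup G} {z e : G}
    (h : ∀ s ∈ S, s * e * s⁻¹ = e ∨ s * e * s⁻¹ = z * e) :
    Nat.card S ≤ 2 * Nat.card ↥(S ⊓ Subgroup.centralizer ({e} : Set G)) := by
  have hmem : ∀ s ∈ S, s * e * s⁻¹ = e → s ∈ S ⊓ Subgroup.centralizer ({e} : Set G) := by
    intro s hs hse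
    refine Subgroup.mem_inf.mpr ⟨hs, ?_⟩
    rw [Subgroup.mem_centralizer_iff]
    intro x hx
    rw [Set.mem_singleton_iff] at hx
    subst hx
    exact (conj_eq_iff_mul_comm.mp hse).symm
  by_cases hall : ∀ s ∈ S, s * e * s⁻¹ = e
  · have hle : S ≤ S ⊓ Subgroup.centralizer ({e} : Set G) := fun s hs => hmem s hs (hall s hs)
    have := Subgroup.card_le_of_le hle
    omega
  · push Not at hall
    obtain ⟨t, htS, hte⟩ := hall
    have hte' : t * e * t⁻¹ = z * e := (h t htS).resolve_left hte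
    have hsub : (S : Set G) ⊆ ((S ⊓ Subgroup.centralizer ({e} : Set G) : Subgroup G) : Set G) ∪
        (fun x => t * x) '' ((S ⊓ Subgroup.centralizer ({e} : Set G) : Subgroup G) : Set G) := by
      intro s hs
      rcases h s hs with h1 | h1
      · exact Or.inl (hmem s hs h1)
      · right
        refine ⟨t⁻¹ * s, hmem _ (S.mul_mem (S.inv_mem htS) hs) ?_, by group⟩
        calc t⁻¹ * s * e * (t⁻¹ * s)⁻¹ = t⁻¹ * (s * e * s⁻¹) * t := by group
          _ = t⁻¹ * (t * e * t⁻¹) * t := by rw [h1, hte']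
          _ = e := by group
    have h1 : Nat.card S = (S : Set G).ncard := by
      rw [← Nat.card_coe_set_eq]; rfl
    have h2 : Nat.card ↥(S ⊓ Subgroup.centralizer ({e} : Set G)) =
        ((S ⊓ Subgroup.centralizer ({e} : Set G) : Subgroup G) : Set G).ncard := by
      rw [← Nat.card_coe_set_eq]; rfl
    have h3 := Set.ncard_le_ncard hsub (Set.toFinite _)
    have h4 := Set.ncard_union_le ((S ⊓ Subgroup.centralizer ({e} : Set G) : Subgroup G) : Set G)
      ((fun x => t * x) '' ((S ⊓ Subgroup.centralizer ({e} : Set G) : Subgroup G) : Set G))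
    have h5 := Set.ncard_image_le (f := fun x => t * x)
      (s := ((S ⊓ Subgroup.centralizer ({e} : Set G) : Subgroup G) : Set G)) (Set.toFinite _)
    omega

end CharTwoSylow

end Cfsg.Agent.Lib.Helper30
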