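import Mathlib

/-! Project EP (helper7) = S5746, piece TRANSPORT (delivered by helper30): the conclusion of S5746
passes along an isomorphism. -/

set_option autoImplicit false

namespace Cfsg.Agent.Lib.Helper7.EP

/-- the two-point stabiliser subgroup is carried to the two-point stabiliser subgroup -/
theorem EPTRANSPORT_aux {W G : Type*} [Group W] [Group G] (e : W ≃* G) (H : Subgroup W) (y : W) :
    ((H ⊓ H.map (MulAut.conj y).toMonoidHom).subgroupOf H).map (e.subgroupMap H).toMonoidHom =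
      ((H.map e.toMonoidHom ⊓
        (H.map e.toMonoidHom).map (MulAut.conj (e y)).toMonoidHom).subgroupOf
          (H.map e.toMonoidHom)) := by
  ext ⟨z, hz⟩
  constructor
  · rintro ⟨w, hw, hwz⟩
    have hz' : e (w : W) = z := congrArg Subtype.val hwz
    obtain ⟨hw1, v, hv, hvw⟩ := Subgroup.mem_inf.1 (Subgroup.mem_subgroupOf.1 hw)
    have hvw' : y * v * y⁻¹ = (w : W) := hvw
    refine Subgroup.mem_subgroupOf.2 (Subgroup.mem_inf.2 ⟨hz, e v, ⟨v, hv, rfl⟩, ?_⟩)
    show e y * e v * (e y)⁻¹ = z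
    rw [← hz', ← hvw', map_mul, map_mul, map_inv]
  · intro hmem
    obtain ⟨_, u, ⟨v, hv, hvu⟩, huz⟩ := Subgroup.mem_inf.1 (Subgroup.mem_subgroupOf.1 hmem)
    have hvu' : e v = u := hvu
    have huz' : e y * u * (e y)⁻¹ = z := huz
    have hyv : y * v * y⁻¹ ∈ H := by
      obtain ⟨w₀, hw₀, hw₀z⟩ := hz
      have hw₀z' : e w₀ = z := hw₀z
      have : w₀ = y * v * y⁻¹ := by
        apply e.injective
        rw [hw₀z', ← huz', ← hvu', map_mul, map_mul, map_inv]
      rw [← this]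
      exact hw₀
    refine ⟨⟨y * v * y⁻¹, hyv⟩, ?_, ?_⟩
    · exact Subgroup.mem_subgroupOf.2 (Subgroup.mem_inf.2 ⟨hyv, v, hv, rfl⟩)
    · apply Subtype.ext
      show e (y * v * y⁻¹) = z
      rw [← huz', ← hvu', map_mul, map_mul, map_inv]

/-- TRANSPORT: the conclusion of S5746 passes along an isomorphism. -/
theorem EPTRANSPORT {W G J : Type*} [Group W] [Group G] [Group J] (e : W ≃* G)
    (h : ∃ H : Subgroup W, IsCoatom H ∧ Nonempty (H ≃* J) ∧
      ∀ x : W, x ∉ H → IsCoatom ((H ⊓ H.map (MulAut.conj x).toMonoidHom).subgroupOf H)) :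
    ∃ H : Subgroup G, IsCoatom H ∧ Nonempty (H ≃* J) ∧
      ∀ x : G, x ∉ H → IsCoatom ((H ⊓ H.map (MulAut.conj x).toMonoidHom).subgroupOf H) := by
  obtain ⟨H, hH, ⟨f⟩, hx⟩ := h
  refine ⟨H.map e.toMonoidHom, ?_, ⟨(e.subgroupMap H).symm.trans f⟩, ?_⟩
  · exact (e.mapSubgroup.isCoatom_iff H).2 hH
  · intro x hxn
    have hy : e.symm x ∉ H := by
      intro hmem
      exact hxn ⟨e.symm x, hmem, e.apply_symm_apply x⟩
    have h1 := hx (e.symm x) hy
    have h2 := ((e.subgroupMap H).mapSubgroup.isCoatom_iff _).2 h1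
    have h3 := EPTRANSPORT_aux e H (e.symm x)
    rw [MulEquiv.apply_symm_apply] at h3
    rw [← h3]
    exact h2

end Cfsg.Agent.Lib.Helper7.EP
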