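import Cfsg.Agent.Lib.Helper30.YoshidaFus
import Cfsg.Agent.Lib.Helper89.WCtlBase
import Cfsg.Agent.Lib.Helper90.Inner
import Cfsg.Agent.Lib.Helper90.Ext
import Cfsg.Agent.Lib.Helper90.Sys

set_option autoImplicit false

/-!
Control of transfer by a characteristic functor in saturated fusion systems: basic definitions
(`focN F X`, the focal subgroup of the normalizer system of `X`, generated inside the ambient
group) and the transfer step: for a subgroup `Q` normal in `F`, the intersection of `Q` with the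
focal subgroup of `F` lies in every subgroup `D ≥ [S, S]` containing `[Q, Aut_F(Q)]`.
-/

universe u

namespace Cfsg.Agent.Lib.Helper30

open Cfsg Cfsg.FusionSystem Cfsg.Agent.Lib.Helper87 Cfsg.Agent.Lib.Helper88
  Cfsg.Agent.Lib.Helper90 Cfsg.Agent.Lib.Helper89.WCtl MulAction

open scoped commutatorElement

section transfer

/-- the transfer of `ϕ : H → A` at an element of a normal subgroup `N` on which `ϕ` agrees
with a homomorphism `ψ` defined on the whole group -/
theorem transfer_eq_pow_of_agree {G : Type*} [Group G] [Finite G] {A : Type*} [CommGroup A]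
    (H : Subgroup G) (ϕ : ↥H →* A) (ψ : G →* A) (N : Subgroup G) [hN : N.Normal]
    (hag : ∀ h : ↥H, (h : G) ∈ N → ϕ h = ψ h) {x : G} (hx : x ∈ N) :
    MonoidHom.transfer ϕ x = ψ x ^ H.index := by
  classical
  have : Fintype (Quotient (orbitRel (Subgroup.zpowers x) (G ⧸ H))) := Fintype.ofFinite _
  rw [MonoidHom.transfer_eq_prod_quotient_orbitRel_zpowers_quot]
  have hq : ∀ q : Quotient (orbitRel (Subgroup.zpowers x) (G ⧸ H)),
      ϕ ⟨q.out.out⁻¹ * x ^ Function.minimalPeriod (x • ·) q.out * q.out.out,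
        QuotientGroup.out_conj_pow_minimalPeriod_mem H x q.out⟩ =
      ψ x ^ Function.minimalPeriod (x • ·) q.out := by
    intro q
    have hmem : q.out.out⁻¹ * x ^ Function.minimalPeriod (x • ·) q.out * q.out.out ∈ N := by
      have h1 := hN.conj_mem _ (N.pow_mem hx (Function.minimalPeriod (x • ·) q.out)) q.out.out⁻¹
      rwa [inv_inv] at h1
    rw [hag _ hmem]
    show ψ (q.out.out⁻¹ * x ^ Function.minimalPeriod (x • ·) q.out * q.out.out) = _
    rw [map_mul, map_mul, map_inv, map_pow, mul_comm, mul_inv_cancel_left]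
  rw [Finset.prod_congr rfl (fun q _ => hq q), Finset.prod_pow_eq_pow_sum,
    ← Subgroup.index_eq_sum_minimalPeriod]

variable {K : Type*} [Group K] {A : Type*} [CommGroup A]

theorem bT_eq_pow_of_normal [Finite K] [Fintype (Subgroup (K × K))] (lam : K →* A)
    (m : Subgroup (K × K) → ℕ) (hm : ∀ E, m E ≠ 0 → Function.Injective (fstE E))
    (N : Subgroup K) [N.Normal]
    (hst : ∀ E, m E ≠ 0 → ∀ a b : K, (a, b) ∈ E → a ∈ N → lam b = lam a) {x : K}
    (hx : x ∈ N) :
    bT lam m x = lam x ^ (∑ E : Subgroup (K × K), m E * (pE E).index) := by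
  rw [bT_apply, ← Finset.prod_pow_eq_pow_sum]
  apply Finset.prod_congr rfl
  intro E _
  by_cases hE : m E = 0
  · simp [hE]
  · have hag : ∀ h : ↥(pE E), (h : K) ∈ N → phiE lam E h = lam h := by
      rintro ⟨a, ha⟩ haN
      obtain ⟨b, hb⟩ := mem_pE.mp ha
      rw [phiE_apply lam (hm E hE) hb ha]
      exact hst E hE a b hb haN
    rw [transfer_eq_pow_of_agree (pE E) (phiE lam E) lam N hag hx, ← pow_mul, mul_comm]

end transfer

section focN

variable {Ω : Type*} [Group Ω] {S : Subgroup Ω} {F : FusionSystem S}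

/-- the focal subgroup of the normalizer system `N_F(X)`, generated inside the ambient group -/
def focN (F : FusionSystem S) (X : Subgroup Ω) : Subgroup Ω :=
  Subgroup.closure {z : Ω | ∃ (P : Subgroup Ω) (f : Ω → Ω) (y : Ω),
    NMor F X P f ∧ y ∈ P ∧ z = y⁻¹ * f y}

theorem mem_focN {X P : Subgroup Ω} {f : Ω → Ω} (h : NMor F X P f) {y : Ω} (hy : y ∈ P) :
    y⁻¹ * f y ∈ focN F X :=
  Subgroup.subset_closure ⟨P, f, y, h, hy, rfl⟩

theorem focN_le_of_forall {X D : Subgroup Ω}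
    (h : ∀ (P : Subgroup Ω) (f : Ω → Ω), NMor F X P f → ∀ y ∈ P, y⁻¹ * f y ∈ D) :
    focN F X ≤ D := by
  unfold focN
  rw [Subgroup.closure_le]
  rintro _ ⟨P, f, y, hf, hy, rfl⟩
  exact h P f hf y hy

theorem mem_focal_of_mor {P : Subgroup Ω} {f : Ω → Ω} (hf : Mor F P f) {y : Ω} (hy : y ∈ P) :
    y⁻¹ * f y ∈ F.focalSubgroup := by
  obtain ⟨φ, hφ, hφf⟩ := hf
  refine Subgroup.subset_closure ⟨P, φ, ⟨y, hy⟩, hφ, ?_⟩
  rw [hφf ⟨y, hy⟩]

theorem focal_le_of_forall {D : Subgroup Ω}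
    (h : ∀ (P : Subgroup Ω) (f : Ω → Ω), Mor F P f → ∀ y ∈ P, y⁻¹ * f y ∈ D) :
    F.focalSubgroup ≤ D := by
  unfold FusionSystem.focalSubgroup
  rw [Subgroup.closure_le]
  rintro _ ⟨P, φ, x, hφ, rfl⟩
  have h1 := h P (extFun P φ) (mor_of_hom hφ) x x.2
  rwa [extFun_apply] at h1

theorem focN_le_focal (X : Subgroup Ω) : focN F X ≤ F.focalSubgroup :=
  focN_le_of_forall (fun _ _ hf _ hy => mem_focal_of_mor hf.1 hy)

theorem focN_le (X : Subgroup Ω) : focN F X ≤ S :=
  (focN_le_focal X).trans (focalSubgroup_le F)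

/-- monotonicity of `focN` in the system -/
theorem nMor_mono {S' : Subgroup Ω} {E : FusionSystem S'} (hle : S' ≤ S)
    (hsub : ∀ (P : Subgroup Ω) (f : Ω → Ω), Mor E P f → Mor F P f) {X P : Subgroup Ω}
    {f : Ω → Ω} (h : NMor E X P f) : NMor F X P f := by
  obtain ⟨hf, hP, hfP, f', hf', hf'P, hf'X⟩ := h
  have hNle : normalizerIn S' X ≤ normalizerIn S X := fun a ha => ⟨hle ha.1, ha.2⟩
  exact ⟨hsub P f hf, hP.trans hNle, fun x hx => hNle (hfP x hx), f', hsub _ f' hf', hf'P, hf'X⟩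

theorem focN_mono {S' : Subgroup Ω} {E : FusionSystem S'} (hle : S' ≤ S)
    (hsub : ∀ (P : Subgroup Ω) (f : Ω → Ω), Mor E P f → Mor F P f) (X : Subgroup Ω) :
    focN E X ≤ focN F X :=
  focN_le_of_forall (fun _ _ hf _ hy => mem_focN (nMor_mono hle hsub hf) hy)

/-- the focal subgroup of a normalizer system -/
theorem focalSubgroup_normalizerSystem [Finite S] {X : Subgroup Ω} (hX : X ≤ S)
    {N : FusionSystem (normalizerIn S X)} (hN : F.IsNormalizerSystem X N) :
    N.focalSubgroup = focN F X := by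
  apply le_antisymm
  · exact focal_le_of_forall
      (fun P f hf y hy => mem_focN ((isNormalizerSystem_mor_iff hX hN).1 hf) hy)
  · exact focN_le_of_forall
      (fun P f hf y hy => mem_focal_of_mor ((isNormalizerSystem_mor_iff hX hN).2 hf) hy)

/-- conjugation by an element of `S` normalizing `X` is a map of `N_F(X)` -/
theorem nMor_conj {X P : Subgroup Ω} (hX : X ≤ S) (hP : P ≤ normalizerIn S X) {b : Ω}
    (hb : b ∈ normalizerIn S X) : NMor F X P (fun x => b * x * b⁻¹) := by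
  have hN : normalizerIn S X ≤ S := inf_le_left
  refine ⟨mor_conj F (hP.trans hN) hb.1, hP, fun x hx => ?_, fun x => b * x * b⁻¹,
    mor_conj F (sup_le (hP.trans hN) hX) hb.1, fun _ _ => rfl, fun x hx => ?_⟩
  · exact Subgroup.mul_mem _ (Subgroup.mul_mem _ hb (hP hx)) (Subgroup.inv_mem _ hb)
  · exact conj_mem_of_mem_normalizer hb.2 hx

theorem comm_mem_focN {X : Subgroup Ω} (hX : X ≤ S)
    (hXn : S ≤ Subgroup.normalizer (X : Set Ω)) {a b : Ω} (ha : a ∈ S) (hb : b ∈ S) :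
    a⁻¹ * (b * a * b⁻¹) ∈ focN F X := by
  have hN : S ≤ normalizerIn S X := fun s hs => ⟨hs, hXn hs⟩
  exact mem_focN (nMor_conj (P := S) hX hN (hN hb)) ha

end focN

section transferStep

variable {Ω : Type*} [Group Ω] {S : Subgroup Ω} {F : FusionSystem S}
variable [Finite S] {p : ℕ} [hp : Fact p.Prime]

/-- **Transfer step.** Let `Q` be normal in the saturated system `F` and `D` a subgroup of `S`
containing the commutators of `S` and the elements `y⁻¹ ψ(y)`, `y ∈ Q`, `ψ ∈ Aut_F(Q)`.  Then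
`Q ∩ foc(F) ≤ D`. -/
theorem inf_focal_le_of_normal (hS : IsPGroup p S) (hF : F.IsSaturated p) {Q : Subgroup Ω}
    (hQ : F.IsNormal Q) (D : Subgroup Ω)
    (hcomm : ∀ a ∈ S, ∀ b ∈ S, a⁻¹ * (b * a * b⁻¹) ∈ D)
    (hD : ∀ ψ : Ω → Ω, Mor F Q ψ → (∀ y ∈ Q, ψ y ∈ Q) → ∀ y ∈ Q, y⁻¹ * ψ y ∈ D) :
    Q ⊓ F.focalSubgroup ≤ D := by
  classical
  have hQS : Q ≤ S := hQ.1
  have hsc : F.StronglyClosed Q := Cfsg.Agent.Lib.Helper90.stronglyClosed_of_isNormal hQ
  set D' : Subgroup ↥S := D.subgroupOf S with hD'def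
  have hcomm' : commutator ↥S ≤ D' := by
    rw [commutator_eq_closure, Subgroup.closure_le]
    rintro _ ⟨b, a, rfl⟩
    have h1 := hcomm ((b⁻¹ : ↥S) : Ω) (b⁻¹ : ↥S).2 (a : Ω) a.2
    show ((⁅b, a⁆ : ↥S) : Ω) ∈ D
    have e : ((⁅b, a⁆ : ↥S) : Ω) = ((b⁻¹ : ↥S) : Ω)⁻¹ * ((a : Ω) * ((b⁻¹ : ↥S) : Ω) * (a : Ω)⁻¹) := by
      rw [commutatorElement_def]
      simp only [Subgroup.coe_mul, Subgroup.coe_inv]
      group
    rw [e]
    exact h1
  let q : ↥S →* Abelianization ↥S ⧸ D'.map Abelianization.of :=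
    (QuotientGroup.mk' (D'.map Abelianization.of)).comp Abelianization.of
  have hker : ∀ x : ↥S, q x = 1 ↔ x ∈ D' := by
    intro x
    show ((Abelianization.of x : Abelianization ↥S) :
      Abelianization ↥S ⧸ D'.map Abelianization.of) = 1 ↔ _
    rw [QuotientGroup.eq_one_iff]
    constructor
    · rintro ⟨d, hd, hdx⟩
      have h1 : d⁻¹ * x ∈ commutator ↥S := by
        rw [← Abelianization.ker_of, MonoidHom.mem_ker, map_mul, map_inv, hdx, inv_mul_cancel]
      have h2 := D'.mul_mem hd (hcomm' h1)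
      rwa [mul_inv_cancel_left] at h2
    · intro hx
      exact ⟨x, hx, rfl⟩
  have hqsurj : Function.Surjective q := by
    intro a
    obtain ⟨a', rfl⟩ := QuotientGroup.mk_surjective a
    obtain ⟨s, rfl⟩ := QuotientGroup.mk_surjective a'
    exact ⟨s, rfl⟩
  have hAp : IsPGroup p (Abelianization ↥S ⧸ D'.map Abelianization.of) :=
    IsPGroup.of_surjective hS q hqsurj
  obtain ⟨m, hsupp, hst, hc⟩ := exists_char_mult hS hF
  let _ : Fintype (Subgroup (↥S × ↥S)) := Fintype.ofFinite _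
  rw [finsum_eq_sum_of_fintype] at hc
  have hcop : Nat.Coprime (∑ E : Subgroup (↥S × ↥S), m E * (pE E).index) p :=
    Nat.coprime_comm.mp ((Nat.Prime.coprime_iff_not_dvd hp.out).mpr hc)
  have hm : ∀ E, m E ≠ 0 → Function.Injective (fstE E) := fun E hE => isG_injective (hsupp E hE)
  have hNn : (Q.subgroupOf S).Normal :=
    ⟨fun n hn g => by
      rw [Subgroup.mem_subgroupOf] at hn ⊢
      exact stronglyClosed_conj_mem hsc g.2 hn⟩
  have hstN : ∀ E, m E ≠ 0 → ∀ a b : ↥S, (a, b) ∈ E → a ∈ Q.subgroupOf S → q b = q a := by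
    intro E hE a b hab haN
    obtain ⟨P, f, hf, rfl⟩ := hsupp E hE
    obtain ⟨haP, hfa⟩ := (mem_gr hf).mp hab
    have haQ : (a : Ω) ∈ Q := haN
    obtain ⟨f', hf', hf'P, hf'Q⟩ := extQ_of_isNormal hQ hf
    have h1 := hD f' (hf'.restrict le_sup_right) hf'Q (a : Ω) haQ
    rw [hf'P _ haP, hfa] at h1
    have h3 : a⁻¹ * b ∈ D' := h1
    have h4 := (hker _).mpr h3
    rw [map_mul, map_inv, inv_mul_eq_one] at h4
    exact h4.symm
  rintro x ⟨hxQ, hxF⟩
  have hxS : x ∈ S := hQS hxQ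
  have h1 := bT_eq_pow_of_normal q m hm (Q.subgroupOf S) hstN (x := ⟨x, hxS⟩) hxQ
  rw [bT_focal_eq_one hS hF q hsupp hst ⟨x, hxS⟩ hxF] at h1
  obtain ⟨k, hk⟩ := hAp (q ⟨x, hxS⟩)
  have h2 := (pow_gcd_eq_one (a := q ⟨x, hxS⟩)).mpr ⟨h1.symm, hk⟩
  have h3 : Nat.gcd (∑ E : Subgroup (↥S × ↥S), m E * (pE E).index) (p ^ k) = 1 :=
    Nat.Coprime.pow_right k hcop
  rw [h3, pow_one] at h2
  exact (hker _).mp h2

end transferStep

end Cfsg.Agent.Lib.Helper30
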