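import Cfsg.Agent.Lib.Helper30.FocCtlBase
import Cfsg.Agent.Lib.Helper88.FusQuot

set_option autoImplicit false

/-!
Control of transfer in fusion systems, the quotient step: along a surjective morphism
`θ : F → F'`, if the focal subgroup of `F'` is the focal subgroup of `N_{F'}(W')` and the focal
subgroup of `N_F(θ⁻¹(W'))` lies in `D`, then the focal subgroup of `F` lies in `ker θ · D`.
-/

universe u

namespace Cfsg.Agent.Lib.Helper30

open Cfsg Cfsg.FusionSystem Cfsg.Agent.Lib.Helper88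
  Cfsg.Agent.Lib.Helper90 Cfsg.Agent.Lib.Helper89.WCtl

section quot

variable {Ω : Type*} [Group Ω] {S : Subgroup Ω} {F : FusionSystem S}
  {Ω' : Type*} [Group Ω'] {S' : Subgroup Ω'} {F' : FusionSystem S'} {θ : ↥S →* Ω'}

theorem normalizer_preimageAlong [Finite S] (hm : F.IsMorphism F' θ) {W' : Subgroup Ω'}
    (hW'n : S' ≤ Subgroup.normalizer (W' : Set Ω')) :
    S ≤ Subgroup.normalizer ((preimageAlong θ W' : Subgroup Ω) : Set Ω) := by
  intro x hxS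
  have : Finite (preimageAlong θ W') :=
    Cfsg.Agent.Lib.Helper90.finite_of_le (preimageAlong_le θ W')
  apply mem_normalizer_of_finite
  intro t ht
  have htS := (mem_preimageAlong.1 ht).1
  refine mem_preimageAlong.2 ⟨S.mul_mem (S.mul_mem hxS htS) (S.inv_mem hxS), ?_⟩
  rw [aFun_conj θ hxS htS]
  have hn := hW'n (aFun_mem hm hxS)
  exact (Subgroup.mem_normalizer_iff.1 hn _).1 (mem_preimageAlong.1 ht).2

theorem not_preimageAlong_le_ker (hsm : F.IsSurjectiveMorphism F' θ) {W' : Subgroup Ω'}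
    (hW'S : W' ≤ S') (hW' : W' ≠ ⊥) : ¬ preimageAlong θ W' ≤ kerAlong θ := by
  intro hle
  apply hW'
  rw [eq_bot_iff]
  intro w hw
  obtain ⟨x, hxS, rfl⟩ := exists_aFun_eq hsm (hW'S hw)
  have h1 : x ∈ preimageAlong θ W' := mem_preimageAlong.2 ⟨hxS, hw⟩
  rw [Subgroup.mem_bot]
  exact (mem_kerAlong.1 (hle h1)).2

/-- **Quotient step.** -/
theorem quot_step [Finite S] (hsm : F.IsSurjectiveMorphism F' θ) {W' : Subgroup Ω'}
    (hW'n : S' ≤ Subgroup.normalizer (W' : Set Ω')) (D : Subgroup Ω)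
    (h1 : ∀ (P' : Subgroup Ω') (f' : Ω' → Ω'), Mor F' P' f' → ∀ y' ∈ P',
      y'⁻¹ * f' y' ∈ focN F' W')
    (h2 : ∀ (P : Subgroup Ω) (f : Ω → Ω), NMor F (preimageAlong θ W') P f → ∀ y ∈ P,
      y⁻¹ * f y ∈ D) :
    ∀ (P : Subgroup Ω) (f : Ω → Ω), Mor F P f → ∀ y ∈ P,
      ∃ k ∈ kerAlong θ, ∃ d ∈ D, y⁻¹ * f y = k * d := by
  have hSN : S ≤ normalizerIn S (preimageAlong θ W') := fun s hs =>
    ⟨hs, normalizer_preimageAlong hsm.1 hW'n hs⟩
  have key : focN F' W' ≤ imageAlong θ D := by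
    apply focN_le_of_forall
    rintro P' f' ⟨hf', hP'N, hf'N, f'', hf'', hf''P, hf''W⟩ y' hy'
    obtain ⟨f₂, hf₂, hf₂l⟩ := mor_lift hsm hf''
    have hW₂P₂ : preimageAlong θ W' ≤ preimageAlong θ (P' ⊔ W') := fun x hx =>
      mem_preimageAlong.2 ⟨(mem_preimageAlong.1 hx).1,
        Subgroup.mem_sup_right (mem_preimageAlong.1 hx).2⟩
    have hf₂W : ∀ x ∈ preimageAlong θ W', f₂ x ∈ preimageAlong θ W' := by
      intro x hx
      refine mem_preimageAlong.2 ⟨hf₂.mem (hW₂P₂ hx), ?_⟩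
      rw [← hf₂l x (hW₂P₂ hx)]
      exact hf''W _ (mem_preimageAlong.1 hx).2
    have hnm₂ : NMor F (preimageAlong θ W') (preimageAlong θ (P' ⊔ W')) f₂ :=
      ⟨hf₂, hf₂.le.trans hSN, fun x hx => hSN (hf₂.mem hx), extQ_of_le hW₂P₂ hf₂ hf₂W⟩
    obtain ⟨x, hxS, hxy⟩ := exists_aFun_eq hsm (hf'.le hy')
    have hxP₂ : x ∈ preimageAlong θ (P' ⊔ W') :=
      mem_preimageAlong.2 ⟨hxS, by rw [hxy]; exact Subgroup.mem_sup_left hy'⟩
    have hd := h2 _ f₂ hnm₂ x hxP₂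
    rw [mem_imageAlong]
    refine ⟨x⁻¹ * f₂ x, hd, S.mul_mem (S.inv_mem hxS) (hf₂.mem hxP₂), ?_⟩
    rw [aFun_mul θ (S.inv_mem hxS) (hf₂.mem hxP₂), aFun_inv θ hxS, ← hf₂l x hxP₂, hxy,
      hf''P y' hy']
  intro P f hf y hy
  obtain ⟨f', hf', hf'eq⟩ := mor_image hsm.1 hf
  have hyS : y ∈ S := hf.le hy
  have hfyS : f y ∈ S := hf.mem hy
  have hy' : aFun θ y ∈ imageAlong θ P := mem_imageAlong.2 ⟨y, hy, hyS, rfl⟩
  have h3 := key (h1 _ f' hf' _ hy')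
  rw [hf'eq y hy, mem_imageAlong] at h3
  obtain ⟨d, hd, hdS, hde⟩ := h3
  have h4 : aFun θ (y⁻¹ * f y) = aFun θ d := by
    rw [aFun_mul θ (S.inv_mem hyS) hfyS, aFun_inv θ hyS, hde]
  have h5 := (aFun_eq_iff (S.mul_mem (S.inv_mem hyS) hfyS) hdS).1 h4
  exact ⟨(y⁻¹ * f y) * d⁻¹, h5, d, hd, by group⟩

end quot

end Cfsg.Agent.Lib.Helper30
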