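import Mathlib
import Cfsg.Agent.Lib.Helper81.G2Base
import Cfsg.Agent.Lib.Helper81.SqDer
import Cfsg.Agent.Lib.Helper81.SlSylB

/-!
# S4632 piece STAB2 (poster helper81): the stabiliser of `e0` in `G₂(F)` embeds in `SL₃(F)`
-/

set_option autoImplicit false

namespace Cfsg.Agent.Lib.Helper30.G2

open Cfsg Cfsg.Lie Matrix Cfsg.Agent.Lib.Helper81.G2Base Cfsg.Agent.Lib.Helper81.SqD

universe u

/-- `fL M N` determines `M` -/
theorem stab2_fL_inj_left {F : Type u} [Field F] (M N M' N' : Matrix (Fin 3) (Fin 3) F)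
    (h : ∀ x, fL M N x = fL M' N' x) : M = M' := by
  have h0 := h ![0, 1, 0, 0, 0, 0, 0, 0]
  have h1 := h ![0, 0, 1, 0, 0, 0, 0, 0]
  have h2 := h ![0, 0, 0, 1, 0, 0, 0, 0]
  ext i j
  fin_cases i <;> fin_cases j
  · simpa [fL] using congrFun h0 1
  · simpa [fL] using congrFun h1 1
  · simpa [fL] using congrFun h2 1
  · simpa [fL] using congrFun h0 2
  · simpa [fL] using congrFun h1 2
  · simpa [fL] using congrFun h2 2
  · simpa [fL] using congrFun h0 3
  · simpa [fL] using congrFun h1 3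
  · simpa [fL] using congrFun h2 3

/-- composition of block maps -/
theorem stab2_fL_comp {F : Type u} [Field F] (M N M' N' : Matrix (Fin 3) (Fin 3) F)
    (x : Fin 8 → F) : fL M N (fL M' N' x) = fL (M * M') (N * N') x := by
  ext i
  fin_cases i <;> simp [fL, Matrix.mul_apply, Fin.sum_univ_three] <;> ring

/-- the identity block map -/
theorem stab2_fL_one {F : Type u} [Field F] (x : Fin 8 → F) :
    fL (1 : Matrix (Fin 3) (Fin 3) F) 1 x = x := by
  ext i
  fin_cases i <;> simp [fL]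

/-- PIECE STAB2 -/
theorem card_stab_dvd {F : Type u} [Field F] [Fintype F]
    (H : ∀ g : Lie.G2 F, act g e0 = e0 →
      ∃ M N : Matrix (Fin 3) (Fin 3) F, (∀ x, act g x = fL M N x) ∧ Mᵀ * N = 1 ∧ M.det = 1) :
    Nat.card (stab0 (F := F)) ∣ Nat.card (SpecialLinearGroup (Fin 3) F) := by
  classical
  choose Mf hMf using H
  choose Nf hNf using hMf
  -- the map
  have hdet : ∀ g : stab0 (F := F), (Mf g.1 g.2).det = 1 := fun g => (hNf g.1 g.2).2.2
  have hmul : ∀ g h : stab0 (F := F),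
      Mf (g * h).1 (g * h).2 = Mf g.1 g.2 * Mf h.1 h.2 := by
    intro g h
    apply stab2_fL_inj_left _ (Nf (g * h).1 (g * h).2) _ (Nf g.1 g.2 * Nf h.1 h.2)
    intro x
    rw [← (hNf (g * h).1 (g * h).2).1 x, ← stab2_fL_comp, ← (hNf h.1 h.2).1 x,
      ← (hNf g.1 g.2).1 (act h.1 x)]
    exact act_mul g.1 h.1 x
  let φ : stab0 (F := F) →* SpecialLinearGroup (Fin 3) F :=
    MonoidHom.mk' (fun g => ⟨Mf g.1 g.2, hdet g⟩) (by
      intro g h
      apply Subtype.ext
      exact hmul g h)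
  have hφ : ∀ g : stab0 (F := F), ((φ g : SpecialLinearGroup (Fin 3) F) :
      Matrix (Fin 3) (Fin 3) F) = Mf g.1 g.2 := fun g => rfl
  have hinj : Function.Injective φ := by
    intro g h hgh
    have hM : Mf g.1 g.2 = Mf h.1 h.2 := by
      rw [← hφ g, ← hφ h, hgh]
    have hN : Nf g.1 g.2 = Nf h.1 h.2 := by
      have h1 := (hNf g.1 g.2).2.1
      have h2 := (hNf h.1 h.2).2.1
      rw [← hM] at h2
      rw [← Matrix.inv_eq_right_inv h1, ← Matrix.inv_eq_right_inv h2]
    apply Subtype.ext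
    apply ext_act
    intro x
    rw [(hNf g.1 g.2).1 x, (hNf h.1 h.2).1 x, hM, hN]
  exact Subgroup.card_dvd_of_injective φ hinj

end Cfsg.Agent.Lib.Helper30.G2
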