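import Mathlib
import Cfsg.Agent.Lib.Helper81.G2Base
import Cfsg.Agent.Lib.Helper81.SqDer
import Cfsg.Agent.Lib.Helper81.SlSylB

/-!
# S4632 piece T2 (poster helper81): the matrix `p = (1 + s) w`
-/

set_option autoImplicit false

namespace Cfsg.Agent.Lib.Helper30.G2

open Cfsg Cfsg.Lie Matrix Cfsg.Agent.Lib.Helper81.G2Base Cfsg.Agent.Lib.Helper81.SqD

universe u

/-- squaring `1 - c n` when `n² = 0` -/
theorem t2_sq_step {F : Type u} [Field F] (n : Matrix (Fin 2) (Fin 2) F) (hn : n * n = 0)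
    (c : F) : (1 - c • n) * (1 - c • n) = 1 - (2 * c) • n := by
  have h0 : (c • n) * (c • n) = 0 := by
    rw [smul_mul_smul_comm, hn, smul_zero]
  obtain ⟨x, hx⟩ : ∃ x : Matrix (Fin 2) (Fin 2) F, x = c • n := ⟨_, rfl⟩
  rw [← hx] at h0
  calc (1 - c • n) * (1 - c • n) = (1 - x) * (1 - x) := by rw [hx]
    _ = 1 - x - x + x * x := by noncomm_ring
    _ = 1 - (2 * c) • n := by
        rw [h0, add_zero, two_mul, add_smul, hx]; abel

/-- `S ^ (2 ^ j) = 1 - 2 ^ j n` for `S = n - 1`, `n² = 0`, `j ≥ 1` -/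
theorem t2_pow_two_pow {F : Type u} [Field F] (n : Matrix (Fin 2) (Fin 2) F) (hn : n * n = 0)
    (j : ℕ) (hj : 1 ≤ j) : (n - 1) ^ (2 ^ j) = 1 - ((2 : F) ^ j) • n := by
  induction j, hj using Nat.le_induction with
  | base =>
    rw [pow_one, pow_one, pow_two]
    calc (n - 1) * (n - 1) = n * n - n - n + 1 := by noncomm_ring
      _ = 1 - (2 : F) • n := by rw [hn, two_smul]; abel
  | succ j hj ih =>
    rw [pow_succ 2 j, pow_mul, ih, pow_two, t2_sq_step n hn, pow_succ]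
    congr 2
    ring

/-- PIECE T2 -/
theorem pair_p0 {F : Type u} [Field F] [Fintype F] (h2 : (2 : F) ≠ 0) {a : ℕ} (ha : 2 ≤ a)
    (s w : SpecialLinearGroup (Fin 2) F) (hs : orderOf s = 2 ^ a) (hsws : s * w * s = w)
    (hw2 : (w : Matrix (Fin 2) (Fin 2) F) * (w : Matrix (Fin 2) (Fin 2) F) = -1) :
    ∃ p : GL (Fin 2) F,
      (∃ μ : F, (p : Matrix (Fin 2) (Fin 2) F) * (p : Matrix (Fin 2) (Fin 2) F) = μ • 1) ∧
      (p : Matrix (Fin 2) (Fin 2) F) * (s : Matrix (Fin 2) (Fin 2) F) =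
        ((s⁻¹ : SpecialLinearGroup (Fin 2) F) : Matrix (Fin 2) (Fin 2) F) *
          (p : Matrix (Fin 2) (Fin 2) F) ∧
      (p : Matrix (Fin 2) (Fin 2) F) * (w : Matrix (Fin 2) (Fin 2) F) =
        ((s * w : SpecialLinearGroup (Fin 2) F) : Matrix (Fin 2) (Fin 2) F) *
          (p : Matrix (Fin 2) (Fin 2) F) ∧
      (∀ (k : ℤ) (μ : F), (p : Matrix (Fin 2) (Fin 2) F) ≠
        μ • ((s ^ k : SpecialLinearGroup (Fin 2) F) : Matrix (Fin 2) (Fin 2) F)) ∧
      (∀ (k : ℤ) (μ : F), (p : Matrix (Fin 2) (Fin 2) F) ≠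
        μ • ((s ^ k * w : SpecialLinearGroup (Fin 2) F) : Matrix (Fin 2) (Fin 2) F)) := by
  classical
  -- names for the matrices
  obtain ⟨S, hS⟩ : ∃ S : Matrix (Fin 2) (Fin 2) F, S = (s : Matrix (Fin 2) (Fin 2) F) := ⟨_, rfl⟩
  obtain ⟨W, hW⟩ : ∃ W : Matrix (Fin 2) (Fin 2) F, W = (w : Matrix (Fin 2) (Fin 2) F) := ⟨_, rfl⟩
  obtain ⟨Si, hSi⟩ : ∃ Si : Matrix (Fin 2) (Fin 2) F,
      Si = ((s⁻¹ : SpecialLinearGroup (Fin 2) F) : Matrix (Fin 2) (Fin 2) F) := ⟨_, rfl⟩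
  have coe_mul : ∀ x y : SpecialLinearGroup (Fin 2) F,
      ((x * y : SpecialLinearGroup (Fin 2) F) : Matrix (Fin 2) (Fin 2) F) =
        (x : Matrix (Fin 2) (Fin 2) F) * (y : Matrix (Fin 2) (Fin 2) F) := fun x y => rfl
  have hSSi : S * Si = 1 := by
    rw [hS, hSi, ← coe_mul, mul_inv_cancel]; rfl
  have hSiS : Si * S = 1 := by
    rw [hS, hSi, ← coe_mul, inv_mul_cancel]; rfl
  have hws : w * s = s⁻¹ * w := by
    calc w * s = s⁻¹ * (s * w * s) := by group
      _ = s⁻¹ * w := by rw [hsws]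
  have hWS : W * S = Si * W := by
    rw [hS, hW, hSi, ← coe_mul, ← coe_mul, hws]
  have hWW : W * W = -1 := by rw [hW]; exact hw2
  have hWnW : W * (-W) = 1 := by rw [mul_neg, hWW, neg_neg]
  -- the order of `s`
  have hss : S * S ≠ 1 := by
    intro h
    have h1 : s * s = 1 := by
      apply Subtype.ext
      rw [coe_mul, ← hS, h]; rfl
    have h3 : orderOf s ∣ 2 := orderOf_dvd_of_pow_eq_one (by rw [pow_two]; exact h1)
    rw [hs] at h3
    have h4 : 2 ^ a ≤ 2 := Nat.le_of_dvd (by norm_num) h3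
    have h5 : 2 ^ 2 ≤ 2 ^ a := Nat.pow_le_pow_right (by norm_num) ha
    omega
  -- Cayley–Hamilton
  have htr : S + Si = (S 0 0 + S 1 1) • (1 : Matrix (Fin 2) (Fin 2) F) := by
    rw [hSi, Matrix.SpecialLinearGroup.coe_inv, ← hS, Matrix.adjugate_fin_two]
    ext i j
    fin_cases i <;> fin_cases j <;> simp [add_comm]
  obtain ⟨τ, hτ⟩ : ∃ τ : F, τ = S 0 0 + S 1 1 := ⟨_, rfl⟩
  rw [← hτ] at htr
  have hSS : S * S = τ • S - 1 := by
    have h1 : S * (S + Si) = S * (τ • (1 : Matrix (Fin 2) (Fin 2) F)) := by rw [htr]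
    rw [mul_add, hSSi, mul_smul_comm, mul_one] at h1
    exact eq_sub_of_add_eq h1
  have h11 : (1 + S) * (1 + Si) = (2 + τ) • (1 : Matrix (Fin 2) (Fin 2) F) := by
    calc (1 + S) * (1 + Si) = 1 + (S + Si) + S * Si := by noncomm_ring
      _ = (2 + τ) • (1 : Matrix (Fin 2) (Fin 2) F) := by
          rw [htr, hSSi, add_smul, two_smul]; abel
  -- `2 + tr s ≠ 0`
  have hτ2 : 2 + τ ≠ 0 := by
    intro h0
    have hnn : (1 + S) * (1 + S) = 0 := by
      calc (1 + S) * (1 + S) = 1 + (S + S) + S * S := by noncomm_ring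
        _ = (2 + τ) • S := by rw [hSS, add_smul, two_smul]; abel
        _ = 0 := by rw [h0, zero_smul]
    have hpow := t2_pow_two_pow (1 + S) hnn a (by omega)
    have hS1 : (1 + S) - 1 = S := by abel
    rw [hS1] at hpow
    have hsa : S ^ (2 ^ a) = 1 := by
      have h1 : s ^ (2 ^ a) = 1 := by rw [← hs]; exact pow_orderOf_eq_one s
      rw [hS, ← Matrix.SpecialLinearGroup.coe_pow, h1]; rfl
    rw [hsa] at hpow
    have h3 : ((2 : F) ^ a) • (1 + S) = 0 := by
      have h4 := sub_eq_zero.mpr hpow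
      simpa using h4
    rcases smul_eq_zero.mp h3 with h5 | h5
    · exact pow_ne_zero a h2 h5
    · apply hss
      have h6 : S = -1 := by
        have h7 := eq_neg_of_add_eq_zero_right h5
        exact h7
      rw [h6]; simp
  -- the matrix `p`
  obtain ⟨P, hP⟩ : ∃ P : Matrix (Fin 2) (Fin 2) F, P = (1 + S) * W := ⟨_, rfl⟩
  have hW1S : W * (1 + S) = (1 + Si) * W := by
    rw [mul_add, add_mul, mul_one, one_mul, hWS]
  have hPP : P * P = (-(2 + τ)) • (1 : Matrix (Fin 2) (Fin 2) F) := by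
    calc P * P = (1 + S) * (W * (1 + S)) * W := by rw [hP]; simp only [Matrix.mul_assoc]
      _ = (1 + S) * (1 + Si) * (W * W) := by rw [hW1S]; simp only [Matrix.mul_assoc]
      _ = (-(2 + τ)) • (1 : Matrix (Fin 2) (Fin 2) F) := by
          rw [h11, hWW, mul_neg, mul_one, neg_smul]
  have hPS : P * S = Si * P := by
    calc P * S = (1 + S) * (W * S) := by rw [hP, Matrix.mul_assoc]
      _ = ((1 + S) * Si) * W := by rw [hWS, Matrix.mul_assoc]
      _ = (Si * (1 + S)) * W := by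
          congr 1
          rw [add_mul, mul_add, one_mul, mul_one, hSSi, hSiS]
      _ = Si * P := by rw [hP, Matrix.mul_assoc]
  have hPW : P * W = (S * W) * P := by
    calc P * W = (1 + S) * (W * W) := by rw [hP, Matrix.mul_assoc]
      _ = (S * (1 + Si)) * (W * W) := by
          congr 1
          rw [mul_add, mul_one, hSSi, add_comm]
      _ = S * ((1 + Si) * W) * W := by simp only [Matrix.mul_assoc]
      _ = S * (W * (1 + S)) * W := by rw [hW1S]
      _ = (S * W) * P := by rw [hP]; simp only [Matrix.mul_assoc]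
  -- `p` as a unit
  have hPinv1 : P * ((-(2 + τ))⁻¹ • P) = 1 := by
    rw [mul_smul_comm, hPP, smul_smul, inv_mul_cancel₀ (neg_ne_zero.mpr hτ2), one_smul]
  have hPinv2 : ((-(2 + τ))⁻¹ • P) * P = 1 := by
    rw [smul_mul_assoc, hPP, smul_smul, inv_mul_cancel₀ (neg_ne_zero.mpr hτ2), one_smul]
  refine ⟨⟨P, (-(2 + τ))⁻¹ • P, hPinv1, hPinv2⟩, ⟨-(2 + τ), hPP⟩, ?_, ?_, ?_, ?_⟩
  · show P * (s : Matrix (Fin 2) (Fin 2) F) =
      ((s⁻¹ : SpecialLinearGroup (Fin 2) F) : Matrix (Fin 2) (Fin 2) F) * P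
    rw [← hS, ← hSi]; exact hPS
  · show P * (w : Matrix (Fin 2) (Fin 2) F) =
      ((s * w : SpecialLinearGroup (Fin 2) F) : Matrix (Fin 2) (Fin 2) F) * P
    rw [coe_mul, ← hS, ← hW]; exact hPW
  · intro k μ hk
    have hk' : P = μ • ((s ^ k : SpecialLinearGroup (Fin 2) F) : Matrix (Fin 2) (Fin 2) F) := hk
    have hcomm : ((s ^ k : SpecialLinearGroup (Fin 2) F) : Matrix (Fin 2) (Fin 2) F) * S =
        S * ((s ^ k : SpecialLinearGroup (Fin 2) F) : Matrix (Fin 2) (Fin 2) F) := by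
      rw [hS, ← coe_mul, ← coe_mul, (Commute.zpow_self s k).eq]
    have h1 : P * S = S * P := by
      rw [hk', smul_mul_assoc, hcomm, mul_smul_comm]
    rw [hPS] at h1
    -- cancel `P`
    have h3 : Si = S := by
      have h4 : Si * P * ((-(2 + τ))⁻¹ • P) = S * P * ((-(2 + τ))⁻¹ • P) := by rw [h1]
      rwa [Matrix.mul_assoc, Matrix.mul_assoc, hPinv1, mul_one, mul_one] at h4
    apply hss
    rw [h3] at hSiS
    exact hSiS
  · intro k μ hk
    have hk' : P = μ • ((s ^ k * w : SpecialLinearGroup (Fin 2) F) :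
        Matrix (Fin 2) (Fin 2) F) := hk
    obtain ⟨Sk, hSk⟩ : ∃ Sk : Matrix (Fin 2) (Fin 2) F,
        Sk = ((s ^ k : SpecialLinearGroup (Fin 2) F) : Matrix (Fin 2) (Fin 2) F) := ⟨_, rfl⟩
    obtain ⟨Sk', hSk'⟩ : ∃ Sk' : Matrix (Fin 2) (Fin 2) F,
        Sk' = (((s ^ k)⁻¹ : SpecialLinearGroup (Fin 2) F) : Matrix (Fin 2) (Fin 2) F) := ⟨_, rfl⟩
    rw [coe_mul, ← hSk, ← hW, hP] at hk'
    -- `1 + S = μ Sk`
    have h1 : 1 + S = μ • Sk := by
      have h2 : (1 + S) * W * (-W) = μ • (Sk * W) * (-W) := by rw [hk']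
      rwa [Matrix.mul_assoc, hWnW, mul_one, smul_mul_assoc, Matrix.mul_assoc, hWnW, mul_one]
        at h2
    -- conjugating by `w`
    have hwsk : w * s ^ k = (s ^ k)⁻¹ * w := by
      have h3 : w * s * w⁻¹ = s⁻¹ := by rw [hws]; group
      have h4 : w * s ^ k * w⁻¹ = (s ^ k)⁻¹ := by
        rw [← conj_zpow, h3, _root_.inv_zpow]
      rw [← h4]; group
    have hWSk : W * Sk = Sk' * W := by
      rw [hW, hSk, hSk', ← coe_mul, ← coe_mul, hwsk]
    have h5 : 1 + Si = μ • Sk' := by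
      have h6 : W * (1 + S) * (-W) = W * (μ • Sk) * (-W) := by rw [h1]
      rwa [hW1S, Matrix.mul_assoc, hWnW, mul_one, mul_smul_comm, hWSk, smul_mul_assoc,
        Matrix.mul_assoc, hWnW, mul_one] at h6
    have h7 : 1 + S = μ • (S * Sk') := by
      have h8 : S * (1 + Si) = S * (μ • Sk') := by rw [h5]
      rwa [mul_add, mul_one, hSSi, mul_smul_comm, add_comm] at h8
    have hμ : μ ≠ 0 := by
      rintro rfl
      rw [zero_smul] at h1
      apply hss
      have h6 : S = -1 := eq_neg_of_add_eq_zero_right h1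
      rw [h6]; simp
    have h9 : Sk = S * Sk' := by
      have h10 : μ • Sk = μ • (S * Sk') := by rw [← h1, ← h7]
      exact smul_right_injective _ hμ h10
    have h11 : s ^ k = s * (s ^ k)⁻¹ := by
      apply Subtype.ext
      rw [coe_mul, ← hSk, ← hSk', ← hS]; exact h9
    have h12 : s ^ (2 * k - 1) = 1 := by
      have h13 : s ^ k * s ^ k = s := by
        calc s ^ k * s ^ k = s * (s ^ k)⁻¹ * s ^ k := by rw [← h11]
          _ = s := by group
      rw [_root_.zpow_sub, _root_.zpow_one, two_mul, _root_.zpow_add, h13, mul_inv_cancel]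
    have h14 : (orderOf s : ℤ) ∣ 2 * k - 1 := orderOf_dvd_iff_zpow_eq_one.mpr h12
    rw [hs] at h14
    have h15 : (2 : ℤ) ∣ ((2 ^ a : ℕ) : ℤ) := by
      push_cast
      exact dvd_pow_self 2 (by omega)
    have h16 := h15.trans h14
    omega

end Cfsg.Agent.Lib.Helper30.G2
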