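import Mathlib
import Cfsg.Prelude.Def_Solvable
import Cfsg.Agent.Lib.Helper70.G4Base

/-!
# S2553, piece A: radical-freeness from `O_2(H) = 1 = O_{2'}(H)`
-/

set_option autoImplicit false

namespace Cfsg.Agent.Lib.Helper30.G4

open scoped commutatorElement

/-- The iterated commutator subgroups of a subgroup `N` of `H`, as subgroups of `H`. -/
def g4aDser {H : Type*} [Group H] (N : Subgroup H) : ℕ → Subgroup H
  | 0 => N
  | k + 1 => ⁅g4aDser N k, g4aDser N k⁆

theorem g4aDser_normal {H : Type*} [Group H] (N : Subgroup H) [hN : N.Normal] (k : ℕ) :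
    (g4aDser N k).Normal := by
  induction k with
  | zero => exact hN
  | succ k ih =>
    haveI := ih
    show (⁅g4aDser N k, g4aDser N k⁆ : Subgroup H).Normal
    infer_instance

theorem g4aDser_eq_map {H : Type*} [Group H] (N : Subgroup H) (k : ℕ) :
    (derivedSeries N k).map N.subtype = g4aDser N k := by
  induction k with
  | zero =>
    show (⊤ : Subgroup N).map N.subtype = N
    rw [← MonoidHom.range_eq_map, Subgroup.range_subtype]
  | succ k ih =>
    show (⁅derivedSeries N k, derivedSeries N k⁆ : Subgroup N).map N.subtype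
      = ⁅g4aDser N k, g4aDser N k⁆
    rw [Subgroup.map_commutator, ih]

/-- A nontrivial solvable normal subgroup contains a nontrivial abelian subgroup that is normal
in the whole group. -/
theorem g4a_exists_abelian_normal {H : Type*} [Group H] (N : Subgroup H) [N.Normal]
    (hsol : Group.IsSolvable N) (hN : N ≠ ⊥) :
    ∃ A : Subgroup H, A.Normal ∧ A ≠ ⊥ ∧ ∀ a ∈ A, ∀ b ∈ A, a * b = b * a := by
  classical
  obtain ⟨n, hn⟩ := hsol.solvable
  have hbot : g4aDser N n = ⊥ := by
    rw [← g4aDser_eq_map, hn, Subgroup.map_bot]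
  have hex : ∃ k, g4aDser N k = ⊥ := ⟨n, hbot⟩
  have hfind := Nat.find_spec hex
  have hmin : ∀ k, k < Nat.find hex → g4aDser N k ≠ ⊥ := fun k hk => Nat.find_min hex hk
  rcases Nat.eq_zero_or_pos (Nat.find hex) with h0 | hpos
  · rw [h0] at hfind
    exact absurd hfind hN
  · obtain ⟨k, hk⟩ : ∃ k, Nat.find hex = k + 1 := ⟨Nat.find hex - 1, by omega⟩
    refine ⟨g4aDser N k, g4aDser_normal N k, hmin k (by omega), ?_⟩
    intro a ha b hb
    have hc : ⁅a, b⁆ ∈ (⁅g4aDser N k, g4aDser N k⁆ : Subgroup H) := Subgroup.commutator_mem_commutator ha hb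
    have hc' : ⁅a, b⁆ ∈ g4aDser N (k + 1) := hc
    rw [← hk, hfind, Subgroup.mem_bot] at hc'
    exact commutatorElement_eq_one_iff_mul_comm.mp hc'

theorem radFree_of_cores {H : Type*} [Group H] [Finite H] (h2 : Cfsg.pCore 2 H = ⊥)
    (h2' : Cfsg.pPrimeCore 2 H = ⊥) : Cfsg.Agent.Lib.Helper70.G4.RadFree H := by
  classical
  intro N hNn hsol
  by_contra hN
  obtain ⟨A, hAn, hA, hcomm⟩ := g4a_exists_abelian_normal N hsol hN
  -- a prime dividing `|A|`
  have hcardA : Nat.card A ≠ 1 := by
    intro h1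
    apply hA
    exact Subgroup.card_eq_one.mp h1
  obtain ⟨p, hp, hpd⟩ := Nat.exists_prime_and_dvd hcardA
  have : Fact p.Prime := ⟨hp⟩
  obtain ⟨a₀, ha₀⟩ := exists_prime_orderOf_dvd_card' p hpd
  -- the subgroup of elements of `A` of order dividing `p`
  let B : Subgroup H :=
    { carrier := {a | a ∈ A ∧ a ^ p = 1}
      mul_mem' := by
        rintro a b ⟨ha, hap⟩ ⟨hb, hbp⟩
        refine ⟨mul_mem ha hb, ?_⟩
        have hc : Commute a b := hcomm a ha b hb
        rw [hc.mul_pow, hap, hbp, one_mul]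
      one_mem' := ⟨one_mem _, one_pow _⟩
      inv_mem' := by
        rintro a ⟨ha, hap⟩
        exact ⟨inv_mem ha, by rw [inv_pow, hap, inv_one]⟩ }
  have hBmem : ∀ a, a ∈ B ↔ a ∈ A ∧ a ^ p = 1 := fun a => Iff.rfl
  have hBn : B.Normal := by
    constructor
    intro a ha g
    obtain ⟨haA, hap⟩ := (hBmem a).mp ha
    refine (hBmem _).mpr ⟨hAn.conj_mem a haA g, ?_⟩
    rw [conj_pow, hap, mul_one, mul_inv_cancel]
  have hBne : B ≠ ⊥ := by
    intro hB
    have hmem : (a₀ : H) ∈ B := by
      refine (hBmem _).mpr ⟨a₀.2, ?_⟩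
      have h1 : a₀ ^ p = 1 := by rw [← ha₀]; exact pow_orderOf_eq_one a₀
      have h2 : ((a₀ ^ p : A) : H) = 1 := by rw [h1]; rfl
      simpa using h2
    rw [hB, Subgroup.mem_bot] at hmem
    have h1 : a₀ = 1 := Subtype.ext hmem
    rw [h1, orderOf_one] at ha₀
    exact hp.one_lt.ne' ha₀.symm
  have hBp : IsPGroup p B := by
    intro b
    refine ⟨1, ?_⟩
    rw [pow_one]
    apply Subtype.ext
    have := ((hBmem (b : H)).mp b.2).2
    simpa using this
  by_cases hp2 : p = 2
  · subst hp2
    apply hBne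
    rw [eq_bot_iff, ← h2]
    exact le_sSup ⟨hBn, hBp⟩
  · apply hBne
    rw [eq_bot_iff, ← h2']
    apply le_sSup
    refine ⟨hBn, ?_⟩
    obtain ⟨n, hn⟩ := IsPGroup.iff_card.mp hBp
    rw [hn]
    apply Nat.Coprime.pow_left
    exact (Nat.coprime_primes hp Nat.prime_two).mpr hp2

theorem radFree_of_equiv {H K : Type*} [Group H] [Group K] (e : H ≃* K)
    (h : Cfsg.Agent.Lib.Helper70.G4.RadFree H) : Cfsg.Agent.Lib.Helper70.G4.RadFree K := by
  intro N hNn hsol
  have hc : N.comap e.toMonoidHom = ⊥ := by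
    apply h
    · exact hNn.comap _
    · exact Group.isSolvable_of_isSolvable_injective (f := e.toMonoidHom.subgroupComap N)
        (by
          intro a b hab
          apply Subtype.ext
          have := congrArg Subtype.val hab
          exact e.injective this)
  rw [eq_bot_iff]
  intro n hn
  have hmem : e.symm n ∈ N.comap e.toMonoidHom := by
    rw [Subgroup.mem_comap]
    show e (e.symm n) ∈ N
    rw [MulEquiv.apply_symm_apply]
    exact hn
  rw [hc, Subgroup.mem_bot] at hmem
  rw [Subgroup.mem_bot]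
  have := congrArg e hmem
  rwa [MulEquiv.apply_symm_apply, map_one] at this

theorem not_solvable_of_radFree {H : Type*} [Group H]
    (h : Cfsg.Agent.Lib.Helper70.G4.RadFree H) (hne : Nontrivial H) : ¬ Group.IsSolvable H := by
  intro hsol
  have htop : (⊤ : Subgroup H) = ⊥ := by
    apply h
    · infer_instance
    · exact Group.isSolvable_of_isSolvable_injective (f := (⊤ : Subgroup H).subtype)
        Subtype.val_injective
  exact absurd htop.symm bot_ne_top

end Cfsg.Agent.Lib.Helper30.G4
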