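import Mathlib
import Cfsg.Agent.Lib.Helper84.GADefs
import Cfsg.Agent.Lib.Helper63.Hup4

/-!
# Project GA (S4840, helper84), piece FREE (helper30)

Subgroups of order prime to `p` act freely on the nonzero vectors.
-/

set_option autoImplicit false

namespace Cfsg.Agent.Lib.Helper30.GA

open Cfsg.Agent.Lib.Helper84.GA

universe u

theorem free : FreeStmt.{u} := by
  intro p _ Γ _ _ V _ _ _ ρ hTL H hH
  classical
  letI : MulAction H {v : V // v ≠ 0} :=
    { smul := fun g v => ⟨ρ (g : Γ) v.1, fun h0 => v.2 (by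
        have := congrArg (ρ (g : Γ)).symm h0
        rw [LinearEquiv.symm_apply_apply, map_zero] at this; exact this)⟩
      one_smul := fun v => Subtype.ext (by
        show ρ ((1 : H) : Γ) v.1 = v.1
        rw [Subgroup.coe_one, map_one]; rfl)
      mul_smul := fun a b v => Subtype.ext (by
        show ρ ((a * b : H) : Γ) v.1 = ρ (a : Γ) (ρ (b : Γ) v.1)
        rw [Subgroup.coe_mul, map_mul]; rfl) }
  have hfree : ∀ (h : H) (x : {v : V // v ≠ 0}), h • x = x → h = 1 := by
    intro h x hx
    have h1 : ρ (h : Γ) x.1 = x.1 := congrArg Subtype.val hx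
    obtain ⟨k, hk⟩ := hTL.stab x.1 x.2 (h : Γ) h1
    have h2 : orderOf (h : Γ) ∣ Nat.card H := by
      rw [Subgroup.orderOf_coe]
      exact orderOf_dvd_natCard h
    have h3 : k = 0 := by
      by_contra hk0
      have hpd : p ∣ Nat.card H := (dvd_pow_self p hk0).trans (hk ▸ h2)
      have hp := (Fact.out : p.Prime)
      exact hp.one_lt.ne' (hH.symm.eq_one_of_dvd hpd)
    rw [h3, pow_zero, orderOf_eq_one_iff] at hk
    exact Subtype.ext hk
  have hdvd := Cfsg.Agent.Lib.Helper63.Hup1.card_dvd_of_free hfree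
  rwa [Cfsg.Agent.Lib.Helper63.Hup4.card_ne_zero] at hdvd

end Cfsg.Agent.Lib.Helper30.GA
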