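import Cfsg.Agent.Lib.Helper30.PType

set_option autoImplicit false
open scoped commutatorElement

namespace Cfsg.Agent.Lib.Helper30

universe u

section PElt

variable {G : Type u} [Group G]

/-- `x` is a `p`-element: some `p`-power of `x` is trivial. -/
def IsPElt (p : ℕ) (x : G) : Prop := ∃ j : ℕ, x ^ p ^ j = 1

theorem isPElt_one (p : ℕ) : IsPElt p (1 : G) := ⟨0, one_pow _⟩

theorem IsPElt.mul {p : ℕ} {x y : G} (hx : IsPElt p x) (hy : IsPElt p y) (h : Commute x y) :
    IsPElt p (x * y) := by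
  obtain ⟨i, hi⟩ := hx
  obtain ⟨j, hj⟩ := hy
  refine ⟨i + j, ?_⟩
  have h1 : x ^ p ^ (i + j) = 1 := by rw [pow_add, pow_mul, hi, one_pow]
  have h2 : y ^ p ^ (i + j) = 1 := by rw [pow_add, mul_comm, pow_mul, hj, one_pow]
  rw [h.mul_pow, h1, h2, one_mul]

theorem IsPElt.inv {p : ℕ} {x : G} (hx : IsPElt p x) : IsPElt p x⁻¹ := by
  obtain ⟨i, hi⟩ := hx
  exact ⟨i, by rw [inv_pow, hi, inv_one]⟩

theorem IsPElt.conj {p : ℕ} {x : G} (hx : IsPElt p x) (g : G) : IsPElt p (g * x * g⁻¹) := by
  obtain ⟨i, hi⟩ := hx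
  exact ⟨i, by rw [conj_pow, hi, mul_one, mul_inv_cancel]⟩

theorem IsPElt.of_mem {p : ℕ} {S : Subgroup G} (hS : IsPGroup p S) {x : G} (hx : x ∈ S) :
    IsPElt p x := by
  obtain ⟨k, hk⟩ := hS ⟨x, hx⟩
  exact ⟨k, congrArg Subtype.val hk⟩

theorem IsPElt.eq_one_of_coprime {p : ℕ} {x : G} (hx : IsPElt p x)
    (h : (orderOf x).Coprime p) : x = 1 := by
  obtain ⟨j, hj⟩ := hx
  have h1 : orderOf x ∣ p ^ j := orderOf_dvd_of_pow_eq_one hj
  exact orderOf_eq_one_iff.mp (Nat.Coprime.eq_one_of_dvd (Nat.Coprime.pow_right j h) h1)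

theorem IsPElt.eq_one_of_mem {p : ℕ} {x : G} (hx : IsPElt p x) {W : Subgroup G}
    (hW : (Nat.card W).Coprime p) (hxW : x ∈ W) : x = 1 :=
  hx.eq_one_of_coprime (Nat.Coprime.coprime_dvd_left (Subgroup.orderOf_dvd_natCard _ hxW) hW)

/-- A central Sylow subgroup of a finite perfect group is trivial (Burnside transfer). -/
theorem perfect_sylow_center_eq_bot {K : Type u} [Group K] [Finite K] (hK : commutator K = ⊤)
    {p : ℕ} [Fact p.Prime] (P : Sylow p K) (hP : (P : Subgroup K) ≤ Subgroup.center K) :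
    (P : Subgroup K) = ⊥ := by
  have hP' : Subgroup.normalizer (P : Set K) ≤ Subgroup.centralizer (P : Set K) := by
    intro x _
    rw [Subgroup.mem_centralizer_iff]
    intro y hy
    exact (Subgroup.mem_center_iff.mp (hP hy) x).symm
  have hc := MonoidHom.ker_transferSylow_isComplement' P hP'
  have hker : (MonoidHom.transferSylow P hP').ker = ⊤ := by
    rw [eq_top_iff, ← hK, commutator_def, Subgroup.commutator_le]
    intro g₁ _ g₂ _
    rw [MonoidHom.mem_ker, map_commutatorElement, commutatorElement_eq_one_iff_mul_comm]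
    apply Subtype.ext
    exact (Subgroup.mem_center_iff.mp (hP (Subtype.property _)) _).symm
  rw [hker] at hc
  exact Subgroup.isComplement'_top_left.mp hc

/-- A finite perfect subgroup of order divisible by `p` has a non-central `p`-element. -/
theorem exists_pElt_noncentral [Finite G] (p : ℕ) [Fact p.Prime] {K : Subgroup G}
    (hK : commutator ↥K = ⊤) (hdvd : p ∣ Nat.card K) :
    ∃ c ∈ K, IsPElt p c ∧ ¬ ∀ k ∈ K, c * k = k * c := by
  let P : Sylow p ↥K := default
  have hne : (P : Subgroup ↥K) ≠ ⊥ := Sylow.ne_bot_of_dvd_card P hdvd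
  have hnc : ¬ (P : Subgroup ↥K) ≤ Subgroup.center ↥K :=
    fun h => hne (perfect_sylow_center_eq_bot hK P h)
  obtain ⟨x, hxP, hxc⟩ := SetLike.not_le_iff_exists.mp hnc
  refine ⟨x, x.2, ?_, ?_⟩
  · obtain ⟨k, hk⟩ := P.isPGroup' ⟨x, hxP⟩
    exact ⟨k, congrArg Subtype.val (congrArg Subtype.val hk)⟩
  · intro h
    apply hxc
    rw [Subgroup.mem_center_iff]
    intro g
    exact Subtype.ext (h g g.2).symm

/-- Inside a `p`-group `Q` normalized by a `p`-group `B` and not contained in `Z`, there is an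
element outside `Z` whose `B`-commutators lie in `Z`. -/
theorem exists_not_mem_commutator_mem [Finite G] (p : ℕ) [Fact p.Prime] (Z : Subgroup G)
    (n : ℕ) : ∀ (Q B : Subgroup G), Nat.card Q ≤ n → IsPGroup p Q → IsPGroup p B →
      B ≤ Subgroup.normalizer (Q : Set G) → ¬ Q ≤ Z →
      ∃ c ∈ Q, c ∉ Z ∧ ∀ b ∈ B, c⁻¹ * (b * c * b⁻¹) ∈ Z := by
  induction n with
  | zero =>
    intro Q B hcard
    exact absurd hcard (by have := Nat.card_pos (α := Q); omega)
  | succ n ih =>
    intro Q B hcard hQ hB hBQ hQZ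
    by_cases hcomm : ⁅Q, B⁆ ≤ Z
    · obtain ⟨c, hcQ, hcZ⟩ := SetLike.not_le_iff_exists.mp hQZ
      refine ⟨c, hcQ, hcZ, fun b hb => hcomm ?_⟩
      have : c⁻¹ * (b * c * b⁻¹) = ⁅c⁻¹, b⁆ := by rw [commutatorElement_def]; group
      rw [this]
      exact Subgroup.commutator_mem_commutator (Q.inv_mem hcQ) hb
    · have hQ1 : Q ≠ ⊥ := by
        rintro rfl
        exact hQZ bot_le
      have hlt := commutator_lt_of_pgroup p hQ hB hBQ hQ1
      have hcard1 : Nat.card (⁅Q, B⁆ : Subgroup G) ≤ n := by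
        by_contra hcon
        have : Nat.card Q ≤ Nat.card (⁅Q, B⁆ : Subgroup G) := by omega
        exact hlt.ne (Subgroup.eq_of_le_of_card_ge hlt.le this)
      obtain ⟨c, hc, hcZ, h⟩ := ih ⁅Q, B⁆ B hcard1 (hQ.to_le hlt.le) hB
        (Subgroup.normalizer_commutator_ge_right Q B) hcomm
      exact ⟨c, hlt.le hc, hcZ, h⟩

/-- A finite perfect subgroup `K` of order divisible by `p`, normalized by a `p`-group `B`, has a
non-central `p`-element `c` with `c⁻¹ c^b` central in `K` for all `b ∈ B`. -/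
theorem exists_pElt_noncentral_invariant [Finite G] (p : ℕ) [Fact p.Prime] {K B : Subgroup G}
    (hK : commutator ↥K = ⊤) (hdvd : p ∣ Nat.card K) (hB : IsPGroup p B)
    (hBK : B ≤ Subgroup.normalizer (K : Set G)) :
    ∃ c ∈ K, IsPElt p c ∧ (¬ ∀ k ∈ K, c * k = k * c) ∧
      ∀ b ∈ B, ∀ k ∈ K, (c⁻¹ * (b * c * b⁻¹)) * k = k * (c⁻¹ * (b * c * b⁻¹)) := by
  let f : Sylow p ↥K → Subgroup G := fun P => (P : Subgroup ↥K).map K.subtype
  have hinj : Function.Injective f := fun P P' h =>
    Sylow.ext (Subgroup.map_injective K.subtype_injective h)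
  have hcard : Nat.card (Set.range f) = Nat.card (Sylow p ↥K) := Nat.card_range_of_injective hinj
  have hodd : ¬ p ∣ Nat.card (Set.range f) := by
    rw [hcard]
    intro h
    have h1 := card_sylow_modEq_one p ↥K
    have h2 : Nat.card (Sylow p ↥K) % p = 0 := Nat.mod_eq_zero_of_dvd h
    have h3 : 1 % p = 1 := Nat.mod_eq_of_lt (Fact.out : p.Prime).one_lt
    unfold Nat.ModEq at h1
    omega
  have hinv : ∀ a ∈ B, ∀ Q ∈ Set.range f,
      Q.map (MulAut.conj a).toMonoidHom ∈ Set.range f := by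
    rintro a ha _ ⟨P, rfl⟩
    have haK := hBK ha
    have hle : (f P).map (MulAut.conj a).toMonoidHom ≤ K := by
      have h1 : f P ≤ K := Subgroup.map_subtype_le _
      calc (f P).map (MulAut.conj a).toMonoidHom ≤ K.map (MulAut.conj a).toMonoidHom :=
            Subgroup.map_mono h1
        _ = K := mem_normalizer_iff_map_conj.mp haK
    have hc : Nat.card (((f P).map (MulAut.conj a).toMonoidHom).subgroupOf K)
        = p ^ (Nat.card ↥K).factorization p := by
      rw [Nat.card_congr (Subgroup.subgroupOfEquivOfLe hle).toEquiv, card_map_equiv,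
        card_map_subtype, Sylow.card_eq_multiplicity]
    refine ⟨Sylow.ofCard _ hc, ?_⟩
    show ((Sylow.ofCard _ hc : Sylow p ↥K) : Subgroup ↥K).map K.subtype = _
    rw [Sylow.coe_ofCard, Subgroup.map_subgroupOf_eq_of_le hle]
  obtain ⟨S, ⟨P, rfl⟩, hBS⟩ := exists_conj_fixed_subgroup p hB (Set.range f) hinv hodd
  have hne : (P : Subgroup ↥K) ≠ ⊥ := Sylow.ne_bot_of_dvd_card P hdvd
  have hSZ : ¬ f P ≤ K ⊓ Subgroup.centralizer (K : Set G) := by
    intro h
    apply hne
    apply perfect_sylow_center_eq_bot hK P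
    intro x hx
    rw [Subgroup.mem_center_iff]
    intro g
    have := (h (Subgroup.mem_map_of_mem K.subtype hx)).2
    exact Subtype.ext (Subgroup.mem_centralizer_iff.mp this g g.2)
  obtain ⟨c, hcS, hcZ, hcomm⟩ := exists_not_mem_commutator_mem p
    (K ⊓ Subgroup.centralizer (K : Set G)) (Nat.card (f P)) (f P) B le_rfl
    (P.isPGroup'.map _) hB hBS hSZ
  have hcK : c ∈ K := Subgroup.map_subtype_le _ hcS
  refine ⟨c, hcK, IsPElt.of_mem (P.isPGroup'.map _) hcS, ?_, ?_⟩
  · intro h
    apply hcZ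
    exact ⟨hcK, Subgroup.mem_centralizer_iff.mpr (fun k hk => (h k hk).symm)⟩
  · intro b hb k hk
    exact ((Subgroup.mem_centralizer_iff.mp (hcomm b hb).2) k hk).symm

end PElt

section ConjRestrict

variable {G : Type u} [Group G]

/-- Conjugation by an element of the normalizer of `H`, restricted to `H`. -/
def conjRestrict (H : Subgroup G) (g : G) (hg : g ∈ Subgroup.normalizer (H : Set G)) :
    ↥H ≃* ↥H where
  toFun x := ⟨g * x * g⁻¹, (Subgroup.mem_normalizer_iff.mp hg x).mp x.2⟩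
  invFun x := ⟨g⁻¹ * x * g, by
    have := (Subgroup.mem_normalizer_iff.mp (Subgroup.inv_mem _ hg) x).mp x.2
    simpa using this⟩
  left_inv x := by
    apply Subtype.ext
    show g⁻¹ * (g * (x : G) * g⁻¹) * g = x
    group
  right_inv x := by
    apply Subtype.ext
    show g * (g⁻¹ * (x : G) * g) * g⁻¹ = x
    group
  map_mul' x y := by
    apply Subtype.ext
    show g * ((x : G) * (y : G)) * g⁻¹ = (g * (x : G) * g⁻¹) * (g * (y : G) * g⁻¹)
    group

theorem map_subtype_map_conj (H : Subgroup G) (g : G)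
    (hg : g ∈ Subgroup.normalizer (H : Set G)) (N : Subgroup ↥H) :
    (N.map H.subtype).map (MulAut.conj g).toMonoidHom
      = (N.map (conjRestrict H g hg).toMonoidHom).map H.subtype := by
  rw [Subgroup.map_map, Subgroup.map_map]
  rfl

theorem pCore_map_subtype_conj (p : ℕ) {H : Subgroup G} {g : G}
    (hg : g ∈ Subgroup.normalizer (H : Set G)) :
    ((pCore p ↥H).map H.subtype).map (MulAut.conj g).toMonoidHom
      = (pCore p ↥H).map H.subtype := by
  rw [map_subtype_map_conj H g hg, pCore_map_equiv]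

theorem isComponent_map_conj {H : Subgroup G} {g : G}
    (hg : g ∈ Subgroup.normalizer (H : Set G)) {E : Subgroup ↥H} (hE : IsComponent E) :
    ∃ E' : Subgroup ↥H, IsComponent E' ∧
      E'.map H.subtype = (E.map H.subtype).map (MulAut.conj g).toMonoidHom :=
  ⟨E.map (conjRestrict H g hg).toMonoidHom, isComponent_map_equiv _ hE,
    (map_subtype_map_conj H g hg E).symm⟩

theorem map_conj_map_conj (K : Subgroup G) (a b : G) :
    (K.map (MulAut.conj b).toMonoidHom).map (MulAut.conj a).toMonoidHom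
      = K.map (MulAut.conj (a * b)).toMonoidHom := by
  rw [Subgroup.map_map, map_mul]
  rfl

theorem map_conj_eq_iff {K : Subgroup G} {a b : G} :
    K.map (MulAut.conj a).toMonoidHom = K.map (MulAut.conj b).toMonoidHom ↔
      b⁻¹ * a ∈ Subgroup.normalizer (K : Set G) := by
  rw [mem_normalizer_iff_map_conj, ← map_conj_map_conj]
  constructor
  · intro h
    rw [h, map_conj_map_conj, inv_mul_cancel, map_one]
    exact Subgroup.map_id K
  · intro h
    have h2 := congrArg (fun L : Subgroup G => L.map (MulAut.conj b).toMonoidHom) h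
    simp only [map_conj_map_conj] at h2
    rw [← h2]
    congr 2
    group

/-- `H` normalizes the image of a normal subgroup of `H`. -/
theorem le_normalizer_map_subtype {H : Subgroup G} (N : Subgroup ↥H) [hN : N.Normal] :
    H ≤ Subgroup.normalizer ((N.map H.subtype : Subgroup G) : Set G) := by
  have h1 := Subgroup.le_normalizer_map (H := N) H.subtype
  rw [Subgroup.normalizer_eq_top, ← MonoidHom.range_eq_map, Subgroup.range_subtype] at h1
  exact h1

end ConjRestrict

section CompMap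

variable {G : Type u} [Group G]

theorem comp_map_commute [Finite G] {H : Subgroup G} {E E' : Subgroup ↥H} (hE : IsComponent E)
    (hE' : IsComponent E') (hne : E.map H.subtype ≠ E'.map H.subtype) :
    ∀ a ∈ E.map H.subtype, ∀ b ∈ E'.map H.subtype, a * b = b * a := by
  have hne' : E ≠ E' := fun h => hne (by rw [h])
  have h := commute_of_commutator_eq_bot (components_commute hE hE' hne')
  rintro _ ⟨a, ha, rfl⟩ _ ⟨b, hb, rfl⟩
  exact congrArg Subtype.val (h a ha b hb)

theorem comp_map_qs {H : Subgroup G} {E : Subgroup ↥H} (hE : IsComponent E) :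
    IsQuasisimple ↥(E.map H.subtype) :=
  isQuasisimple_of_mulEquiv (E.equivMapOfInjective H.subtype H.subtype_injective) hE.2

theorem comp_map_perfect {H : Subgroup G} {E : Subgroup ↥H} (hE : IsComponent E) :
    commutator ↥(E.map H.subtype) = ⊤ :=
  (comp_map_qs hE).1.commutator_eq_top

theorem comp_map_card_even [Finite G] {H : Subgroup G} (hO : pPrimeCore 2 ↥H = ⊥)
    {E : Subgroup ↥H} (hE : IsComponent E) : 2 ∣ Nat.card (E.map H.subtype) := by
  rw [card_map_subtype]
  by_contra h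
  have hc : (Nat.card E).Coprime 2 := ((Nat.Prime.coprime_iff_not_dvd Nat.prime_two).mpr h).symm
  have := le_pPrimeCore_of_subnormal hE.1 hc
  rw [hO, le_bot_iff] at this
  exact comp_ne_bot hE this

theorem comp_map_center_le_pCore [Finite G] {H : Subgroup G} (hO : pPrimeCore 2 ↥H = ⊥)
    {E : Subgroup ↥H} (hE : IsComponent E) {z : G} (hz : z ∈ E.map H.subtype)
    (hc : ∀ k ∈ E.map H.subtype, z * k = k * z) : z ∈ (pCore 2 ↥H).map H.subtype := by
  obtain ⟨z', hz', rfl⟩ := hz
  refine Subgroup.mem_map_of_mem _ ?_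
  rw [← fitting_eq_pCore_of_pPrimeCore_eq_bot 2 hO]
  have hzc : z' ∈ E ⊓ Subgroup.centralizer (E : Set ↥H) := by
    refine Subgroup.mem_inf.mpr ⟨hz', ?_⟩
    rw [Subgroup.mem_centralizer_iff]
    intro k hk
    exact (Subtype.ext (hc k (Subgroup.mem_map_of_mem _ hk))).symm
  have hsub : (E ⊓ Subgroup.centralizer (E : Set ↥H)).IsSubnormal := by
    refine Subgroup.IsSubnormal.trans inf_le_left ?_ hE.1
    have hn : ((E ⊓ Subgroup.centralizer (E : Set ↥H)).subgroupOf E).Normal := by
      apply Subgroup.normal_subgroupOf_of_le_normalizer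
      refine le_trans (le_inf Subgroup.le_normalizer ?_) (normalizer_inf_le _ _)
      exact le_trans Subgroup.le_normalizer (normalizer_le_normalizer_centralizer E)
    exact hn.isSubnormal
  have hnil : Group.IsNilpotent ↥(E ⊓ Subgroup.centralizer (E : Set ↥H)) := by
    rw [Subgroup.isNilpotent_iff_lowerCentralSeries]
    refine ⟨1, ?_⟩
    rw [Subgroup.lowerCentralSeries_succ, Subgroup.lowerCentralSeries_zero,
      Subgroup.commutator_eq_bot_iff_le_centralizer]
    exact le_trans inf_le_right (Subgroup.centralizer_le inf_le_left)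
  exact le_fitting_of_subnormal_nilpotent hsub hnil hzc

/-- A component of `H` contained in `C ≤ H` is a component of `C`. -/
theorem isComponent_subgroupOf_of_le {K C H : Subgroup G} (hKC : K ≤ C) (hCH : C ≤ H)
    (h : IsComponent (K.subgroupOf H)) : IsComponent (K.subgroupOf C) := by
  have hle : K.subgroupOf H ≤ C.subgroupOf H := fun x hx => hKC hx
  have h1 := isComponent_subgroupOf h hle
  have h2 := isComponent_map_equiv (Subgroup.subgroupOfEquivOfLe hCH) h1
  have heq : ((K.subgroupOf H).subgroupOf (C.subgroupOf H)).map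
      (Subgroup.subgroupOfEquivOfLe hCH).toMonoidHom = K.subgroupOf C := by
    ext x
    constructor
    · rintro ⟨a, ha, rfl⟩
      exact ha
    · intro hx
      exact ⟨⟨⟨x.1, hCH x.2⟩, x.2⟩, hx, rfl⟩
  rw [heq] at h2
  exact h2

/-- Conjugates of a component of `H` by elements `a`, `b` of `N_G(H)` commute elementwise when
the conjugates are distinct. -/
theorem conj_comp_commute [Finite G] {H : Subgroup G} {E : Subgroup ↥H} (hE : IsComponent E)
    {a b : G} (ha : a ∈ Subgroup.normalizer (H : Set G))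
    (hb : b ∈ Subgroup.normalizer (H : Set G))
    (hab : b⁻¹ * a ∉ Subgroup.normalizer ((E.map H.subtype : Subgroup G) : Set G))
    {x x' : G} (hx : x ∈ E.map H.subtype) (hx' : x' ∈ E.map H.subtype) :
    (a * x * a⁻¹) * (b * x' * b⁻¹) = (b * x' * b⁻¹) * (a * x * a⁻¹) := by
  obtain ⟨Ea, hEa, hma⟩ := isComponent_map_conj ha hE
  obtain ⟨Eb, hEb, hmb⟩ := isComponent_map_conj hb hE
  have hne : Ea.map H.subtype ≠ Eb.map H.subtype := by
    rw [hma, hmb]
    intro h
    exact hab (map_conj_eq_iff.mp h)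
  exact comp_map_commute hEa hEb hne _ (hma ▸ conj_mem_map_conj a hx) _
    (hmb ▸ conj_mem_map_conj b hx')

/-- If `y` normalizes the perfect subgroup `K` and acts trivially modulo the centre of `K`, then
`y` centralizes `K`. -/
theorem commute_of_central_twist {K : Subgroup G} (hK : commutator ↥K = ⊤) {y : G}
    (hyK : y ∈ Subgroup.normalizer (K : Set G))
    (h : ∀ k ∈ K, ∀ k' ∈ K, (k⁻¹ * (y * k * y⁻¹)) * k' = k' * (k⁻¹ * (y * k * y⁻¹))) :
    ∀ k ∈ K, y * k = k * y := by
  have key : (⊤ : Subgroup ↥K) ≤ (Subgroup.centralizer ({y} : Set G)).subgroupOf K := by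
    rw [← hK, commutator_def, Subgroup.commutator_le]
    intro a _ b _
    rw [Subgroup.mem_subgroupOf, Subgroup.mem_centralizer_iff]
    intro x hx
    rw [Set.mem_singleton_iff] at hx
    subst hx
    have hya : x * a * x⁻¹ ∈ K := (Subgroup.mem_normalizer_iff.mp hyK a).mp a.2
    have hyb : x * b * x⁻¹ ∈ K := (Subgroup.mem_normalizer_iff.mp hyK b).mp b.2
    have h1 := commutatorElement_mul_central a b
      (⟨(a : G)⁻¹ * (x * a * x⁻¹), K.mul_mem (K.inv_mem a.2) hya⟩ : ↥K)
      (⟨(b : G)⁻¹ * (x * b * x⁻¹), K.mul_mem (K.inv_mem b.2) hyb⟩ : ↥K)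
      (fun g => Subtype.ext (h a a.2 g g.2).symm)
      (fun g => Subtype.ext (h b b.2 g g.2).symm)
    have h2 := congrArg (K.subtype) h1
    rw [map_commutatorElement, map_commutatorElement] at h2
    simp only [Subgroup.coe_subtype, Subgroup.coe_mul, mul_inv_cancel_left] at h2
    have h3 : x * ⁅(a : G), (b : G)⁆ * x⁻¹ = ⁅x * a * x⁻¹, x * b * x⁻¹⁆ := by
      rw [commutatorElement_def, commutatorElement_def]
      group
    have h4 : ((⁅a, b⁆ : ↥K) : G) = ⁅(a : G), (b : G)⁆ := map_commutatorElement K.subtype a b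
    rw [h4]
    apply conj_eq_iff_mul_comm.mp
    rw [h3]
    exact h2
  intro k hk
  have := key (Subgroup.mem_top (⟨k, hk⟩ : ↥K))
  rw [Subgroup.mem_subgroupOf, Subgroup.mem_centralizer_iff] at this
  exact this y rfl

theorem mem_of_sq_mem_of_odd {S : Subgroup G} {y : G} (ho : (orderOf y).Coprime 2)
    (h : y * y ∈ S) : y ∈ S := by
  have h1 : orderOf y % 2 = 1 := by
    have := Nat.Coprime.gcd_eq_one ho
    rcases Nat.mod_two_eq_zero_or_one (orderOf y) with h0 | h0
    · exfalso
      have h2 : 2 ∣ orderOf y := Nat.dvd_of_mod_eq_zero h0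
      have := Nat.Coprime.eq_one_of_dvd ho.symm h2
      omega
    · exact h0
  have h2 : y = (y * y) ^ ((orderOf y + 1) / 2) := by
    rw [← pow_two, ← pow_mul]
    have : 2 * ((orderOf y + 1) / 2) = orderOf y + 1 := by omega
    rw [this, pow_succ, pow_orderOf_eq_one, one_mul]
  rw [h2]
  exact S.pow_mem h _

/-- `O(C)` for a subgroup `C`, as a subgroup of the ambient group. -/
def oddC (C : Subgroup G) : Subgroup G := (pPrimeCore 2 ↥C).map C.subtype

theorem oddC_le (C : Subgroup G) : oddC C ≤ C := Subgroup.map_subtype_le _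

theorem oddC_card [Finite G] (C : Subgroup G) : (Nat.card (oddC C)).Coprime 2 := by
  unfold oddC
  rw [card_map_subtype]
  exact pPrimeCore_coprime 2

theorem oddC_conj {C : Subgroup G} {e y : G} (he : e ∈ C) (hy : y ∈ oddC C) :
    e⁻¹ * (y * e * y⁻¹) ∈ oddC C := by
  obtain ⟨y', hy', rfl⟩ := hy
  have hn := pPrimeCore_normal 2 ↥C
  have h1 : (⟨e, he⟩ : ↥C)⁻¹ * y' * (⟨e, he⟩ : ↥C)⁻¹⁻¹ ∈ pPrimeCore 2 ↥C := hn.conj_mem y' hy' _
  have h2 : (⟨e, he⟩ : ↥C)⁻¹ * y' * (⟨e, he⟩ : ↥C)⁻¹⁻¹ * y'⁻¹ ∈ pPrimeCore 2 ↥C :=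
    Subgroup.mul_mem _ h1 (Subgroup.inv_mem _ hy')
  refine ⟨_, h2, ?_⟩
  simp only [Subgroup.coe_subtype, Subgroup.coe_mul, Subgroup.coe_inv, inv_inv]
  group

end CompMap

end Cfsg.Agent.Lib.Helper30
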