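import Mathlib
import Cfsg.Agent.Lib.Helper81.OSum

/-!
# OMEGA-SYL piece SW (helper81's S4629 project)

The swap of the doubled form `osum W W`, `W = osum Q Q`, is the square of the block `4`-cycle
isometry, so its spinor pair (in `ℤˣ × ℤˣ`, of exponent `2`) is `1`.
-/

set_option autoImplicit false
set_option linter.unusedSectionVars false

namespace Cfsg.Agent.Lib.Helper30.OmegaSW

open Cfsg Cfsg.Agent.Lib.Helper51 Cfsg.Agent.Lib.Helper81.OSum

section

variable {κ : Type} [Fintype κ] [DecidableEq κ] {F : Type*} [Field F]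

/-- The block `4`-cycle matrix `(x₁, x₂, x₃, x₄) ↦ (x₄, x₁, x₂, x₃)`. -/
def cycM (κ : Type) [Fintype κ] [DecidableEq κ] (F : Type*) [Field F] :
    Matrix ((κ ⊕ κ) ⊕ (κ ⊕ κ)) ((κ ⊕ κ) ⊕ (κ ⊕ κ)) F :=
  Matrix.fromBlocks
    (Matrix.fromBlocks (0 : Matrix κ κ F) (0 : Matrix κ κ F) (1 : Matrix κ κ F) (0 : Matrix κ κ F))
    (Matrix.fromBlocks (0 : Matrix κ κ F) (1 : Matrix κ κ F) (0 : Matrix κ κ F) (0 : Matrix κ κ F))
    (Matrix.fromBlocks (0 : Matrix κ κ F) (1 : Matrix κ κ F) (0 : Matrix κ κ F) (0 : Matrix κ κ F))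
    (Matrix.fromBlocks (0 : Matrix κ κ F) (0 : Matrix κ κ F) (1 : Matrix κ κ F) (0 : Matrix κ κ F))

/-- Its inverse (transpose). -/
def cycM' (κ : Type) [Fintype κ] [DecidableEq κ] (F : Type*) [Field F] :
    Matrix ((κ ⊕ κ) ⊕ (κ ⊕ κ)) ((κ ⊕ κ) ⊕ (κ ⊕ κ)) F :=
  Matrix.fromBlocks
    (Matrix.fromBlocks (0 : Matrix κ κ F) (1 : Matrix κ κ F) (0 : Matrix κ κ F) (0 : Matrix κ κ F))
    (Matrix.fromBlocks (0 : Matrix κ κ F) (0 : Matrix κ κ F) (1 : Matrix κ κ F) (0 : Matrix κ κ F))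
    (Matrix.fromBlocks (0 : Matrix κ κ F) (0 : Matrix κ κ F) (1 : Matrix κ κ F) (0 : Matrix κ κ F))
    (Matrix.fromBlocks (0 : Matrix κ κ F) (1 : Matrix κ κ F) (0 : Matrix κ κ F) (0 : Matrix κ κ F))

theorem cycM_mul_cycM' : cycM κ F * cycM' κ F = 1 := by
  unfold cycM cycM'
  simp only [Matrix.fromBlocks_multiply, Matrix.mul_zero, Matrix.zero_mul, Matrix.mul_one,
    Matrix.one_mul, add_zero, zero_add, Matrix.fromBlocks_add, Matrix.fromBlocks_zero,
    Matrix.fromBlocks_one]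

theorem cycM'_mul_cycM : cycM' κ F * cycM κ F = 1 := by
  unfold cycM cycM'
  simp only [Matrix.fromBlocks_multiply, Matrix.mul_zero, Matrix.zero_mul, Matrix.mul_one,
    Matrix.one_mul, add_zero, zero_add, Matrix.fromBlocks_add, Matrix.fromBlocks_zero,
    Matrix.fromBlocks_one]

theorem cycM_mul_self : cycM κ F * cycM κ F = swapM (κ ⊕ κ) F := by
  unfold cycM swapM
  simp only [Matrix.fromBlocks_multiply, Matrix.mul_zero, Matrix.zero_mul, Matrix.mul_one,
    Matrix.one_mul, add_zero, zero_add, Matrix.fromBlocks_add, Matrix.fromBlocks_zero,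
    Matrix.fromBlocks_one]

/-- The block `4`-cycle as an invertible matrix. -/
def cycGL (κ : Type) [Fintype κ] [DecidableEq κ] (F : Type*) [Field F] :
    Matrix.GeneralLinearGroup ((κ ⊕ κ) ⊕ (κ ⊕ κ)) F :=
  ⟨cycM κ F, cycM' κ F, cycM_mul_cycM', cycM'_mul_cycM⟩

theorem cyc_mulVec_11 (x : (κ ⊕ κ) ⊕ (κ ⊕ κ) → F) :
    (fun i => (cycM κ F).mulVec x (Sum.inl (Sum.inl i))) = fun i => x (Sum.inr (Sum.inr i)) := by
  funext i
  unfold cycM
  rw [Matrix.fromBlocks_mulVec]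
  simp only [Sum.elim_inl, Pi.add_apply]
  rw [Matrix.fromBlocks_mulVec, Matrix.fromBlocks_mulVec]
  simp only [Sum.elim_inl, Matrix.zero_mulVec, Matrix.one_mulVec, add_zero, zero_add,
    Pi.add_apply, Pi.zero_apply]
  rfl

theorem cyc_mulVec_12 (x : (κ ⊕ κ) ⊕ (κ ⊕ κ) → F) :
    (fun i => (cycM κ F).mulVec x (Sum.inl (Sum.inr i))) = fun i => x (Sum.inl (Sum.inl i)) := by
  funext i
  unfold cycM
  rw [Matrix.fromBlocks_mulVec]
  simp only [Sum.elim_inl, Pi.add_apply]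
  rw [Matrix.fromBlocks_mulVec, Matrix.fromBlocks_mulVec]
  simp only [Sum.elim_inr, Matrix.zero_mulVec, Matrix.one_mulVec, add_zero, zero_add,
    Pi.add_apply, Pi.zero_apply]
  rfl

theorem cyc_mulVec_21 (x : (κ ⊕ κ) ⊕ (κ ⊕ κ) → F) :
    (fun i => (cycM κ F).mulVec x (Sum.inr (Sum.inl i))) = fun i => x (Sum.inl (Sum.inr i)) := by
  funext i
  unfold cycM
  rw [Matrix.fromBlocks_mulVec]
  simp only [Sum.elim_inr, Pi.add_apply]
  rw [Matrix.fromBlocks_mulVec, Matrix.fromBlocks_mulVec]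
  simp only [Sum.elim_inl, Matrix.zero_mulVec, Matrix.one_mulVec, add_zero, zero_add,
    Pi.add_apply, Pi.zero_apply]
  rfl

theorem cyc_mulVec_22 (x : (κ ⊕ κ) ⊕ (κ ⊕ κ) → F) :
    (fun i => (cycM κ F).mulVec x (Sum.inr (Sum.inr i))) = fun i => x (Sum.inr (Sum.inl i)) := by
  funext i
  unfold cycM
  rw [Matrix.fromBlocks_mulVec]
  simp only [Sum.elim_inr, Pi.add_apply]
  rw [Matrix.fromBlocks_mulVec, Matrix.fromBlocks_mulVec]
  simp only [Sum.elim_inr, Matrix.zero_mulVec, Matrix.one_mulVec, add_zero, zero_add,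
    Pi.add_apply, Pi.zero_apply]
  rfl

/-- The block `4`-cycle isometry of `osum (osum Q Q) (osum Q Q)`. -/
def cycIso (Q : QuadraticForm F (κ → F)) :
    isometryGroup F ⇑(osum (osum Q Q) (osum Q Q)) :=
  ⟨cycGL κ F, by
    rw [mem_isometryGroup_iff]
    intro x
    show osum (osum Q Q) (osum Q Q) ((cycM κ F).mulVec x) = osum (osum Q Q) (osum Q Q) x
    simp only [osum_apply]
    rw [cyc_mulVec_11, cyc_mulVec_12, cyc_mulVec_21, cyc_mulVec_22]
    ring⟩

theorem cycIso_mul_self (Q : QuadraticForm F (κ → F)) :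
    cycIso Q * cycIso Q = swapIso (osum Q Q) := by
  apply isometry_ext
  rw [coe_mul', coe_swapIso]
  exact cycM_mul_self

end

section SW

variable {κ : Type} [Fintype κ] [DecidableEq κ] {F : Type*} [Field F] [Fintype F]

/-- **Piece SW**. -/
theorem spinPair_swap_double (δ₀ : F) (Q : QuadraticForm F (κ → F)) :
    spinPair (osum (osum Q Q) (osum Q Q)) δ₀ (swapIso (osum Q Q)) = 1 := by
  rw [← cycIso_mul_self Q, map_mul]
  exact Prod.ext (Int.units_mul_self _) (Int.units_mul_self _)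

end SW

end Cfsg.Agent.Lib.Helper30.OmegaSW
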