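import Mathlib

/-!
# OMEGA-SYL piece SYLS (helper81's S4629 project)

A Sylow `2`-subgroup of a finite group meets every fibre of a homomorphism to `ℤˣ × ℤˣ`.
-/

set_option autoImplicit false

namespace Cfsg.Agent.Lib.Helper30.OmegaSYLS

theorem sylow_surj {G : Type*} [Group G] [Finite G] (P : Sylow 2 G) (δ : G →* ℤˣ × ℤˣ)
    (g : G) : ∃ p ∈ (P : Subgroup G), δ p = δ g := by
  haveI : Fact (Nat.Prime 2) := ⟨Nat.prime_two⟩
  have h1 : δ.ker.index ∣ 4 := by
    rw [Subgroup.index_ker]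
    have h := Subgroup.card_subgroup_dvd_card δ.range
    have h4 : Nat.card (ℤˣ × ℤˣ) = 4 := by
      rw [Nat.card_prod, Nat.card_eq_fintype_card]; rfl
    rwa [h4] at h
  have h2 : ((P : Subgroup G) ⊔ δ.ker).index ∣ (P : Subgroup G).index :=
    Subgroup.index_dvd_of_le le_sup_left
  have h3 : ((P : Subgroup G) ⊔ δ.ker).index ∣ δ.ker.index :=
    Subgroup.index_dvd_of_le le_sup_right
  have h5 : ¬ 2 ∣ (P : Subgroup G).index := P.not_dvd_index
  have h6 : ((P : Subgroup G) ⊔ δ.ker).index = 1 := by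
    have hd4 := h3.trans h1
    have hodd : ¬ 2 ∣ ((P : Subgroup G) ⊔ δ.ker).index := fun h => h5 (h.trans h2)
    have hle := Nat.le_of_dvd (by norm_num) hd4
    generalize ((P : Subgroup G) ⊔ δ.ker).index = d at hd4 hodd hle
    interval_cases d <;> omega
  have h7 : (P : Subgroup G) ⊔ δ.ker = ⊤ := Subgroup.index_eq_one.mp h6
  have hg : g ∈ (P : Subgroup G) ⊔ δ.ker := h7 ▸ Subgroup.mem_top g
  obtain ⟨p, hp, n, hn, rfl⟩ := Subgroup.mem_sup_of_normal_right.mp hg
  refine ⟨p, hp, ?_⟩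
  rw [map_mul, MonoidHom.mem_ker.mp hn, mul_one]

end Cfsg.Agent.Lib.Helper30.OmegaSYLS
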