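import Cfsg.Agent.Lib.Helper30.PLayer

set_option autoImplicit false
open scoped commutatorElement

namespace Cfsg.Agent.Lib.Helper30

universe u v

section PConstrLocal

/-- `X` is `p`-constrained iff `E(X / O_{p'}(X)) = 1`. -/
theorem isPConstrained_iff_layer {X : Type u} [Group X] [Finite X] (p : ℕ) [Fact p.Prime] :
    IsPConstrained p X ↔ layer (X ⧸ pPrimeCore p X) = ⊥ :=
  ⟨layer_quotient_of_isPConstrained p, isPConstrained_of_layer_quotient p⟩

/-- If `φ : A → B` is surjective with `p'`-kernel, the preimage of `O_{p'}(B)` is a `p'`-group. -/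
theorem card_ker_comp_coprime {A : Type u} {B : Type v} [Group A] [Group B] [Finite A]
    (p : ℕ) [Fact p.Prime] (φ : A →* B) (hφ : Function.Surjective φ)
    (hker : (Nat.card φ.ker).Coprime p) :
    (Nat.card ((QuotientGroup.mk' (pPrimeCore p B)).comp φ).ker).Coprime p := by
  have : Finite B := Finite.of_surjective φ hφ
  rw [Nat.coprime_comm, (Fact.out : p.Prime).coprime_iff_not_dvd]
  intro hdvd
  obtain ⟨x, hx⟩ := exists_prime_orderOf_dvd_card' p hdvd
  have hx1 : φ (x : A) ∈ pPrimeCore p B := by
    have := x.2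
    rw [MonoidHom.mem_ker, MonoidHom.comp_apply, QuotientGroup.mk'_apply,
      QuotientGroup.eq_one_iff] at this
    exact this
  have h1 : orderOf (φ (x : A)) ∣ p := by
    have := orderOf_map_dvd φ (x : A)
    rwa [Subgroup.orderOf_coe, hx] at this
  have h2 : (orderOf (φ (x : A))).Coprime p :=
    Nat.Coprime.coprime_dvd_left (Subgroup.orderOf_dvd_natCard _ hx1) (pPrimeCore_coprime p)
  have h3 : orderOf (φ (x : A)) = 1 := Nat.Coprime.eq_one_of_dvd h2 h1
  have h4 : (x : A) ∈ φ.ker := orderOf_eq_one_iff.mp h3
  have h5 : p ∣ Nat.card φ.ker := by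
    have := Subgroup.orderOf_dvd_natCard _ h4
    rwa [Subgroup.orderOf_coe, hx] at this
  exact ((Fact.out : p.Prime).coprime_iff_not_dvd.mp hker.symm) h5

/-- If `φ : A → B` is surjective with `p'`-kernel, then `A / O_{p'}(A) ≃* B / O_{p'}(B)`. -/
noncomputable def coreQuotientEquiv {A : Type u} {B : Type v} [Group A] [Group B] [Finite A]
    (p : ℕ) [Fact p.Prime] (φ : A →* B) (hφ : Function.Surjective φ)
    (hker : (Nat.card φ.ker).Coprime p) :
    A ⧸ pPrimeCore p A ≃* B ⧸ pPrimeCore p B :=
  haveI : Finite B := Finite.of_surjective φ hφ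
  (QuotientGroup.quotientMulEquivOfEq
    (pPrimeCore_eq_ker p ((QuotientGroup.mk' (pPrimeCore p B)).comp φ)
      ((QuotientGroup.mk'_surjective _).comp hφ) (card_ker_comp_coprime p φ hφ hker)
      (pPrimeCore_quotient_eq_bot p))).trans
    (QuotientGroup.quotientKerEquivOfSurjective ((QuotientGroup.mk' (pPrimeCore p B)).comp φ)
      ((QuotientGroup.mk'_surjective _).comp hφ))

/-- `p`-constraint is invariant under surjections with `p'`-kernel. -/
theorem isPConstrained_iff_of_surjective {A : Type u} {B : Type v} [Group A] [Group B] [Finite A]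
    (p : ℕ) [Fact p.Prime] (φ : A →* B) (hφ : Function.Surjective φ)
    (hker : (Nat.card φ.ker).Coprime p) :
    IsPConstrained p A ↔ IsPConstrained p B := by
  have : Finite B := Finite.of_surjective φ hφ
  rw [isPConstrained_iff_layer, isPConstrained_iff_layer]
  have h := layer_map_equiv (coreQuotientEquiv p φ hφ hker)
  constructor
  · intro h1
    rw [← h, h1, Subgroup.map_bot]
  · intro h1
    rw [h1] at h
    exact (Subgroup.map_eq_bot_iff_of_injective _ (MulEquiv.injective _)).mp h

/-- `p`-constraint is invariant under isomorphism. -/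
theorem isPConstrained_of_mulEquiv {A : Type u} {B : Type v} [Group A] [Group B] [Finite A]
    (p : ℕ) [Fact p.Prime] (e : A ≃* B) (h : IsPConstrained p A) : IsPConstrained p B := by
  refine (isPConstrained_iff_of_surjective p e.toMonoidHom e.surjective ?_).mp h
  have : e.toMonoidHom.ker = ⊥ := (MonoidHom.ker_eq_bot_iff _).mpr e.injective
  rw [this, Subgroup.card_bot]
  exact Nat.coprime_one_left p

/-- **Normalizers of `p`-subgroups of a `p`-constrained group are `p`-constrained.** -/
theorem isPConstrained_normalizer {X : Type u} [Group X] [Finite X] (p : ℕ) [Fact p.Prime]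
    (hX : IsPConstrained p X) {U : Subgroup X} (hU : IsPGroup p U) :
    IsPConstrained p ↥(Subgroup.normalizer (U : Set X)) := by
  have hn : (pPrimeCore p X).Normal := pPrimeCore_normal p X
  have hG : Subgroup.centralizer (pCore p (X ⧸ pPrimeCore p X) : Set (X ⧸ pPrimeCore p X))
      ≤ pCore p (X ⧸ pPrimeCore p X) :=
    (genFitting_eq_pCore_iff_centralizer p).mp
      (genFitting_eq_pCore_of_cores p (pPrimeCore_quotient_eq_bot p)
        (layer_quotient_of_isPConstrained p hX))
  have hC : pCore p (X ⧸ pPrimeCore p X) ⊓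
      Subgroup.centralizer ((U.map (QuotientGroup.mk' (pPrimeCore p X)) :
        Subgroup (X ⧸ pPrimeCore p X)) : Set (X ⧸ pPrimeCore p X))
      ≤ (Subgroup.normalizer (U : Set X)).map (QuotientGroup.mk' (pPrimeCore p X)) := by
    rintro c ⟨-, hc⟩
    obtain ⟨x, hx, rfl⟩ := exists_lift_centralizer p (not_dvd_card_pPrimeCore p) hU hc
    exact Subgroup.mem_map_of_mem _ (Subgroup.centralizer_le_normalizer _ hx)
  have hloc := genFitting_eq_pCore_of_local p hG
    (M := (Subgroup.normalizer (U : Set X)).map (QuotientGroup.mk' (pPrimeCore p X)))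
    (U := U.map (QuotientGroup.mk' (pPrimeCore p X)))
    (hU.map _) (Subgroup.map_mono Subgroup.le_normalizer) (Subgroup.le_normalizer_map _) hC
  obtain ⟨h1, h2⟩ := (genFitting_eq_pCore_iff_cores p).mp hloc
  have hφ : Function.Surjective ((QuotientGroup.mk' (pPrimeCore p X)).subgroupMap
      (Subgroup.normalizer (U : Set X))) :=
    MonoidHom.subgroupMap_surjective _ _
  have hker : (Nat.card ((QuotientGroup.mk' (pPrimeCore p X)).subgroupMap
      (Subgroup.normalizer (U : Set X))).ker).Coprime p := by
    have hle : (((QuotientGroup.mk' (pPrimeCore p X)).subgroupMap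
        (Subgroup.normalizer (U : Set X))).ker).map (Subgroup.normalizer (U : Set X)).subtype
        ≤ pPrimeCore p X := by
      rintro _ ⟨x, hx, rfl⟩
      have hx' := MonoidHom.mem_ker.mp hx
      have h3 : QuotientGroup.mk' (pPrimeCore p X) (x : X) = 1 := congrArg Subtype.val hx'
      exact (QuotientGroup.eq_one_iff _).mp h3
    have hdvd := Subgroup.card_dvd_of_le hle
    rw [card_map_subtype] at hdvd
    exact Nat.Coprime.coprime_dvd_left hdvd (pPrimeCore_coprime p)
  have h3 := pLayer_eq_bot_of_surjective p _ hφ hker h1 h2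
  exact isPConstrained_of_layer_quotient p ((pLayer_eq_bot_iff_layer_quotient p).mp h3)

/-- A nontrivial surjective image of a quasisimple group is quasisimple. -/
theorem isQuasisimple_of_surjective {K : Type u} {K' : Type v} [Group K] [Group K'] (f : K →* K')
    (hf : Function.Surjective f) (hK : IsQuasisimple K) [Nontrivial K'] : IsQuasisimple K' := by
  obtain ⟨hp, hs⟩ := hK
  have hp' : Group.IsPerfect K' := by
    have := hp
    exact Group.IsPerfect.ofSurjective (f := f) hf
  refine ⟨hp', ?_⟩
  have hle : Subgroup.center K ≤ (Subgroup.center K').comap f := by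
    intro z hz
    rw [Subgroup.mem_comap, Subgroup.mem_center_iff]
    intro g
    obtain ⟨g', rfl⟩ := hf g
    rw [← map_mul, ← map_mul, Subgroup.mem_center_iff.mp hz g']
  have hg : Function.Surjective (QuotientGroup.map (Subgroup.center K) (Subgroup.center K') f hle) := by
    intro y
    obtain ⟨y', rfl⟩ := QuotientGroup.mk'_surjective _ y
    obtain ⟨x, rfl⟩ := hf y'
    exact ⟨QuotientGroup.mk' _ x, rfl⟩
  have := hs
  have : Nontrivial (K' ⧸ Subgroup.center K') := by
    by_contra hnt
    rw [not_nontrivial_iff_subsingleton] at hnt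
    have hcomm : ∀ a b : K', a * b = b * a := by
      intro a b
      have h1 : a ∈ Subgroup.center K' := by
        have := Subsingleton.elim (QuotientGroup.mk' (Subgroup.center K') a) 1
        exact (QuotientGroup.eq_one_iff a).mp this
      exact (Subgroup.mem_center_iff.mp h1 b).symm
    have hsolv : Group.IsSolvable K' := Group.isSolvable_of_comm hcomm
    exact Group.IsPerfect.not_isSolvable K' hsolv
  exact IsSimpleGroup.isSimpleGroup_of_surjective _ hg

/-- A nontrivial surjective image of a component is a component. -/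
theorem isComponent_map_of_surjective {Y : Type u} {Y' : Type v} [Group Y] [Group Y']
    (f : Y →* Y') (hf : Function.Surjective f) {K : Subgroup Y} (hK : IsComponent K)
    (hne : K.map f ≠ ⊥) : IsComponent (K.map f) := by
  refine ⟨hK.1.map hf, ?_⟩
  have : Nontrivial ↥(K.map f) := (Subgroup.nontrivial_iff_ne_bot _).mpr hne
  exact isQuasisimple_of_surjective (f.subgroupMap K) (f.subgroupMap_surjective K) hK.2

/-- A component of a `p`-constrained group lies in `O_{p'}`. -/
theorem component_le_pPrimeCore {Y : Type u} [Group Y] [Finite Y] (p : ℕ) [Fact p.Prime]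
    (hY : IsPConstrained p Y) {K : Subgroup Y} (hK : IsComponent K) : K ≤ pPrimeCore p Y := by
  have := pPrimeCore_normal p Y
  by_contra hle
  have hne : K.map (QuotientGroup.mk' (pPrimeCore p Y)) ≠ ⊥ := by
    intro h
    rw [Subgroup.map_eq_bot_iff, QuotientGroup.ker_mk'] at h
    exact hle h
  have hc := isComponent_map_of_surjective _ (QuotientGroup.mk'_surjective _) hK hne
  exact (layer_eq_bot_iff.mp (layer_quotient_of_isPConstrained p hY)) _ hc

/-- If `O_{p'}(Q) = 1`, `t ∈ O_p(Q)` and `C_Q(t)` is `p`-constrained, then `E(Q) = 1`. -/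
theorem layer_eq_bot_of_centralizer {Q : Type u} [Group Q] [Finite Q] (p : ℕ) [Fact p.Prime]
    (hO : pPrimeCore p Q = ⊥) {t : Q} (ht : t ∈ pCore p Q)
    (hC : IsPConstrained p ↥(Subgroup.centralizer ({t} : Set Q))) : layer Q = ⊥ := by
  rw [layer_eq_bot_iff]
  intro K hK
  have hKC : K ≤ Subgroup.centralizer ({t} : Set Q) := by
    intro k hk
    rw [Subgroup.mem_centralizer_iff]
    intro x hx
    rw [Set.mem_singleton_iff] at hx
    subst hx
    exact (commute_of_commutator_eq_bot (comp_commutator_fitting hK) k hk x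
      (pCore_le_fitting p ht)).symm
  have h1 := component_le_pPrimeCore p hC (isComponent_subgroupOf hK hKC)
  have hc : (Nat.card K).Coprime p := by
    have := Nat.Coprime.coprime_dvd_left (Subgroup.card_dvd_of_le h1) (pPrimeCore_coprime p)
    rwa [Nat.card_congr (Subgroup.subgroupOfEquivOfLe hKC).toEquiv] at this
  have h2 := le_pPrimeCore_of_subnormal hK.1 hc
  rw [hO, le_bot_iff] at h2
  exact comp_ne_bot hK h2

/-- If `t ∈ O_p(H)` and `C_H(t)` is `p`-constrained, then `H` is `p`-constrained. -/
theorem isPConstrained_of_centralizer {H : Type u} [Group H] [Finite H] (p : ℕ) [Fact p.Prime]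
    {t : H} (ht : t ∈ pCore p H)
    (hC : IsPConstrained p ↥(Subgroup.centralizer ({t} : Set H))) : IsPConstrained p H := by
  have hn : (pPrimeCore p H).Normal := pPrimeCore_normal p H
  apply isPConstrained_of_layer_quotient
  have ht' : QuotientGroup.mk' (pPrimeCore p H) t ∈ pCore p (H ⧸ pPrimeCore p H) := by
    have hn' : ((pCore p H).map (QuotientGroup.mk' (pPrimeCore p H))).Normal :=
      Subgroup.Normal.map (pCore_normal p H) _ (QuotientGroup.mk'_surjective _)
    exact le_pCore_of_normal hn' ((pCore_isPGroup p).map _) (Subgroup.mem_map_of_mem _ ht)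
  apply layer_eq_bot_of_centralizer p (pPrimeCore_quotient_eq_bot p) ht'
  have hA : IsPGroup p (Subgroup.zpowers t) :=
    (pCore_isPGroup p).to_le (Subgroup.zpowers_le.mpr ht)
  have hmap : ∀ x : ↥(Subgroup.centralizer ({t} : Set H)),
      ((QuotientGroup.mk' (pPrimeCore p H)).comp (Subgroup.centralizer ({t} : Set H)).subtype) x ∈
        Subgroup.centralizer ({QuotientGroup.mk' (pPrimeCore p H) t} : Set (H ⧸ pPrimeCore p H)) := by
    rintro ⟨x, hx⟩
    rw [Subgroup.mem_centralizer_iff]
    intro y hy
    rw [Set.mem_singleton_iff] at hy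
    subst hy
    have := Subgroup.mem_centralizer_iff.mp hx t rfl
    show QuotientGroup.mk' (pPrimeCore p H) t * QuotientGroup.mk' (pPrimeCore p H) x
      = QuotientGroup.mk' (pPrimeCore p H) x * QuotientGroup.mk' (pPrimeCore p H) t
    rw [← map_mul, ← map_mul, this]
  have hφ : Function.Surjective
      (((QuotientGroup.mk' (pPrimeCore p H)).comp
        (Subgroup.centralizer ({t} : Set H)).subtype).codRestrict _ hmap) := by
    rintro ⟨c, hc⟩
    have hc' : c ∈ Subgroup.centralizer ((((Subgroup.zpowers t).map
        (QuotientGroup.mk' (pPrimeCore p H)) : Subgroup (H ⧸ pPrimeCore p H))) :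
          Set (H ⧸ pPrimeCore p H)) := by
      rw [Subgroup.mem_centralizer_iff]
      rintro _ ⟨a, ha, rfl⟩
      obtain ⟨k, rfl⟩ := Subgroup.mem_zpowers_iff.mp ha
      have h0 := Subgroup.mem_centralizer_iff.mp hc _ rfl
      have h1 : Commute (QuotientGroup.mk' (pPrimeCore p H) t) c := h0
      rw [map_zpow]
      exact (h1.zpow_left k).eq
    obtain ⟨x, hx, rfl⟩ := exists_lift_centralizer p (not_dvd_card_pPrimeCore p) hA hc'
    have hx' : x ∈ Subgroup.centralizer ({t} : Set H) := by
      rw [Subgroup.mem_centralizer_iff]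
      intro y hy
      rw [Set.mem_singleton_iff] at hy
      subst hy
      exact Subgroup.mem_centralizer_iff.mp hx y (Subgroup.mem_zpowers y)
    exact ⟨⟨x, hx'⟩, rfl⟩
  have hker : (Nat.card (((QuotientGroup.mk' (pPrimeCore p H)).comp
        (Subgroup.centralizer ({t} : Set H)).subtype).codRestrict _ hmap).ker).Coprime p := by
    have hle : ((((QuotientGroup.mk' (pPrimeCore p H)).comp
        (Subgroup.centralizer ({t} : Set H)).subtype).codRestrict _ hmap).ker).map
          (Subgroup.centralizer ({t} : Set H)).subtype ≤ pPrimeCore p H := by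
      rintro _ ⟨x, hx, rfl⟩
      have hx' := MonoidHom.mem_ker.mp hx
      have h3 : QuotientGroup.mk' (pPrimeCore p H) (x : H) = 1 := congrArg Subtype.val hx'
      exact (QuotientGroup.eq_one_iff _).mp h3
    have hdvd := Subgroup.card_dvd_of_le hle
    rw [card_map_subtype] at hdvd
    exact Nat.Coprime.coprime_dvd_left hdvd (pPrimeCore_coprime p)
  exact (isPConstrained_iff_of_surjective p _ hφ hker).mp hC

end PConstrLocal

end Cfsg.Agent.Lib.Helper30
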