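import Mathlib
import Cfsg.Agent.Lib.Helper48.QADefs

/-!
# Project QA (helper48, S2787), piece QA-QRELX

`1 + N` (`N² = 0`) acts on `e R ⊕ M e R` (`e = (N M)^j`, `j ≥ 1`) by the matrix `[[1, X], [0, 1]]`.
-/

set_option autoImplicit false

universe u

namespace Cfsg.Agent.Lib.Helper48.QA

open Matrix Polynomial

local notation "SL2" F => Matrix.SpecialLinearGroup (Fin 2) F
local notation "PSL2" F => Matrix.ProjectiveSpecialLinearGroup (Fin 2) F
local notation "M2" F => Matrix (Fin 2) (Fin 2) F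

/-- QA-QRELX -/
theorem rel_x {R : Type*} [Ring R] (N M : R) (hN : N * N = 0) (j : ℕ) (hj : 1 ≤ j) :
    Rel M (N * M) ((N * M) ^ j) (1 + N) !![1, X; 0, 1] := by
  obtain ⟨i, rfl⟩ : ∃ i, j = i + 1 := ⟨j - 1, by omega⟩
  have hNe : N * (N * M) ^ (i + 1) = 0 := by
    rw [pow_succ', ← mul_assoc, ← mul_assoc, hN, zero_mul, zero_mul]
  have h00 : (!![1, X; 0, 1] : Matrix (Fin 2) (Fin 2) ℤ[X]) 0 0 = 1 := rfl
  have h10 : (!![1, X; 0, 1] : Matrix (Fin 2) (Fin 2) ℤ[X]) 1 0 = 0 := rfl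
  have h01 : (!![1, X; 0, 1] : Matrix (Fin 2) (Fin 2) ℤ[X]) 0 1 = X := rfl
  have h11 : (!![1, X; 0, 1] : Matrix (Fin 2) (Fin 2) ℤ[X]) 1 1 = 1 := rfl
  unfold Rel
  rw [h00, h10, h01, h11, aeval_X, map_one, map_zero]
  constructor
  · rw [add_mul, hNe]
    noncomm_ring
  · noncomm_ring

end Cfsg.Agent.Lib.Helper48.QA
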