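import Mathlib
import Cfsg.Agent.S0999
import Cfsg.Agent.Lib.Helper6.PSLCard

/-!
# S4501, piece C8: a nonabelian simple group of order `3p(p ± 1)` has order 60 or 168 (helper30)
-/

set_option autoImplicit false
set_option linter.style.haveILetI false

namespace Cfsg.Agent.Lib.Helper30.S4501.C8

/-- C8 -/
theorem small_order {G : Type*} [Group G] [Finite G] [IsSimpleGroup G]
    (hna : ∃ x y : G, x * y ≠ y * x) (p : ℕ) (hp : p.Prime) (hp5 : 5 ≤ p)
    (h : Nat.card G = 3 * p * (p - 1) ∨ Nat.card G = 3 * p * (p + 1)) :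
    Nat.card G = 60 ∨ Nat.card G = 168 := by
  have hncyc : ¬ IsCyclic G := by
    intro hc
    obtain ⟨x, y, hxy⟩ := hna
    obtain ⟨g, hg⟩ := hc.exists_generator
    obtain ⟨m, rfl⟩ := Subgroup.mem_zpowers_iff.mp (hg x)
    obtain ⟨n, rfl⟩ := Subgroup.mem_zpowers_iff.mp (hg y)
    exact hxy (by rw [← zpow_add, ← zpow_add, add_comm])
  obtain ⟨k, rfl⟩ : ∃ k : ℕ, p = k + 1 := ⟨p - 1, by omega⟩
  have hk4 : 4 ≤ k := by omega
  have hsub : k + 1 - 1 = k := by omega
  rw [hsub] at h
  have hdvd : k + 1 ∣ Nat.card G := by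
    rcases h with h | h
    · rw [h]; exact Dvd.dvd.mul_right (Dvd.intro_left 3 rfl) _
    · rw [h]; exact Dvd.dvd.mul_right (Dvd.intro_left 3 rfl) _
  have hbig : Nat.card G < (k + 1) ^ 3 := by
    rcases h with h | h
    · rw [h]; nlinarith
    · rw [h]; nlinarith
  rcases Cfsg.Agent.S0999.result hncyc (k + 1) hp hdvd hbig with
    ⟨F, hF1, hF2, hc, hp3, ⟨f⟩⟩ | ⟨m, F, hF1, hF2, hc, hpm, hp3, ⟨f⟩⟩
  · letI := hF1
    letI := hF2
    have hcard := Nat.card_congr f.toEquiv
    have h1 := Cfsg.Agent.Lib.Helper6.card_psl hc 2 (by norm_num)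
    rw [Fin.prod_univ_two, ← hcard, hsub] at h1
    simp only [Fin.val_zero, Fin.val_one, pow_zero, pow_one] at h1
    -- k is even
    have hkeven : 2 ∣ k := by
      obtain ⟨t, ht⟩ := hp.odd_of_ne_two (by omega)
      omega
    have hgcd : Nat.gcd 2 k = 2 := Nat.gcd_eq_left hkeven
    rw [hgcd] at h1
    have e1 : (k + 1) ^ 2 - 1 = k * (k + 2) := by
      have : (k + 1) ^ 2 = k * (k + 2) + 1 := by ring
      omega
    have e2 : (k + 1) ^ 2 - (k + 1) = (k + 1) * k := by
      have : (k + 1) ^ 2 = (k + 1) * k + (k + 1) := by ring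
      omega
    rw [e1, e2] at h1
    have hkpos : 0 < k := by omega
    have h2 : 2 * Nat.card G = (k + 2) * (k + 1) * k := by
      have : k * (2 * Nat.card G) = k * ((k + 2) * (k + 1) * k) := by linarith
      exact Nat.eq_of_mul_eq_mul_left hkpos this
    rcases h with h | h
    · left
      rw [h] at h2
      have h3 : (k + 1) * k * 6 = (k + 1) * k * (k + 2) := by linarith
      have h4 : 6 = k + 2 := Nat.eq_of_mul_eq_mul_left (by positivity) h3
      have : k = 4 := by omega
      rw [h, this]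
    · right
      rw [h] at h2
      have h3 : (k + 1) * (k + 1 + 1) * 6 = (k + 1) * (k + 1 + 1) * k := by linarith
      have h4 : 6 = k := Nat.eq_of_mul_eq_mul_left (by positivity) h3
      rw [h, ← h4]
  · letI := hF1
    letI := hF2
    have hcard := Nat.card_congr f.toEquiv
    have h1 := Cfsg.Agent.Lib.Helper6.card_psl hc 2 (by norm_num)
    rw [Fin.prod_univ_two, ← hcard] at h1
    simp only [Fin.val_zero, Fin.val_one, pow_zero, pow_one] at h1
    have hkm : k = 2 ^ m := by omega
    rw [← hkm] at h1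
    have hm1 : 1 ≤ m := by
      rcases Nat.eq_zero_or_pos m with h0 | h0
      · rw [h0] at hkm; omega
      · exact h0
    have hkeven : 2 ∣ k := by rw [hkm]; exact dvd_pow_self 2 (by omega)
    obtain ⟨j, rfl⟩ : ∃ j : ℕ, k = j + 1 := ⟨k - 1, by omega⟩
    have hsub2 : j + 1 - 1 = j := by omega
    rw [hsub2] at h1
    have hjodd : ¬ 2 ∣ j := by omega
    have hgcd : Nat.gcd 2 j = 1 :=
      (Nat.Prime.coprime_iff_not_dvd Nat.prime_two).mpr hjodd
    rw [hgcd, one_mul] at h1
    have e1 : (j + 1) ^ 2 - 1 = j * (j + 2) := by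
      have : (j + 1) ^ 2 = j * (j + 2) + 1 := by ring
      omega
    have e2 : (j + 1) ^ 2 - (j + 1) = (j + 1) * j := by
      have : (j + 1) ^ 2 = (j + 1) * j + (j + 1) := by ring
      omega
    rw [e1, e2] at h1
    have hjpos : 0 < j := by omega
    have h2 : Nat.card G = (j + 2) * (j + 1) * j := by
      have : j * Nat.card G = j * ((j + 2) * (j + 1) * j) := by linarith
      exact Nat.eq_of_mul_eq_mul_left hjpos this
    rcases h with h | h
    · left
      rw [h] at h2
      have h3 : (j + 1 + 1) * (j + 1) * 3 = (j + 1 + 1) * (j + 1) * j := by linarith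
      have h4 : 3 = j := Nat.eq_of_mul_eq_mul_left (by positivity) h3
      rw [h, ← h4]
    · exfalso
      rw [h] at h2
      have h3 : (j + 1 + 1) * (3 * (j + 1 + 1 + 1)) = (j + 1 + 1) * ((j + 1) * j) := by linarith
      have h4 : 3 * (j + 1 + 1 + 1) = (j + 1) * j := Nat.eq_of_mul_eq_mul_left (by positivity) h3
      have hj3 : 3 ≤ j := by omega
      rcases Nat.lt_or_ge j 5 with h5 | h5
      · interval_cases j <;> omega
      · nlinarith

end Cfsg.Agent.Lib.Helper30.S4501.C8
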