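import Mathlib
import Cfsg.Prelude.Def_Blocks
import Cfsg.Agent.Lib.Helper82.PQ
import Cfsg.Agent.Lib.Helper82.CharCore
import Cfsg.Agent.Lib.Helper64.S4501C1
import Cfsg.Agent.Lib.Helper82.S4501C2a
import Cfsg.Agent.Lib.Helper17.S4501C2b
import Cfsg.Agent.Lib.Helper63.S4501C3a
import Cfsg.Agent.Lib.Helper19.S4501C3b
import Cfsg.Agent.Lib.Helper67.S4501C4
import Cfsg.Agent.Lib.Helper34.S4501C5
import Cfsg.Agent.Lib.Helper30.S4501C7
import Cfsg.Agent.Lib.Helper30.S4501C8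
import Cfsg.Agent.Lib.Helper17.S4501C9
import Cfsg.Agent.Lib.Helper30.S4501A1
import Cfsg.Agent.Lib.Helper16.S4501A2

/-!
# S4501, part 2 core: a nonabelian simple group of order `3 p^a 2^b` (`a ≤ 2`) has order 60 or 168 (helper30)
-/

set_option autoImplicit false
open Cfsg
open scoped ComplexConjugate

namespace Cfsg.Agent.Lib.Helper30.S4501

/-- Part 2 core (assembly). -/
theorem core {G : Type*} [Group G] [Finite G] [IsSimpleGroup G]
    (hna : ∃ x y : G, x * y ≠ y * x) (p a b : ℕ) (hp : p.Prime) (hp5 : 5 ≤ p) (ha : a ≤ 2)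
    (hG : Nat.card G = 3 * p ^ a * 2 ^ b) : Nat.card G = 60 ∨ Nat.card G = 168 := by
  classical
  haveI : Fact (Nat.Prime 3) := ⟨Nat.prime_three⟩
  obtain ⟨M, hM⟩ := Cfsg.Agent.Lib.Helper82.exists_isPModular 3
  obtain ⟨P⟩ : Nonempty (Sylow 3 G) := inferInstance
  obtain ⟨hP, hC, hxs⟩ := C1.sylow_three p a b hp hp5 hG P
  obtain ⟨x, hxP, hx1⟩ : ∃ x ∈ (P : Subgroup G), x ≠ 1 := by
    by_contra hcon
    push Not at hcon
    have hbot : (P : Subgroup G) = ⊥ := (Subgroup.eq_bot_iff_forall _).mpr hcon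
    have : Nat.card (P : Subgroup G) = 1 := by rw [hbot]; exact Subgroup.card_bot
    have hP' : Nat.card (P : Subgroup G) = 3 := hP
    omega
  obtain ⟨hx3, hCx⟩ := hxs x hxP hx1
  have hN := C2a.relIndex_two hna P hP hC
  obtain ⟨τ, hτ, hcount, hconj⟩ := C2b.involution_pairs P hP hC hN x hxP hx1
  obtain ⟨ζ, ζ', h1, h2, h3, hB, hdeg, hd2, h3d, h3d', hreg, hor⟩ :=
    C3a.three_block hna M hM P hP hN x hxP hx1
  have hCx3 : Nat.card (Subgroup.centralizer ({x} : Set G)) = 3 := by rw [hCx]; exact hP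
  obtain ⟨hzx, hzx', hvan⟩ := C3b.three_block_values M hM x hx3 hCx3 ζ ζ' h1 h2 h3 hB hdeg hor
  set d := Cfsg.charDegree (ζ : G → ℂ) with hd
  have hτ3 : ¬ 3 ∣ orderOf τ := by rw [hτ]; norm_num
  obtain ⟨w, hw0, hw2, hwτ⟩ := C5.involution_value hna ζ h1 τ hτ
  have hGpos : 0 < Nat.card G := Nat.card_pos
  -- one class of involutions
  have hone : ∀ t : G, orderOf t = 2 → IsConj τ t := by
    intro t ht
    obtain ⟨w', hw'0, hw'2, hwt⟩ := C5.involution_value hna ζ h1 t ht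
    have hf := C4.count_formula x ζ ζ' h1 h2 h3 hdeg hzx hzx' hreg hvan τ t hτ3
      (by rw [ht]; norm_num)
    rw [hwτ, hwt] at hf
    apply hconj t ht
    by_contra hne
    have hempty : Nat.card {p : G × G // IsConj τ p.1 ∧ IsConj t p.2 ∧ p.1 * p.2 = x} = 0 := by
      rw [Nat.card_eq_zero]
      left
      exact ⟨fun ⟨q, hq⟩ => hne ⟨q, hq⟩⟩
    rw [hempty] at hf
    have hz : (Nat.card G : ℂ) * (w : ℂ) * (w' : ℂ) = 0 := by
      rw [← hd] at hf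
      have e1 : ((d : ℂ) - ((d : ℂ) - (w : ℂ))) = (w : ℂ) := by ring
      have e2 : ((d : ℂ) - ((d : ℂ) - (w' : ℂ))) = (w' : ℂ) := by ring
      rw [e1, e2] at hf
      rw [← hf]; simp
    have hz' : Nat.card G * w * w' = 0 := by exact_mod_cast hz
    have := Nat.mul_pos (Nat.mul_pos hGpos hw0) hw'0
    omega
  obtain ⟨j, hja, hCτ⟩ := C9.centralizer_involution p a b hp hp5 hG
    (fun S => ⟨(C1.sylow_three p a b hp hp5 hG S).1, (C1.sylow_three p a b hp hp5 hG S).2.1⟩)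
    τ hτ hone
  have hf := C4.count_formula x ζ ζ' h1 h2 h3 hdeg hzx hzx' hreg hvan τ τ hτ3 hτ3
  rw [hcount, hCτ, hwτ, hG, ← hd] at hf
  have heq : 3 * (2 ^ b * p ^ j) ^ 2 * (d * (d + 1)) = 3 * p ^ a * 2 ^ b * w ^ 2 := by
    have : ((3 * (2 ^ b * p ^ j) ^ 2 * (d * (d + 1)) : ℕ) : ℂ) =
        ((3 * p ^ a * 2 ^ b * w ^ 2 : ℕ) : ℂ) := by
      push_cast
      push_cast at hf
      linear_combination hf
    exact_mod_cast this
  have hdG : d ∣ 3 * p ^ a * 2 ^ b := by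
    rw [← hG]; exact Cfsg.Agent.Lib.Helper82.irr_degree_dvd_card ζ
  have hd'G : d + 1 ∣ 3 * p ^ a * 2 ^ b := by
    rw [← hG, ← hdeg]; exact Cfsg.Agent.Lib.Helper82.irr_degree_dvd_card ζ'
  obtain ⟨s, hs2, hsb, ha1, hds⟩ := A1.arith_degrees p a b d hp hp5 ha hd2 hdG hd'G h3d h3d'
  obtain ⟨ha1', hj0, hbs⟩ := A2.arith_main p a b s d j w hp hp5 ha ha1 hs2 hsb hds hja hw0 hw2 heq
  rcases hbs with hbs | ⟨hbs, hd2s, hw2d⟩
  · apply C8.small_order hna p hp hp5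
    rw [hG, ha1', hbs, pow_one]
    rcases hds with ⟨hd1, hd2'⟩ | ⟨hd1, hd2'⟩
    · left
      have : p - 1 = 2 ^ s := by omega
      rw [this]
    · right
      have : p + 1 = 2 ^ s := by omega
      rw [this]
  · exfalso
    have h7 := C7.three_terms ζ ζ' h1 h2 h3 τ
    have hζτ : (ζ : G → ℂ) τ = -(d : ℂ) := by
      rw [hwτ, hw2d]; push_cast; ring
    have hζ'τ : (ζ' : G → ℂ) τ = 1 - (d : ℂ) := by
      rw [hreg τ hτ3, hζτ]; ring
    have hn1 : ‖(ζ : G → ℂ) τ‖ ^ 2 = (d : ℝ) ^ 2 := by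
      rw [hζτ, norm_neg, Complex.norm_natCast]
    have hn2 : ‖(ζ' : G → ℂ) τ‖ ^ 2 = ((d : ℝ) - 1) ^ 2 := by
      rw [hζ'τ]
      have : (1 : ℂ) - (d : ℂ) = ((1 - (d : ℝ) : ℝ) : ℂ) := by push_cast; ring
      rw [this, Complex.norm_real, Real.norm_eq_abs, sq_abs]; ring
    rw [hn1, hn2, hCτ, hj0, hbs, pow_zero, mul_one] at h7
    have h4d : (2 : ℕ) ^ (s + 2) = 4 * d := by rw [hd2s]; ring
    rw [h4d] at h7
    have hd4 : (4 : ℝ) ≤ (d : ℝ) := by
      have : 4 ≤ d := by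
        rw [hd2s]
        calc 4 = 2 ^ 2 := by norm_num
          _ ≤ 2 ^ s := Nat.pow_le_pow_right (by norm_num) hs2
      exact_mod_cast this
    push_cast at h7
    nlinarith

end Cfsg.Agent.Lib.Helper30.S4501
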