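import Cfsg.Agent.Lib.Helper47.S76Defs

/-!
# S5976 project, piece INV2A: the characteristic polynomial of a symplectic `Y` with `Y² = -1`

Route (no factorisation needed): `Yᵀ = J⁻¹ (-Y) J`, so `charpoly Y = charpoly (-Y)`, and
`charpoly Y * charpoly (-Y) = det ((X - Y)(X + Y)) = det ((X² + 1) • 1) = (X² + 1)^(2d)`; two monic
polynomials with equal squares are equal (characteristic `≠ 2`).
-/

set_option autoImplicit false

universe u

namespace Cfsg.Agent.Lib.Helper30.S76INV2A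

open Matrix Polynomial Cfsg.Agent.Lib.Helper47 Cfsg.Agent.Lib.Helper47.S76

variable {F : Type u} [Field F]

theorem charpoly_neg_eq (d : ℕ) (Y : Matrix (Fin d ⊕ Fin d) (Fin d ⊕ Fin d) F)
    (hY : Y ∈ Matrix.symplecticGroup (Fin d) F) (hY2 : Y * Y = -1) :
    (-Y).charpoly = Y.charpoly := by
  rw [SymplecticGroup.mem_iff] at hY
  -- J * Yᵀ = (-Y) * J
  have h1 : Matrix.J (Fin d) F * Yᵀ = (-Y) * Matrix.J (Fin d) F := by
    have h : (-Y) * (Y * Matrix.J (Fin d) F * Yᵀ) = (-Y) * Matrix.J (Fin d) F := by rw [hY]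
    rw [← Matrix.mul_assoc, ← Matrix.mul_assoc, Matrix.neg_mul, hY2, neg_neg, Matrix.one_mul] at h
    exact h
  have hJJ : Matrix.J (Fin d) F * (-Matrix.J (Fin d) F) = 1 := by
    rw [Matrix.mul_neg, Matrix.J_squared, neg_neg]
  have hJJ' : (-Matrix.J (Fin d) F) * Matrix.J (Fin d) F = 1 := by
    rw [Matrix.neg_mul, Matrix.J_squared, neg_neg]
  have h2 : Yᵀ = (-Matrix.J (Fin d) F) * ((-Y) * Matrix.J (Fin d) F) := by
    rw [← h1, ← Matrix.mul_assoc, hJJ', Matrix.one_mul]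
  calc (-Y).charpoly = ((-Y) * Matrix.J (Fin d) F * (-Matrix.J (Fin d) F)).charpoly := by
        rw [Matrix.mul_assoc, hJJ, Matrix.mul_one]
    _ = ((-Matrix.J (Fin d) F) * ((-Y) * Matrix.J (Fin d) F)).charpoly :=
        Matrix.charpoly_mul_comm _ _
    _ = (Yᵀ).charpoly := by rw [← h2]
    _ = Y.charpoly := Matrix.charpoly_transpose Y

theorem charpoly_mul_charpoly_neg (d : ℕ) (Y : Matrix (Fin d ⊕ Fin d) (Fin d ⊕ Fin d) F)
    (hY2 : Y * Y = -1) :
    Y.charpoly * (-Y).charpoly = ((X ^ 2 + C (1 : F)) ^ d) ^ 2 := by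
  unfold Matrix.charpoly Matrix.charmatrix
  rw [← Matrix.det_mul]
  have hmap : (C : F →+* F[X]).mapMatrix Y * (C : F →+* F[X]).mapMatrix Y = -1 := by
    rw [← map_mul, hY2, map_neg, map_one]
  have hcomm : Matrix.scalar (Fin d ⊕ Fin d) (X : F[X]) * (C : F →+* F[X]).mapMatrix Y
      = (C : F →+* F[X]).mapMatrix Y * Matrix.scalar (Fin d ⊕ Fin d) (X : F[X]) :=
    (Matrix.scalar_commute (X : F[X]) (fun r' => mul_comm _ _) _).eq
  have hprod : (Matrix.scalar (Fin d ⊕ Fin d) (X : F[X]) - (C : F →+* F[X]).mapMatrix Y) *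
      (Matrix.scalar (Fin d ⊕ Fin d) (X : F[X]) - (C : F →+* F[X]).mapMatrix (-Y))
      = (X ^ 2 + C (1 : F)) • (1 : Matrix (Fin d ⊕ Fin d) (Fin d ⊕ Fin d) F[X]) := by
    rw [map_neg, sub_neg_eq_add, Matrix.sub_mul, Matrix.mul_add, Matrix.mul_add, hcomm, hmap]
    have hs : Matrix.scalar (Fin d ⊕ Fin d) (X : F[X]) * Matrix.scalar (Fin d ⊕ Fin d) (X : F[X])
        = (X ^ 2 : F[X]) • (1 : Matrix (Fin d ⊕ Fin d) (Fin d ⊕ Fin d) F[X]) := by
      rw [← map_mul, ← sq, Matrix.scalar_apply, ← Matrix.smul_one_eq_diagonal]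
    rw [hs, add_smul, map_one, one_smul]
    abel
  rw [hprod, Matrix.det_smul, Matrix.det_one, mul_one]
  simp only [Fintype.card_sum, Fintype.card_fin]
  rw [← pow_mul, ← two_mul, mul_comm]

-- PIECE INV2A
theorem charpoly_neg (d : ℕ) (h2 : (2 : F) ≠ 0) (Y : Matrix (Fin d ⊕ Fin d) (Fin d ⊕ Fin d) F)
    (hY : Y ∈ Matrix.symplecticGroup (Fin d) F) (hY2 : Y * Y = -1) :
    Y.charpoly = (X ^ 2 + C (1 : F)) ^ d := by
  have h1 := charpoly_mul_charpoly_neg d Y hY2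
  rw [charpoly_neg_eq d Y hY hY2, ← sq] at h1
  have hmon : Y.charpoly.Monic := Matrix.charpoly_monic Y
  have hmon2 : ((X ^ 2 + C (1 : F)) ^ d).Monic :=
    (monic_X_pow_add_C (1 : F) (by norm_num)).pow d
  rcases sq_eq_sq_iff_eq_or_eq_neg.mp h1 with h | h
  · exact h
  · exfalso
    have hl := congrArg Polynomial.leadingCoeff h
    rw [hmon.leadingCoeff, leadingCoeff_neg, hmon2.leadingCoeff] at hl
    apply h2
    have : (1 : F) + 1 = 0 := by
      nth_rewrite 1 [hl]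
      ring
    rw [← this]; norm_num

end Cfsg.Agent.Lib.Helper30.S76INV2A
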