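import Cfsg.Agent.Lib.Helper41.TW5
import Cfsg.Agent.Lib.Helper41.TW6
import Cfsg.Agent.Lib.Helper41.PSub

set_option autoImplicit false

namespace Cfsg.Agent.Lib.Helper30.WBP

open Cfsg Cfsg.Agent.Lib.Helper66 Cfsg.Agent.Lib.Helper41 Cfsg.Agent.Lib.Helper41.TW

/-- Piece WB-IDX1: the index of the core `A1` in `X` divides `|X : X ∩ Y|!`. -/
theorem idx1 {G : Type*} [Group G] [Finite G] {X Y A1 B1 A2 B2 : Subgroup G}
    (S : Setting X Y A1 B1 A2 B2) :
    A1.relIndex X ∣ (Y.relIndex X).factorial := by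
  have h : A1.subgroupOf X = (Y.subgroupOf X).normalCore := by
    ext ⟨b, hb⟩
    rw [Subgroup.mem_subgroupOf]
    constructor
    · intro hbA c
      rw [Subgroup.mem_subgroupOf]
      exact ((S.mA1 b).mp hbA).2 c c.2
    · intro hcore
      refine (S.mA1 b).mpr ⟨hb, fun x hx => ?_⟩
      have := hcore ⟨x, hx⟩
      rw [Subgroup.mem_subgroupOf] at this
      exact this
  show (A1.subgroupOf X).index ∣ ((Y.subgroupOf X).index).factorial
  rw [h]
  exact index_normalCore_dvd _

end Cfsg.Agent.Lib.Helper30.WBP
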