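import Cfsg.Agent.Lib.Helper41.TW5
import Cfsg.Agent.Lib.Helper41.TW6
import Cfsg.Agent.Lib.Helper41.PSub

set_option autoImplicit false

namespace Cfsg.Agent.Lib.Helper30.WBP

open Cfsg Cfsg.Agent.Lib.Helper66 Cfsg.Agent.Lib.Helper41 Cfsg.Agent.Lib.Helper41.TW

/-- Piece WB-IDX2: the index of `B1` in `A1` divides `(|Y : X ∩ Y| - 1)!`. -/
theorem idx2 {G : Type*} [Group G] [Finite G] {X Y A1 B1 A2 B2 : Subgroup G}
    (S : Setting X Y A1 B1 A2 B2) :
    B1.relIndex A1 ∣ (X.relIndex Y - 1).factorial := by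
  have h : (X.subgroupOf Y).normalCore = B1.subgroupOf Y := by
    ext ⟨b, hb⟩
    rw [Subgroup.mem_subgroupOf]
    constructor
    · intro hcore
      refine (S.mB1 b).mpr ⟨hb, fun y hy => ?_⟩
      have := hcore ⟨y, hy⟩
      rw [Subgroup.mem_subgroupOf] at this
      exact this
    · intro hbB c
      rw [Subgroup.mem_subgroupOf]
      exact ((S.mB1 b).mp hbB).2 c c.2
  have hA : A1.subgroupOf Y ≤ X.subgroupOf Y := by
    intro a ha
    rw [Subgroup.mem_subgroupOf] at ha ⊢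
    exact S.A1_le_X ha
  have key := relIndex_normalCore_dvd (X.subgroupOf Y) (A1.subgroupOf Y) hA
  rw [h, Subgroup.relIndex_subgroupOf S.A1_le_Y] at key
  exact key

end Cfsg.Agent.Lib.Helper30.WBP
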