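import Cfsg.Agent.Lib.Helper41.TW5
import Cfsg.Agent.Lib.Helper41.TW6
import Cfsg.Agent.Lib.Helper41.PSub

set_option autoImplicit false

namespace Cfsg.Agent.Lib.Helper30.WBP

open Cfsg Cfsg.Agent.Lib.Helper66 Cfsg.Agent.Lib.Helper41 Cfsg.Agent.Lib.Helper41.TW

/-- Piece WB-IDX3I: `A2` is the intersection of `A1` with the conjugates of `B1` under coset
representatives of `X ∩ Y` in `X`. -/
theorem idx3I {G : Type*} [Group G] [Finite G] {X Y A1 B1 A2 B2 : Subgroup G}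
    (S : Setting X Y A1 B1 A2 B2) :
    A2.subgroupOf A1 = ⨅ q : ↥X ⧸ Y.subgroupOf X,
      (B1.map (MulAut.conj ((Quotient.out q : ↥X) : G)).toMonoidHom).subgroupOf A1 := by
  ext ⟨b, hb⟩
  rw [Subgroup.mem_iInf, Subgroup.mem_subgroupOf]
  constructor
  · intro hbA q
    rw [Subgroup.mem_subgroupOf, mem_map_conj_iff]
    have hq : ((Quotient.out q : ↥X) : G)⁻¹ ∈ X := inv_mem (Quotient.out q).2
    have h := (((S.mA2 b).mp hbA).2 _ hq).2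
    rw [inv_inv] at h
    exact h
  · intro hall
    refine (S.mA2 b).mpr ⟨S.A1_le_X hb, fun x hx => ⟨conj_mem (S.X_norm_A1 hx) hb, ?_⟩⟩
    have hxi : x⁻¹ ∈ X := inv_mem hx
    obtain ⟨y, hy⟩ := QuotientGroup.mk_out_eq_mul (Y.subgroupOf X) (⟨x⁻¹, hxi⟩ : ↥X)
    have hq := hall ((⟨x⁻¹, hxi⟩ : ↥X) : ↥X ⧸ Y.subgroupOf X)
    rw [Subgroup.mem_subgroupOf, mem_map_conj_iff] at hq
    have hy' : ((Quotient.out ((⟨x⁻¹, hxi⟩ : ↥X) : ↥X ⧸ Y.subgroupOf X) : ↥X) : G)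
        = x⁻¹ * ((y : ↥X) : G) := by
      rw [hy]; rfl
    rw [hy'] at hq
    have hyY : ((y : ↥X) : G) ∈ Y := Subgroup.mem_subgroupOf.mp y.2
    have h := conj_mem (S.Y_norm_B1 hyY) hq
    have e : ((y : ↥X) : G) * ((x⁻¹ * ((y : ↥X) : G))⁻¹ * b * (x⁻¹ * ((y : ↥X) : G)))
        * ((y : ↥X) : G)⁻¹ = x * b * x⁻¹ := by group
    rw [e] at h
    exact h

end Cfsg.Agent.Lib.Helper30.WBP
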