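import Cfsg.Agent.Lib.Helper41.TW5
import Cfsg.Agent.Lib.Helper41.TW6
import Cfsg.Agent.Lib.Helper41.PSub

set_option autoImplicit false

namespace Cfsg.Agent.Lib.Helper30.WBP

open Cfsg Cfsg.Agent.Lib.Helper66 Cfsg.Agent.Lib.Helper41 Cfsg.Agent.Lib.Helper41.TW

/-- Piece WB-IDX3N: a conjugate `x B1 x⁻¹` (`x ∈ X`) meets `A1` in a normal subgroup of index
`|A1 : A1 ∩ B1|`. -/
theorem idx3N {G : Type*} [Group G] [Finite G] {X Y A1 B1 A2 B2 : Subgroup G}
    (S : Setting X Y A1 B1 A2 B2) {x : G} (hx : x ∈ X) :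
    ((B1.map (MulAut.conj x).toMonoidHom).subgroupOf A1).Normal ∧
      ((B1.map (MulAut.conj x).toMonoidHom).subgroupOf A1).index = B1.relIndex A1 := by
  constructor
  · apply Subgroup.normal_subgroupOf_of_le_normalizer
    apply le_normalizer_of_conj
    intro a ha n hn
    rw [mem_map_conj_iff] at hn ⊢
    have ha' : x⁻¹ * a * x ∈ A1 := conj_mem' (S.X_norm_A1 hx) ha
    have h := conj_mem (S.A1_norm_B1 ha') hn
    have e : x⁻¹ * (a * n * a⁻¹) * x = x⁻¹ * a * x * (x⁻¹ * n * x) * (x⁻¹ * a * x)⁻¹ := by group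
    rw [e]
    exact h
  · show (B1.map (MulAut.conj x).toMonoidHom).relIndex A1 = B1.relIndex A1
    have hA : A1.map (MulAut.conj x).toMonoidHom = A1 :=
      map_conj_eq_of_mem_normalizer (S.X_norm_A1 hx)
    conv_lhs => rw [← hA]
    exact Subgroup.relIndex_map_map_of_injective B1 A1 (MulAut.conj x).injective

end Cfsg.Agent.Lib.Helper30.WBP
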